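import Mathlib
import Cfsg.Agent.Lib.Known3.SimAut6

/-! The parity of similarities and the maximal totally singular subspaces. -/

set_option autoImplicit false
set_option linter.unusedSectionVars false

namespace Cfsg.Agent.Lib.Known3.SimAut

open Cfsg.Agent.Lib.Classical.Witt Cfsg.Agent.Lib.Classical.Abs Cfsg.Agent.Lib.Classical
open Cfsg.Agent.Lib.Classical.Orth Cfsg.Agent.Lib.Known3.Spinor Cfsg.Agent.Lib.Known3.OmegaCalc
open Cfsg.Agent.Lib.Known3.OmegaTrans
open Matrix Module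
open scoped commutatorElement

local notation "P" => QuadraticMap.polarBilin

section generic

variable {F V : Type*} [Field F] [AddCommGroup V] [Module F V] [FiniteDimensional F V]

lemma exists_sub_dim (W : Submodule F V) : ∀ k ≤ finrank F W, ∃ W' ≤ W, finrank F W' = k := by
  intro k
  induction k with
  | zero =>
    intro _
    exact ⟨⊥, bot_le, by simp⟩
  | succ k ih =>
    intro hk
    obtain ⟨W', h1, h3⟩ := ih (by omega)
    have hne : ∃ x ∈ W, x ∉ W' := by
      by_contra hcon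
      push Not at hcon
      have : W = W' := le_antisymm hcon h1
      rw [← this] at h3
      omega
    obtain ⟨x, hx, hx'⟩ := hne
    refine ⟨W' ⊔ Submodule.span F {x}, sup_le h1 ((Submodule.span_singleton_le_iff_mem _ _).2 hx), ?_⟩
    rw [Submodule.finrank_sup_span_singleton hx', h3]

end generic

section lagr

variable {ι : Type} [Fintype ι] [DecidableEq ι] {F : Type*} [Field F] {Q : QuadraticForm F (ι → F)} {m : ℕ}

lemma image_eq (g : Matrix ι ι F) (U : Submodule F (ι → F)) : Cfsg.imageSubmodule g U = U.map (Matrix.mulVecLin g) := rfl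

lemma image_mul (A B : Matrix ι ι F) (U : Submodule F (ι → F)) :
    Cfsg.imageSubmodule (A * B) U = Cfsg.imageSubmodule A (Cfsg.imageSubmodule B U) := by
  simp only [Cfsg.imageSubmodule, Matrix.toLin'_mul, Submodule.map_comp]

lemma image_scal (c : F) (hc : c ≠ 0) (A : Matrix ι ι F) (U : Submodule F (ι → F)) :
    Cfsg.imageSubmodule (c • A) U = Cfsg.imageSubmodule A U := by
  ext x
  simp only [Cfsg.imageSubmodule, Submodule.mem_map, Matrix.toLin'_apply, Matrix.smul_mulVec]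
  constructor
  · rintro ⟨u, hu, rfl⟩
    exact ⟨c • u, U.smul_mem _ hu, by rw [Matrix.mulVec_smul]⟩
  · rintro ⟨u, hu, rfl⟩
    exact ⟨c⁻¹ • u, U.smul_mem _ hu, by rw [Matrix.mulVec_smul, smul_smul, mul_inv_cancel₀ hc, one_smul]⟩

lemma image_iso (g : Cfsg.isometryGroup F (⇑Q)) (U : Submodule F (ι → F)) :
    Cfsg.imageSubmodule g.1.1 U = im (toOG Q g) U := by
  rw [image_eq, map_mulVecLin]

variable [Fintype F]

/-- All maximal totally singular subspaces are Lagrangian when one Lagrangian exists. -/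
lemma lagr_of_max (hQ : (P Q).Nondegenerate) (hV : finrank F (ι → F) = 2 * m) {U₀ U : Submodule F (ι → F)} (hU₀ : IsLagr Q m U₀)
    (hU : Cfsg.IsMaxTotallySingular (⇑Q) U) : IsLagr Q m U := by
  have hts : ∀ u ∈ U, Q u = 0 := hU.1
  have hle : finrank F U ≤ m := by
    have h1 := Submodule.finrank_mono (ts_le_orth hts)
    have h3 := LinearMap.BilinForm.finrank_orthogonal hQ U
    omega
  refine ⟨?_, hts⟩
  obtain ⟨U₁, h1, h3⟩ := exists_sub_dim U₀ (finrank F U) (by rw [hU₀.dim]; exact hle)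
  obtain ⟨g, -, hg⟩ := exists_OG_of_equiv (Q := Q) hQ U U₁ (LinearEquiv.ofFinrankEq U U₁ h3.symm) (by
    intro x
    rw [hU₀.ts _ (h1 (LinearEquiv.ofFinrankEq U U₁ h3.symm x).2), hts _ x.2])
  have h4 : U ≤ im g⁻¹ U₀ := by
    intro u hu
    rw [mem_im]
    refine ⟨g.1 u, h1 (by rw [← hg]; exact mem_im.2 ⟨u, hu, rfl⟩), ?_⟩
    have : (g⁻¹ * g).1 u = u := by
      rw [inv_mul_cancel]
      rfl
    exact this
  have h5 := hU.2 (im g⁻¹ U₀) (isLagr_im hU₀ g⁻¹).ts h4
  rw [← h5]
  exact (isLagr_im hU₀ g⁻¹).dim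

lemma max_of_lagr (hQ : (P Q).Nondegenerate) (hV : finrank F (ι → F) = 2 * m) {U : Submodule F (ι → F)} (hU : IsLagr Q m U) :
    Cfsg.IsMaxTotallySingular (⇑Q) U := by
  refine ⟨hU.ts, ?_⟩
  intro W hW hUW
  have h1 := Submodule.finrank_mono (ts_le_orth (Q := Q) hW)
  have h3 := LinearMap.BilinForm.finrank_orthogonal hQ W
  symm
  apply Submodule.eq_of_le_of_finrank_le hUW
  rw [hU.dim]
  omega

/-- The parity of an isometry. -/
theorem parity_iso (h2 : (2 : F) ≠ 0) (hQ : (P Q).Nondegenerate) (hV : finrank F (ι → F) = 2 * m) {U : Submodule F (ι → F)} (hU : IsLagr Q m U)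
    (k : Cfsg.isometryGroup F (⇑Q)) :
    Cfsg.SameParityClass U (Cfsg.imageSubmodule k.1.1 U) ↔ k.1.1.det = 1 := by
  obtain ⟨L, hL⟩ := exists_list_of h2 hQ k
  have hne1 : (-1 : F) ≠ 1 := fun h5 => h2 (by linear_combination -h5)
  rw [Cfsg.SameParityClass, image_iso, hU.dim, hL, parity_prodL hQ hV hU, coe_eq_mL hL, det_mL, neg_one_pow_eq_one_iff_even hne1]

/-- The parity of a similarity for a Lagrangian stabilised by a similarity with non-square multiplier. -/
theorem parity_sim (hne : ∃ v, Q v ≠ 0) (hQ : (P Q).Nondegenerate) (h2 : (2 : F) ≠ 0) {h : ℕ} (hc : Fintype.card ι = 2 * h)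
    {U : Submodule F (ι → F)} (hU : IsLagr Q h U) (d : Sim (⇑Q)) (hd : ¬ IsSquare (mu Q hne d : F))
    (hde : eps Q hne hQ h2 hc d = 1) (hdU : Cfsg.imageSubmodule d.1.1 U = U) (g : Sim (⇑Q)) :
    Cfsg.SameParityClass U (Cfsg.imageSubmodule g.1.1 U) ↔ eps Q hne hQ h2 hc g = 1 := by
  have hV : finrank F (ι → F) = 2 * h := by simpa using hc
  have hd1 : aa Q hne d = -1 := by
    rcases Int.units_eq_one_or (aa Q hne d) with h3 | h3
    · exact absurd ((aa_eq_one_iff d).1 h3) hd
    · exact h3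
  have key : ∀ (c : Fˣ) (k : Sim (⇑Q)) (hk : k.1 ∈ Cfsg.isometryGroup F (⇑Q)), Cfsg.imageSubmodule g.1.1 U = Cfsg.imageSubmodule k.1.1 U →
      eps Q hne hQ h2 hc g = eps Q hne hQ h2 hc k →
      (Cfsg.SameParityClass U (Cfsg.imageSubmodule g.1.1 U) ↔ eps Q hne hQ h2 hc g = 1) := by
    intro c k hk h3 h4
    rw [h3, h4, eps_of_iso k hk]
    exact parity_iso h2 hQ hV hU ⟨k.1, hk⟩
  rcases Int.units_eq_one_or (aa Q hne g) with h3 | h3
  · obtain ⟨c, k, hgk, hk⟩ := exists_scal_mul g h3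
    apply key c k hk
    · rw [hgk]
      change Cfsg.imageSubmodule ((c : F) • (1 : Matrix ι ι F) * k.1.1) U = _
      rw [Matrix.smul_mul, Matrix.one_mul, image_scal _ (Units.ne_zero c)]
    · rw [hgk, map_mul, eps_scal, one_mul]
  · have h4 : aa Q hne (g * d⁻¹) = 1 := by
      rw [map_mul, map_inv, h3, hd1]
      rfl
    obtain ⟨c, k, hgk, hk⟩ := exists_scal_mul _ h4
    have hg : g = scal Q c * k * d := by
      rw [← hgk]
      group
    apply key c k hk
    · rw [hg]
      change Cfsg.imageSubmodule ((c : F) • (1 : Matrix ι ι F) * k.1.1 * d.1.1) U = _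
      rw [image_mul, hdU, Matrix.smul_mul, Matrix.one_mul, image_scal _ (Units.ne_zero c)]
    · rw [hg, map_mul, map_mul, eps_scal, one_mul, hde, mul_one]

/-- Preserving the classes is being in the kernel of `eps`. -/
theorem psc_iff (hne : ∃ v, Q v ≠ 0) (hQ : (P Q).Nondegenerate) (h2 : (2 : F) ≠ 0) {h : ℕ} (hc : Fintype.card ι = 2 * h)
    {U₀ : Submodule F (ι → F)} (hU₀ : IsLagr Q h U₀) (d : Sim (⇑Q)) (hd : ¬ IsSquare (mu Q hne d : F))
    (hde : eps Q hne hQ h2 hc d = 1) (hdU : Cfsg.imageSubmodule d.1.1 U₀ = U₀) (g : Sim (⇑Q)) :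
    Cfsg.PreservesSingularClasses (⇑Q) g.1.1 ↔ eps Q hne hQ h2 hc g = 1 := by
  have hV : finrank F (ι → F) = 2 * h := by simpa using hc
  constructor
  · intro hp
    exact (parity_sim hne hQ h2 hc hU₀ d hd hde hdU g).1 (hp U₀ (max_of_lagr hQ hV hU₀))
  · intro hg U hU
    have hUL := lagr_of_max hQ hV hU₀ hU
    -- conjugate `d`
    obtain ⟨t, -, ht⟩ := exists_OG_of_equiv (Q := Q) hQ U₀ U (LinearEquiv.ofFinrankEq U₀ U (by rw [hU₀.dim, hUL.dim])) (by
      intro x
      rw [hUL.ts _ (LinearEquiv.ofFinrankEq U₀ U (by rw [hU₀.dim, hUL.dim]) x).2, hU₀.ts _ x.2])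
    set t' : Cfsg.isometryGroup F (⇑Q) := (toOG Q).symm t with ht'
    have htU : Cfsg.imageSubmodule t'.1.1 U₀ = U := by
      rw [image_iso, ht', MulEquiv.apply_symm_apply, ht]
    let d' : Sim (⇑Q) := isoSim t' * d * (isoSim t')⁻¹
    have hd'mu : mu Q hne d' = mu Q hne d := by
      simp only [d', map_mul, map_inv, mu_of_iso (hne := hne) (isoSim t') t'.2]
      simp
    have hd'e : eps Q hne hQ h2 hc d' = 1 := by
      simp only [d', map_mul, map_inv, hde]
      simp
    have hd'U : Cfsg.imageSubmodule d'.1.1 U = U := by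
      change Cfsg.imageSubmodule (t'.1.1 * d.1.1 * ((isoSim t')⁻¹).1.1) U = U
      rw [image_mul, image_mul, ← htU]
      have h5 : Cfsg.imageSubmodule ((isoSim t')⁻¹).1.1 (Cfsg.imageSubmodule t'.1.1 U₀) = U₀ := by
        rw [← image_mul]
        have : ((isoSim t')⁻¹).1.1 * t'.1.1 = 1 := by
          have := congrArg Units.val (inv_mul_cancel t'.1)
          exact this
        rw [this]
        simp [Cfsg.imageSubmodule]
      rw [h5, hdU]
    exact (parity_sim hne hQ h2 hc hUL d' (by rw [hd'mu]; exact hd) hd'e hd'U g).2 hg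

end lagr

end Cfsg.Agent.Lib.Known3.SimAut
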