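import Mathlib
import Cfsg.Agent.Lib.Known3.SimAut7

/-! The inner-diagonal group: the abstract structure of the quotient. -/

set_option autoImplicit false
set_option linter.unusedSectionVars false

namespace Cfsg.Agent.Lib.Known3.SimAut

open Cfsg.Agent.Lib.Classical.Witt Cfsg.Agent.Lib.Classical.Abs Cfsg.Agent.Lib.Classical
open Cfsg.Agent.Lib.Classical.Orth Cfsg.Agent.Lib.Known3.Spinor Cfsg.Agent.Lib.Known3.OmegaCalc
open Cfsg.Agent.Lib.Known3.OmegaTrans
open Module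
open scoped commutatorElement

local notation "P" => QuadraticMap.polarBilin

section groups

variable {G : Type*} [Group G]

/-- Exponent two and order four. -/
lemma equiv_C22 (hc : Nat.card G = 4) (hsq : ∀ x : G, x * x = 1) : Nonempty (G ≃* Multiplicative (ZMod 2 × ZMod 2)) := by
  have hfin : Finite G := Nat.finite_of_card_ne_zero (by rw [hc]; norm_num)
  have hcomm : ∀ u v : G, u * v = v * u := by
    intro u v
    have h1 : (u * v) * (u * v) = 1 := hsq _
    calc u * v = u * v * (u * v * (v * u)) := by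
          have : u * v * (v * u) = 1 := by
            rw [mul_assoc, ← mul_assoc v v u, hsq v, one_mul, hsq u]
          rw [this, mul_one]
      _ = (u * v * (u * v)) * (v * u) := by group
      _ = v * u := by rw [h1, one_mul]
  -- two elements
  obtain ⟨x, hx⟩ : ∃ x : G, x ≠ 1 := by
    by_contra hcon
    push Not at hcon
    have : Subsingleton G := ⟨fun a b => by rw [hcon a, hcon b]⟩
    rw [Nat.card_of_subsingleton (1 : G)] at hc
    omega
  obtain ⟨y, hy1, hyx⟩ : ∃ y : G, y ≠ 1 ∧ y ≠ x := by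
    by_contra hcon
    push Not at hcon
    classical
    have hall : ∀ z : G, z ∈ ({1, x} : Finset G) := by
      intro z
      by_cases hz : z = 1
      · simp [hz]
      · simp [hcon z hz]
    haveI := Fintype.ofFinite G
    have h3 : Nat.card G ≤ 2 := by
      rw [Nat.card_eq_fintype_card]
      calc Fintype.card G = (Finset.univ : Finset G).card := rfl
        _ ≤ ({1, x} : Finset G).card := Finset.card_le_card (fun z _ => hall z)
        _ ≤ 2 := Finset.card_le_two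
    omega
  have hzmod : ∀ a : ZMod 2, a = 0 ∨ a = 1 := by decide
  have hadd : ∀ (z : G) (a b : ZMod 2), z ^ (a + b).val = z ^ a.val * z ^ b.val := by
    intro z a b
    rcases hzmod a with rfl | rfl <;> rcases hzmod b with rfl | rfl
    · simp
    · simp
    · simp
    · have : (1 + 1 : ZMod 2) = 0 := by decide
      rw [this]
      simp [ZMod.val_one, hsq z]
  let f : Multiplicative (ZMod 2 × ZMod 2) →* G :=
    { toFun := fun p => x ^ (Multiplicative.toAdd p).1.val * y ^ (Multiplicative.toAdd p).2.val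
      map_one' := by
        change x ^ (0 : ZMod 2).val * y ^ (0 : ZMod 2).val = 1
        simp
      map_mul' := by
        intro p r
        change x ^ ((Multiplicative.toAdd p).1 + (Multiplicative.toAdd r).1).val * y ^ ((Multiplicative.toAdd p).2 + (Multiplicative.toAdd r).2).val = _
        rw [hadd, hadd]
        have h3 : Commute (y ^ (Multiplicative.toAdd p).2.val) (x ^ (Multiplicative.toAdd r).1.val) :=
          Commute.pow_pow (hcomm y x) _ _
        calc x ^ (Multiplicative.toAdd p).1.val * x ^ (Multiplicative.toAdd r).1.val * (y ^ (Multiplicative.toAdd p).2.val * y ^ (Multiplicative.toAdd r).2.val)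
            = x ^ (Multiplicative.toAdd p).1.val * (x ^ (Multiplicative.toAdd r).1.val * y ^ (Multiplicative.toAdd p).2.val) * y ^ (Multiplicative.toAdd r).2.val := by group
          _ = x ^ (Multiplicative.toAdd p).1.val * (y ^ (Multiplicative.toAdd p).2.val * x ^ (Multiplicative.toAdd r).1.val) * y ^ (Multiplicative.toAdd r).2.val := by rw [h3.eq]
          _ = _ := by group }
  have hf : Function.Injective f := by
    rw [injective_iff_map_eq_one]
    intro p hp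
    change x ^ (Multiplicative.toAdd p).1.val * y ^ (Multiplicative.toAdd p).2.val = 1 at hp
    have hxy : x * y ≠ 1 := by
      intro h3
      apply hyx
      calc y = (x * x) * y := by rw [hsq x, one_mul]
        _ = x * (x * y) := by group
        _ = x := by rw [h3, mul_one]
    rcases hzmod (Multiplicative.toAdd p).1 with h3 | h3 <;> rcases hzmod (Multiplicative.toAdd p).2 with h4 | h4
    · have : Multiplicative.toAdd p = 0 := Prod.ext h3 h4
      exact this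
    · rw [h3, h4] at hp
      simp [ZMod.val_one] at hp
      exact absurd hp hy1
    · rw [h3, h4] at hp
      simp [ZMod.val_one] at hp
      exact absurd hp hx
    · rw [h3, h4] at hp
      simp [ZMod.val_one] at hp
      exact absurd hp hxy
  have hb : Function.Bijective f := by
    rw [Nat.bijective_iff_injective_and_card]
    refine ⟨hf, ?_⟩
    rw [hc, Nat.card_eq_fintype_card]
    rfl
  exact ⟨(MulEquiv.ofBijective f hb).symm⟩

/-- Pulling back an isomorphism of the quotient. -/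
lemma hom_of_quot {X : Type*} [Group X] {B : Type*} [Group B] (A N : Subgroup X) [hN : N.Normal]
    (e : (↥A ⧸ (haveI := Subgroup.Normal.subgroupOf hN A; N.subgroupOf A)) ≃* B) :
    ∃ φ : ↥A →* B, Function.Surjective φ ∧ φ.ker = N.subgroupOf A := by
  haveI hNn : (N.subgroupOf A).Normal := Subgroup.Normal.subgroupOf hN _
  refine ⟨e.toMonoidHom.comp (QuotientGroup.mk' (N.subgroupOf A)), e.surjective.comp (QuotientGroup.mk'_surjective _), ?_⟩
  ext x
  rw [MonoidHom.mem_ker, MonoidHom.comp_apply]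
  change e (QuotientGroup.mk x) = 1 ↔ _
  rw [map_eq_one_iff e e.injective, QuotientGroup.eq_one_iff]

/-- The cyclic quotient of order four. -/
theorem quotient_C4 {X : Type*} [Group X] (A N : Subgroup X) [hN : N.Normal] (hidx : N.relIndex A = 4) (t : X) (ht : t ∈ A)
    (htt : t * t ∉ N) :
    ∃ φ : ↥A →* Multiplicative (ZMod 4), Function.Surjective φ ∧ φ.ker = N.subgroupOf A := by
  haveI hNn : (N.subgroupOf A).Normal := Subgroup.Normal.subgroupOf hN _
  have hcard : Nat.card (↥A ⧸ (N.subgroupOf A)) = 4 := hidx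
  have hfin : Finite (↥A ⧸ (N.subgroupOf A)) := Nat.finite_of_card_ne_zero (by rw [hcard]; norm_num)
  set z : ↥A ⧸ (N.subgroupOf A) := QuotientGroup.mk ⟨t, ht⟩ with hz
  have hz1 : z ^ 2 ≠ 1 := by
    intro h
    apply htt
    have h3 : (QuotientGroup.mk ((⟨t, ht⟩ : ↥A) * ⟨t, ht⟩) : ↥A ⧸ (N.subgroupOf A)) = 1 := by
      rw [QuotientGroup.mk_mul, ← pow_two]
      exact h
    rw [QuotientGroup.eq_one_iff] at h3
    exact Subgroup.mem_subgroupOf.1 h3
  have hord : orderOf z = 4 := by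
    have h3 : orderOf z ∣ 4 := by
      rw [← hcard]
      exact orderOf_dvd_natCard z
    have h4 : orderOf z ∈ Nat.divisors 4 := Nat.mem_divisors.2 ⟨h3, by norm_num⟩
    have h5 : Nat.divisors 4 = {1, 2, 4} := by decide
    rw [h5] at h4
    simp only [Finset.mem_insert, Finset.mem_singleton] at h4
    rcases h4 with h6 | h6 | h6
    · exfalso
      apply hz1
      rw [orderOf_eq_one_iff] at h6
      rw [h6, one_pow]
    · exfalso
      apply hz1
      rw [← h6]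
      exact pow_orderOf_eq_one z
    · exact h6
  haveI hcyc : IsCyclic (↥A ⧸ (N.subgroupOf A)) := isCyclic_of_orderOf_eq_card z (by rw [hord, hcard])
  have hcard2 : Nat.card (↥A ⧸ (N.subgroupOf A)) = Nat.card (Multiplicative (ZMod 4)) := by
    rw [hcard, Nat.card_eq_fintype_card]
    rfl
  exact hom_of_quot A N (mulEquivOfCyclicCardEq hcard2)

/-- The non-cyclic quotient of order four. -/
theorem quotient_C22 {X : Type*} [Group X] (A N : Subgroup X) [hN : N.Normal] (hidx : N.relIndex A = 4) (t : X) (ht : t ∈ A)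
    (htt : t * t ∈ N) (hgen : ∀ x ∈ A, x * x ∈ N ∨ ∃ s ∈ A, s * s ∈ N ∧ x = s * t) :
    ∃ φ : ↥A →* Multiplicative (ZMod 2 × ZMod 2), Function.Surjective φ ∧ φ.ker = N.subgroupOf A := by
  haveI hNn : (N.subgroupOf A).Normal := Subgroup.Normal.subgroupOf hN _
  have hcard : Nat.card (↥A ⧸ (N.subgroupOf A)) = 4 := hidx
  have hcomm := (IsPGroup.isMulCommutative_of_card_eq_prime_sq (G := ↥A ⧸ (N.subgroupOf A)) (p := 2)
    (by rw [hcard]; norm_num))
  have hsq1 : ∀ x : ↥A, x.1 * x.1 ∈ N → (QuotientGroup.mk x : ↥A ⧸ (N.subgroupOf A)) * QuotientGroup.mk x = 1 := by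
    intro x hx
    rw [← QuotientGroup.mk_mul, QuotientGroup.eq_one_iff]
    exact Subgroup.mem_subgroupOf.2 hx
  have hsq : ∀ x : ↥A ⧸ (N.subgroupOf A), x * x = 1 := by
    intro x
    induction x using QuotientGroup.induction_on with
    | H x =>
      rcases hgen x.1 x.2 with h | ⟨s, hs, hss, hxs⟩
      · exact hsq1 x h
      · have h3 : x = (⟨s, hs⟩ : ↥A) * ⟨t, ht⟩ := Subtype.ext hxs
        rw [h3, QuotientGroup.mk_mul]
        have h4 := hsq1 ⟨s, hs⟩ hss
        have h5 := hsq1 ⟨t, ht⟩ htt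
        have h6 := hcomm.is_comm.comm (QuotientGroup.mk (⟨s, hs⟩ : ↥A) : ↥A ⧸ (N.subgroupOf A)) (QuotientGroup.mk (⟨t, ht⟩ : ↥A))
        calc (QuotientGroup.mk (⟨s, hs⟩ : ↥A) : ↥A ⧸ (N.subgroupOf A)) * QuotientGroup.mk (⟨t, ht⟩ : ↥A) * (QuotientGroup.mk (⟨s, hs⟩ : ↥A) * QuotientGroup.mk (⟨t, ht⟩ : ↥A))
            = QuotientGroup.mk (⟨s, hs⟩ : ↥A) * (QuotientGroup.mk (⟨t, ht⟩ : ↥A) * QuotientGroup.mk (⟨s, hs⟩ : ↥A)) * QuotientGroup.mk (⟨t, ht⟩ : ↥A) := by group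
          _ = QuotientGroup.mk (⟨s, hs⟩ : ↥A) * (QuotientGroup.mk (⟨s, hs⟩ : ↥A) * QuotientGroup.mk (⟨t, ht⟩ : ↥A)) * QuotientGroup.mk (⟨t, ht⟩ : ↥A) := by rw [h6]
          _ = (QuotientGroup.mk (⟨s, hs⟩ : ↥A) * QuotientGroup.mk (⟨s, hs⟩ : ↥A)) * (QuotientGroup.mk (⟨t, ht⟩ : ↥A) * QuotientGroup.mk (⟨t, ht⟩ : ↥A)) := by group
          _ = 1 := by rw [h4, h5, one_mul]
  obtain ⟨e⟩ := equiv_C22 hcard hsq
  exact hom_of_quot A N e

end groups

section main

variable {ι : Type} [Fintype ι] [DecidableEq ι] {F : Type*} [Field F] [Fintype F] {Q : QuadraticForm F (ι → F)}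
variable {hne : ∃ v, Q v ≠ 0} {hQ : (P Q).Nondegenerate} {h2 : (2 : F) ≠ 0} {h : ℕ} {hc : Fintype.card ι = 2 * h}

/-- The kernel of the sign character, in `GL`. -/
noncomputable def keps (Q : QuadraticForm F (ι → F)) (hne : ∃ v, Q v ≠ 0) (hQ : (P Q).Nondegenerate) (h2 : (2 : F) ≠ 0) {h : ℕ}
    (hc : Fintype.card ι = 2 * h) : Subgroup (GL ι F) :=
  (eps Q hne hQ h2 hc).ker.map (Sim (⇑Q)).subtype

lemma keps_le_sim : keps Q hne hQ h2 hc ≤ Sim (⇑Q) := by
  rintro _ ⟨g, -, rfl⟩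
  exact g.2

lemma mem_keps {g : Sim (⇑Q)} : g.1 ∈ keps Q hne hQ h2 hc ↔ eps Q hne hQ h2 hc g = 1 := by
  constructor
  · rintro ⟨g', hg', h3⟩
    have : g' = g := Subtype.ext h3
    rw [← this]
    exact hg'
  · intro h3
    exact ⟨g, h3, rfl⟩

lemma SO_le_keps : Cfsg.specialIsometryGL F (⇑Q) ≤ keps Q hne hQ h2 hc := by
  intro g hg
  have h3 : g ∈ Sim (⇑Q) := special_le_sim _ hg
  exact (mem_keps (g := ⟨g, h3⟩)).2 ((eps_of_iso ⟨g, h3⟩ hg.1).2 (mem_SL.1 hg.2))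

/-- The subgroup generated as the image. -/
theorem inndiag_eq (hne : ∃ v, Q v ≠ 0) (hQ : (P Q).Nondegenerate) (h2 : (2 : F) ≠ 0) {h : ℕ} (hc : Fintype.card ι = 2 * h)
    (R : Matrix ι ι F → Prop) (hR : ∀ g : Sim (⇑Q), R g.1.1 ↔ eps Q hne hQ h2 hc g = 1) :
    Cfsg.autSubgroupOf (fun β => ∃ g : GL ι F, g ∈ Cfsg.Geo.quadSimilarityGroup (F := F) (⇑Q) ∧ R g ∧
      Cfsg.IsInducedBySemilinearPOmega (⇑Q) g (RingEquiv.refl F) β) = img (⇑Q) (keps Q hne hQ h2 hc) := by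
  rw [← autSubgroupOf_eq (⇑Q) _ keps_le_sim]
  congr 1
  funext β
  apply propext
  constructor
  · rintro ⟨g, hg1, hg2, hg3⟩
    exact ⟨g, (mem_keps (g := ⟨g, hg1⟩)).2 ((hR ⟨g, hg1⟩).1 hg2), hg3⟩
  · rintro ⟨g, hg1, hg3⟩
    have hg2 := keps_le_sim hg1
    exact ⟨g, hg2, (hR ⟨g, hg2⟩).2 ((mem_keps (g := ⟨g, hg2⟩)).1 hg1), hg3⟩

/-- The quotient by the image of `SO`. -/
theorem keps_lift (hne : ∃ v, Q v ≠ 0) (hQ : (P Q).Nondegenerate) (h2 : (2 : F) ≠ 0) {h : ℕ} (hc : Fintype.card ι = 2 * h)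
    (hn : 5 ≤ Fintype.card ι) (d : Sim (⇑Q)) (hd : ¬ IsSquare (mu Q hne d : F)) (hde : eps Q hne hQ h2 hc d = 1) :
    ∃ φ : ↥(img (⇑Q) (keps Q hne hQ h2 hc)) →* Multiplicative (ZMod 2), Function.Surjective φ ∧
      φ.ker = (Cfsg.psoAut F (⇑Q)).subgroupOf (img (⇑Q) (keps Q hne hQ h2 hc)) := by
  rw [psoAut_eq]
  have hd1 : aa Q hne d = -1 := by
    rcases Int.units_eq_one_or (aa Q hne d) with h3 | h3
    · exact absurd ((aa_eq_one_iff d).1 h3) hd
    · exact h3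
  apply exists_lift' (keps Q hne hQ h2 hc) (Cfsg.specialIsometryGL F (⇑Q)) SO_le_keps (signZ.toMonoidHom.comp (aa Q hne))
  · intro b
    obtain ⟨u, rfl⟩ := signZ.surjective b
    rcases Int.units_eq_one_or u with rfl | rfl
    · exact ⟨1, Subgroup.one_mem _, map_one _⟩
    · refine ⟨d, mem_keps.2 hde, ?_⟩
      rw [MonoidHom.comp_apply, hd1]
      rfl
  · intro g hg
    obtain ⟨c, rfl⟩ := scalar_of_Ψ h2 hQ hn g hg
    rw [MonoidHom.comp_apply, aa_scal, map_one]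
  · intro g hg1 hg2
    have h3 : aa Q hne g = 1 := signZ.injective (by simpa using hg2)
    obtain ⟨c, k, rfl, hk⟩ := exists_scal_mul g h3
    have h4 := (mem_keps (g := scal Q c * k)).1 hg1
    refine ⟨k, ⟨hk, ?_⟩, ?_⟩
    · rw [map_mul, eps_scal, one_mul] at h4
      exact mem_SL.2 ((eps_of_iso (hne := hne) (hQ := hQ) (h2 := h2) (hc := hc) k hk).1 h4)
    · rw [map_mul, Ψ_scal, one_mul]
  · intro g hg
    rw [MonoidHom.comp_apply, aa_of_iso g hg.1, map_one]

/-- The index of `T` in the image of the kernel. -/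
theorem keps_relIndex (hne : ∃ v, Q v ≠ 0) (hQ : (P Q).Nondegenerate) (h2 : (2 : F) ≠ 0) {h : ℕ} (hc : Fintype.card ι = 2 * h)
    (hn : 5 ≤ Fintype.card ι) (d : Sim (⇑Q)) (hd : ¬ IsSquare (mu Q hne d : F)) (hde : eps Q hne hQ h2 hc d = 1) (hneg : NegOm Q) :
    (Cfsg.Inn (Cfsg.POmega F (⇑Q))).relIndex (img (⇑Q) (keps Q hne hQ h2 hc)) = 4 := by
  obtain ⟨ψ, hψ1, hψ2⟩ := keps_lift hne hQ h2 hc hn d hd hde
  have hidx1 : (Cfsg.psoAut F (⇑Q)).relIndex (img (⇑Q) (keps Q hne hQ h2 hc)) = 2 := by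
    rw [Subgroup.relIndex, ← hψ2, Subgroup.index_ker, MonoidHom.range_eq_top.2 hψ1, Subgroup.card_top, Nat.card_eq_fintype_card]
    rfl
  have hidx2 := relIndex_two h2 hQ hn hne hneg
  have hle1 : Cfsg.Inn (Cfsg.POmega F (⇑Q)) ≤ Cfsg.psoAut F (⇑Q) := by
    rw [psoAut_eq, Inn_eq]
    exact img_mono (OmegaGL_le_SO h2 hQ)
  have hle2 : Cfsg.psoAut F (⇑Q) ≤ img (⇑Q) (keps Q hne hQ h2 hc) := by
    rw [psoAut_eq]
    exact img_mono SO_le_keps
  rw [← Subgroup.relIndex_mul_relIndex _ _ _ hle1 hle2, hidx1, hidx2]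

/-- The case where `-1` is not in `Ω`. -/
theorem inndiag_C2 (hne : ∃ v, Q v ≠ 0) (hQ : (P Q).Nondegenerate) (h2 : (2 : F) ≠ 0) {h : ℕ} (hc : Fintype.card ι = 2 * h)
    (hn : 5 ≤ Fintype.card ι) (d : Sim (⇑Q)) (hd : ¬ IsSquare (mu Q hne d : F)) (hde : eps Q hne hQ h2 hc d = 1) (hneg : ¬ NegOm Q) :
    ∃ φ : ↥(img (⇑Q) (keps Q hne hQ h2 hc)) →* Multiplicative (ZMod 2), Function.Surjective φ ∧
      φ.ker = (Cfsg.Inn (Cfsg.POmega F (⇑Q))).subgroupOf (img (⇑Q) (keps Q hne hQ h2 hc)) := by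
  rw [← pso_eq_inn h2 hQ (by rw [hc]; exact even_two_mul _) hneg]
  exact keps_lift hne hQ h2 hc hn d hd hde

lemma mem_pgo_img (g : Sim (⇑Q)) (hg : eps Q hne hQ h2 hc g = 1) : Ψ (⇑Q) g ∈ img (⇑Q) (keps Q hne hQ h2 hc) :=
  mem_img.2 ⟨g, mem_keps.2 hg, rfl⟩

/-- The cyclic case. -/
theorem inndiag_C4 (hne : ∃ v, Q v ≠ 0) (hQ : (P Q).Nondegenerate) (h2 : (2 : F) ≠ 0) {h : ℕ} (hc : Fintype.card ι = 2 * h)
    (hn : 5 ≤ Fintype.card ι) (d : Sim (⇑Q)) (hd : ¬ IsSquare (mu Q hne d : F)) (hde : eps Q hne hQ h2 hc d = 1) (hneg : NegOm Q)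
    (w : Cfsg.isometryGroup F (⇑Q)) (ν : Fˣ) (hdw : d * d = scal Q ν * isoSim w) (hw : w ∉ Cfsg.Omega F (⇑Q)) :
    ∃ φ : ↥(img (⇑Q) (keps Q hne hQ h2 hc)) →* Multiplicative (ZMod 4), Function.Surjective φ ∧
      φ.ker = (Cfsg.Inn (Cfsg.POmega F (⇑Q))).subgroupOf (img (⇑Q) (keps Q hne hQ h2 hc)) := by
  apply quotient_C4 _ _ (keps_relIndex hne hQ h2 hc hn d hd hde hneg) (Ψ (⇑Q) d) (mem_pgo_img d hde)
  intro hmem
  apply hw
  apply mem_Omega_of_inn h2 hQ hn hne hneg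
  rw [← map_mul, hdw, map_mul, Ψ_scal, one_mul] at hmem
  exact hmem

/-- The non-cyclic case. -/
theorem inndiag_C22 (hne : ∃ v, Q v ≠ 0) (hQ : (P Q).Nondegenerate) (h2 : (2 : F) ≠ 0) {h : ℕ} (hc : Fintype.card ι = 2 * h)
    (hn : 5 ≤ Fintype.card ι) (d : Sim (⇑Q)) (hd : ¬ IsSquare (mu Q hne d : F)) (hde : eps Q hne hQ h2 hc d = 1) (hneg : NegOm Q)
    (w : Cfsg.isometryGroup F (⇑Q)) (ν : Fˣ) (hdw : d * d = scal Q ν * isoSim w) (hw : w ∈ Cfsg.Omega F (⇑Q)) :
    ∃ φ : ↥(img (⇑Q) (keps Q hne hQ h2 hc)) →* Multiplicative (ZMod 2 × ZMod 2), Function.Surjective φ ∧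
      φ.ker = (Cfsg.Inn (Cfsg.POmega F (⇑Q))).subgroupOf (img (⇑Q) (keps Q hne hQ h2 hc)) := by
  obtain ⟨ν', hν0, hν'⟩ := exists_nonsq h2
  have hInn : ∀ k : Cfsg.isometryGroup F (⇑Q), k ∈ Cfsg.Omega F (⇑Q) → Ψ (⇑Q) (isoSim k) ∈ Cfsg.Inn (Cfsg.POmega F (⇑Q)) := by
    intro k hk
    rw [Inn_eq]
    exact mem_img.2 ⟨isoSim k, ⟨k, hk, rfl⟩, rfl⟩
  have hSOsq : ∀ k : Cfsg.isometryGroup F (⇑Q), k.1.1.det = 1 → k * k ∈ Cfsg.Omega F (⇑Q) := by
    intro k hk
    rw [mem_Omega_iff_spin h2 hQ hν0 hν']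
    refine ⟨?_, ?_⟩
    · change (k.1.1 * k.1.1).det = 1
      rw [Matrix.det_mul, hk, one_mul]
    · rw [map_mul]
      exact Int.units_mul_self _
  have hmulk : ∀ k : Cfsg.isometryGroup F (⇑Q), isoSim (k * k) = isoSim k * isoSim k := fun k => rfl
  have hs : ∀ k : Sim (⇑Q), ∀ hk : k.1 ∈ Cfsg.isometryGroup F (⇑Q), eps Q hne hQ h2 hc k = 1 →
      Ψ (⇑Q) k * Ψ (⇑Q) k ∈ Cfsg.Inn (Cfsg.POmega F (⇑Q)) := by
    intro k hk h3
    have h4 : (⟨k.1, hk⟩ : Cfsg.isometryGroup F (⇑Q)).1.1.det = 1 := (eps_of_iso k hk).1 h3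
    have h5 := hInn _ (hSOsq _ h4)
    rw [hmulk, map_mul] at h5
    exact h5
  have hd1 : aa Q hne d = -1 := by
    rcases Int.units_eq_one_or (aa Q hne d) with h3 | h3
    · exact absurd ((aa_eq_one_iff d).1 h3) hd
    · exact h3
  apply quotient_C22 _ _ (keps_relIndex hne hQ h2 hc hn d hd hde hneg) (Ψ (⇑Q) d) (mem_pgo_img d hde)
  · rw [← map_mul, hdw, map_mul, Ψ_scal, one_mul]
    exact hInn _ hw
  · intro x hx
    obtain ⟨g, hg1, rfl⟩ := mem_img.1 hx
    have hg1' := (mem_keps (g := g)).1 hg1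
    rcases Int.units_eq_one_or (aa Q hne g) with h3 | h3
    · left
      obtain ⟨c, k, rfl, hk⟩ := exists_scal_mul g h3
      rw [map_mul, Ψ_scal, one_mul]
      rw [map_mul, eps_scal, one_mul] at hg1'
      exact hs k hk hg1'
    · right
      have h4 : aa Q hne (g * d⁻¹) = 1 := by
        rw [map_mul, map_inv, h3, hd1]
        rfl
      obtain ⟨c, k, hgk, hk⟩ := exists_scal_mul _ h4
      have hg : g = scal Q c * k * d := by
        rw [← hgk]
        group
      have hke : eps Q hne hQ h2 hc k = 1 := by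
        rw [hg, map_mul, map_mul, eps_scal, one_mul, hde, mul_one] at hg1'
        exact hg1'
      refine ⟨Ψ (⇑Q) k, mem_pgo_img k hke, hs k hk hke, ?_⟩
      rw [hg, map_mul, map_mul, Ψ_scal, one_mul]

end main

end Cfsg.Agent.Lib.Known3.SimAut
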