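import Mathlib
import Cfsg.Agent.Lib.Known3.SimAut8

/-! The inner-diagonal group of the plus type. -/

set_option autoImplicit false
set_option linter.unusedSectionVars false

namespace Cfsg.Agent.Lib.Known3.SimAut

open Cfsg.Agent.Lib.Classical.Witt Cfsg.Agent.Lib.Classical.Abs Cfsg.Agent.Lib.Classical
open Cfsg.Agent.Lib.Classical.Orth Cfsg.Agent.Lib.Known3.Spinor Cfsg.Agent.Lib.Known3.OmegaCalc
open Cfsg.Agent.Lib.Known3.OmegaTrans
open Module Matrix
open scoped commutatorElement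

local notation "P" => QuadraticMap.polarBilin

section scale

variable {ι : Type} [Fintype ι] [DecidableEq ι] {F : Type*} [Field F] {Q : QuadraticForm F (ι → F)}

/-- Scaling the first `i` hyperbolic pairs. -/
theorem exists_scale_first {m : ℕ} (pp rr : Fin m → ι) (hP : ∀ j, Pair Q (pp j) (rr j)) (ℓ : ι → ℕ) (s : ι → F) {ν : F} (hν : ν ≠ 0)
    (hs1 : ∀ j, s (pp j) = ν) (hs2 : ∀ j, s (rr j) = ν⁻¹) (i : ℕ) (him : i ≤ m)
    (hℓ : ∀ j : Fin m, (j : ℕ) < i → ∀ k, ℓ k = j ↔ (k = pp j ∨ k = rr j)) :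
    ∀ i' ≤ i, ∃ L : List (NS Q), L.length = 2 * i' ∧ (L.map (fun v => Q v.1)).prod = ν ^ i' ∧
      ∀ x k, (prodL L).1 x k = if ℓ k < i' then s k * x k else x k := by
  intro i'
  induction i' with
  | zero =>
    intro _
    refine ⟨[], rfl, by simp, by simp⟩
  | succ i' ih =>
    intro hi
    obtain ⟨L, h1, h3, h4⟩ := ih (by omega)
    let j : Fin m := ⟨i', by omega⟩
    refine ⟨nd (hP j) ν hν :: nd (hP j) 1 one_ne_zero :: L, ?_, ?_, ?_⟩
    · simp [h1]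
      ring
    · simp only [List.map_cons, List.prod_cons, h3]
      simp only [nd, Q_vd (hP j)]
      ring
    · intro x k
      rw [prodL_cons, prodL_cons, ← mul_assoc, Orth.mul_apply', refl_nd_mul_apply]
      have hj := hℓ j (by simp [j]; omega) k
      have hjj : (j : ℕ) = i' := rfl
      by_cases hk : ℓ k = i'
      · have hor := hj.1 (by rw [hk])
        have e0 : ℓ k < i' + 1 := by omega
        have e1 : ¬ ℓ k < i' := by omega
        rw [if_pos e0]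
        rcases hor with hk1 | hk1
        · rw [if_pos hk1, h4, ← hk1, if_neg e1, hk1, hs1]
        · have e2 : ¬ k = pp j := by rw [hk1]; exact (hP j).ne.symm
          rw [if_neg e2, if_pos hk1, h4, ← hk1, if_neg e1, hk1, hs2]
      · have hor : ¬ (k = pp j ∨ k = rr j) := fun h => hk (by rw [hj.2 h])
        push Not at hor
        rw [if_neg hor.1, if_neg hor.2, h4]
        by_cases h5 : ℓ k < i'
        · rw [if_pos h5, if_pos (by omega)]
        · rw [if_neg h5, if_neg (by omega)]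

end scale

section plus

variable {F : Type*} [Field F] {m : ℕ}

lemma mem_U0 {x : Fin m ⊕ Fin m → F} : x ∈ LinearMap.ker (LinearMap.funLeft F F (Sum.inr : Fin m → Fin m ⊕ Fin m)) ↔ ∀ i, x (Sum.inr i) = 0 := by
  rw [LinearMap.mem_ker]
  constructor
  · intro h i
    exact congrFun h i
  · intro h
    funext i
    exact h i

lemma dPlus_stab (ν : F) (hν : ν ≠ 0) : Cfsg.imageSubmodule (dPlusM ν) (LinearMap.ker (LinearMap.funLeft F F (Sum.inr : Fin m → Fin m ⊕ Fin m))) =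
    LinearMap.ker (LinearMap.funLeft F F (Sum.inr : Fin m → Fin m ⊕ Fin m)) := by
  ext x
  simp only [Cfsg.imageSubmodule, Submodule.mem_map, Matrix.toLin'_apply, mem_U0]
  constructor
  · rintro ⟨v, hv, rfl⟩ i
    simp [dPlusM, mulVec_diagonal, hv i]
  · intro hx
    refine ⟨Sum.elim (fun i => ν⁻¹ * x (Sum.inl i)) (fun _ => 0), fun i => rfl, ?_⟩
    funext k
    rcases k with k | k
    · simp [dPlusM, mulVec_diagonal, hν]
    · simp [dPlusM, mulVec_diagonal, hx k]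

/-- The square of the similarity. -/
lemma dPlus_sq (ν : F) (hν : ν ≠ 0) : ∃ L : List (NS (Qplus m F)), L.length = 2 * m ∧ (L.map (fun v => Qplus m F v.1)).prod = ν ^ m ∧
    (dPlus ν hν : Sim (⇑(Qplus m F))) * dPlus ν hν = scal (Qplus m F) (Units.mk0 ν hν) * isoSim (isoL (Qplus m F) L) := by
  obtain ⟨L, h1, h3, h4⟩ := exists_scale_first (Q := Qplus m F) Sum.inl Sum.inr (pair_plus m)
    (Sum.elim (fun j : Fin m => (j : ℕ)) (fun j : Fin m => (j : ℕ))) (Sum.elim (fun _ => ν) (fun _ => ν⁻¹)) hν (fun _ => rfl) (fun _ => rfl) m le_rfl (by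
      intro j _ k
      rcases k with k | k <;> simp [Fin.ext_iff]) m le_rfl
  refine ⟨L, h1, h3, ?_⟩
  apply Subtype.ext
  apply Units.ext
  change dPlusM ν * dPlusM ν = (ν • (1 : Matrix _ _ F)) * (isoL (Qplus m F) L).1.1
  rw [isoL_coe, Matrix.smul_mul, Matrix.one_mul]
  apply Matrix.mulVec_injective
  funext x k
  rw [Matrix.smul_mulVec, ← prodL_apply, Pi.smul_apply, h4, ← Matrix.mulVec_mulVec]
  rcases k with k | k
  · simp [dPlusM, mulVec_diagonal]
  · simp [dPlusM, mulVec_diagonal, hν]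

variable [Fintype F]

/-- Two classes and the kernel of `eps`. -/
theorem psc_plus (h2 : (2 : F) ≠ 0) (hm : 1 ≤ m) (g : Sim (⇑(Qplus m F))) :
    Cfsg.PreservesSingularClasses (⇑(Qplus m F)) g.1.1 ↔ eps _ (ne_plus h2 hm) (Qplus_nondeg m) h2 card_plus g = 1 := by
  obtain ⟨ν, hν0, hν⟩ := exists_nonsq h2
  exact psc_iff (ne_plus h2 hm) (Qplus_nondeg m) h2 card_plus U0_lagr (dPlus ν hν0) (by rw [mu_dPlus h2 hm]; exact hν)
    (eps_dPlus h2 hm ν hν0) (dPlus_stab ν hν0) g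

lemma inndiagPlus_def : Cfsg.inndiagPOmegaPlus m F = Cfsg.autSubgroupOf (fun β => ∃ g : GL (Fin m ⊕ Fin m) F,
    g ∈ Cfsg.Geo.quadSimilarityGroup (F := F) (Cfsg.quadFormPlus m F) ∧
    Cfsg.PreservesSingularClasses (Cfsg.quadFormPlus m F) (g : Matrix (Fin m ⊕ Fin m) (Fin m ⊕ Fin m) F) ∧
    Cfsg.IsInducedBySemilinearPOmega (Cfsg.quadFormPlus m F) g (RingEquiv.refl F) β) := rfl

lemma isSquare_pow_nonsq (h2 : (2 : F) ≠ 0) {ν : F} (hν0 : ν ≠ 0) (hν : ¬ IsSquare ν) (k : ℕ) : IsSquare (ν ^ k) ↔ Even k := by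
  classical
  have hchar : ringChar F ≠ 2 := by
    intro h
    apply h2
    have := ringChar.Nat.cast_ringChar (R := F)
    rw [h] at this
    exact_mod_cast this
  rw [← quadraticChar_one_iff_isSquare (pow_ne_zero _ hν0), map_pow, quadraticChar_neg_one_iff_not_isSquare.2 hν]
  have hne1 : (-1 : ℤ) ≠ 1 := by norm_num
  exact neg_one_pow_eq_one_iff_even hne1

set_option maxHeartbeats 2000000 in
/-- The main theorem for the plus type. -/
theorem plus_inndiag (hodd : Odd (Fintype.card F)) (hm : 3 ≤ m) :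
    ((Odd m ∧ Fintype.card F % 4 = 3) → (∃ φ : ↥(Cfsg.autSubgroupOf (fun β => ∃ g : GL (Fin m ⊕ Fin m) F,
        g ∈ Cfsg.Geo.quadSimilarityGroup (F := F) (⇑(Qplus m F)) ∧
        Cfsg.PreservesSingularClasses (⇑(Qplus m F)) (g : Matrix (Fin m ⊕ Fin m) (Fin m ⊕ Fin m) F) ∧
        Cfsg.IsInducedBySemilinearPOmega (⇑(Qplus m F)) g (RingEquiv.refl F) β)) →* Multiplicative (ZMod 2), Function.Surjective φ ∧
        φ.ker = (Cfsg.Inn (Cfsg.POmega F (⇑(Qplus m F)))).subgroupOf (Cfsg.autSubgroupOf (fun β => ∃ g : GL (Fin m ⊕ Fin m) F,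
        g ∈ Cfsg.Geo.quadSimilarityGroup (F := F) (⇑(Qplus m F)) ∧
        Cfsg.PreservesSingularClasses (⇑(Qplus m F)) (g : Matrix (Fin m ⊕ Fin m) (Fin m ⊕ Fin m) F) ∧
        Cfsg.IsInducedBySemilinearPOmega (⇑(Qplus m F)) g (RingEquiv.refl F) β)))) ∧
    ((Odd m ∧ Fintype.card F % 4 = 1) → (∃ φ : ↥(Cfsg.autSubgroupOf (fun β => ∃ g : GL (Fin m ⊕ Fin m) F,
        g ∈ Cfsg.Geo.quadSimilarityGroup (F := F) (⇑(Qplus m F)) ∧
        Cfsg.PreservesSingularClasses (⇑(Qplus m F)) (g : Matrix (Fin m ⊕ Fin m) (Fin m ⊕ Fin m) F) ∧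
        Cfsg.IsInducedBySemilinearPOmega (⇑(Qplus m F)) g (RingEquiv.refl F) β)) →* Multiplicative (ZMod 4), Function.Surjective φ ∧
        φ.ker = (Cfsg.Inn (Cfsg.POmega F (⇑(Qplus m F)))).subgroupOf (Cfsg.autSubgroupOf (fun β => ∃ g : GL (Fin m ⊕ Fin m) F,
        g ∈ Cfsg.Geo.quadSimilarityGroup (F := F) (⇑(Qplus m F)) ∧
        Cfsg.PreservesSingularClasses (⇑(Qplus m F)) (g : Matrix (Fin m ⊕ Fin m) (Fin m ⊕ Fin m) F) ∧
        Cfsg.IsInducedBySemilinearPOmega (⇑(Qplus m F)) g (RingEquiv.refl F) β)))) ∧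
    (Even m → (∃ φ : ↥(Cfsg.autSubgroupOf (fun β => ∃ g : GL (Fin m ⊕ Fin m) F,
        g ∈ Cfsg.Geo.quadSimilarityGroup (F := F) (⇑(Qplus m F)) ∧
        Cfsg.PreservesSingularClasses (⇑(Qplus m F)) (g : Matrix (Fin m ⊕ Fin m) (Fin m ⊕ Fin m) F) ∧
        Cfsg.IsInducedBySemilinearPOmega (⇑(Qplus m F)) g (RingEquiv.refl F) β)) →* Multiplicative (ZMod 2 × ZMod 2), Function.Surjective φ ∧
        φ.ker = (Cfsg.Inn (Cfsg.POmega F (⇑(Qplus m F)))).subgroupOf (Cfsg.autSubgroupOf (fun β => ∃ g : GL (Fin m ⊕ Fin m) F,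
        g ∈ Cfsg.Geo.quadSimilarityGroup (F := F) (⇑(Qplus m F)) ∧
        Cfsg.PreservesSingularClasses (⇑(Qplus m F)) (g : Matrix (Fin m ⊕ Fin m) (Fin m ⊕ Fin m) F) ∧
        Cfsg.IsInducedBySemilinearPOmega (⇑(Qplus m F)) g (RingEquiv.refl F) β)))) := by
  have h2 := two_ne_of_odd rfl hodd
  have hm1 : 1 ≤ m := by omega
  rw [inndiag_eq (ne_plus h2 hm1) (Qplus_nondeg m) h2 card_plus _ (psc_plus h2 hm1)]
  obtain ⟨ν, hν0, hν⟩ := exists_nonsq h2
  have hn : 5 ≤ Fintype.card (Fin m ⊕ Fin m) := by rw [card_plus]; omega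
  have hd : ¬ IsSquare ((mu _ (ne_plus h2 hm1) (dPlus ν hν0 : Sim (⇑(Qplus m F))) : Fˣ) : F) := by
    rw [mu_dPlus h2 hm1]
    exact hν
  obtain ⟨L, hL1, hL2, hL3⟩ := dPlus_sq (m := m) ν hν0
  have hw : isoL (Qplus m F) L ∈ Cfsg.Omega F (⇑(Qplus m F)) ↔ Even m := by
    rw [mem_Omega_iff, toOG_isoL, mem_comm_odd h2 (Qplus_nondeg m), hL1, hL2, isSquare_pow_nonsq h2 hν0 hν]
    simp
  refine ⟨?_, ?_, ?_⟩
  · intro h
    exact inndiag_C2 (ne_plus h2 hm1) (Qplus_nondeg m) h2 card_plus hn (dPlus ν hν0) hd (eps_dPlus h2 hm1 ν hν0) (by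
      rw [negOm_plus rfl hodd]
      exact not_not.2 h)
  · rintro ⟨h3, h4⟩
    exact inndiag_C4 (ne_plus h2 hm1) (Qplus_nondeg m) h2 card_plus hn (dPlus ν hν0) hd (eps_dPlus h2 hm1 ν hν0) ((negOm_plus rfl hodd).2 (by
      rintro ⟨-, h5⟩
      omega)) _ _ hL3 (by
        rw [hw]
        exact Nat.not_even_iff_odd.2 h3)
  · intro h3
    exact inndiag_C22 (ne_plus h2 hm1) (Qplus_nondeg m) h2 card_plus hn (dPlus ν hν0) hd (eps_dPlus h2 hm1 ν hν0) ((negOm_plus rfl hodd).2 (by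
      rintro ⟨h5, -⟩
      exact Nat.not_odd_iff_even.2 h3 h5)) _ _ hL3 (hw.2 h3)

end plus

end Cfsg.Agent.Lib.Known3.SimAut
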