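import Mathlib
import Cfsg.Agent.Lib.Known3.SimAut9
import Cfsg.Agent.Lib.Known3.QuadIso

/-! The minus type over a quadratic extension. -/

set_option autoImplicit false
set_option linter.unusedSectionVars false

namespace Cfsg.Agent.Lib.Known3.SimAut

open Cfsg.Agent.Lib.Classical.Witt Cfsg.Agent.Lib.Classical.Abs Cfsg.Agent.Lib.Classical
open Cfsg.Agent.Lib.Classical.Orth Cfsg.Agent.Lib.Known3.Spinor Cfsg.Agent.Lib.Known3.OmegaCalc
open Cfsg.Agent.Lib.Known3.OmegaTrans Cfsg.Agent.Lib.Known3.QuadIso
open Module Matrix
open scoped commutatorElement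

local notation "P" => QuadraticMap.polarBilin

section general

variable {ι : Type} [Fintype ι] [DecidableEq ι] {K : Type*} [Field K]

lemma nondeg_of_gram (Q : QuadraticForm K (ι → K)) (h : (gram Q).det ≠ 0) : (P Q).Nondegenerate := by
  have hL : (P Q).SeparatingLeft := by
    intro y hy
    apply Matrix.eq_zero_of_vecMul_eq_zero h
    funext j
    have h3 := hy (Pi.single j 1)
    change QuadraticMap.polar (⇑Q) y (Pi.single j 1) = 0 at h3
    rw [← dot_gram_mulVec, Matrix.mulVec_single_one] at h3
    exact h3
  refine ⟨hL, ?_⟩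
  intro y hy
  apply hL
  intro x
  rw [pol_comm]
  exact hy x

end general

section ext

variable {F : Type*} [Field F] {K : Type*} [Field K] [Algebra F K] {m : ℕ}

lemma gram_map (a b : F) : (gram (Qminus m F a b)).map (algebraMap F K) = gram (Qminus m K (algebraMap F K a) (algebraMap F K b)) := by
  ext i j
  have e1 : gram (Qminus m F a b) i j = P (Qminus m F a b) (Pi.single i 1) (Pi.single j 1) := rfl
  have e2 : gram (Qminus m K (algebraMap F K a) (algebraMap F K b)) i j = P (Qminus m K (algebraMap F K a) (algebraMap F K b)) (Pi.single i 1) (Pi.single j 1) := rfl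
  rw [Matrix.map_apply, e1, e2, polar_Qminus, polar_Qminus]
  rcases i with (i | i) | i <;> rcases j with (j | j) | j <;>
    simp [Pi.single_apply, apply_ite (algebraMap F K)] <;> (try fin_cases i) <;> (try fin_cases j) <;> simp [map_ofNat]

lemma two_ne_ext (h2 : (2 : F) ≠ 0) : (2 : K) ≠ 0 := by
  intro h
  apply h2
  apply (algebraMap F K).injective
  rw [map_ofNat, map_zero]
  exact h

variable [Fintype F]

lemma finite_ext (hK : finrank F K = 2) : Finite K := by
  haveI : Module.Finite F K := Module.finite_of_finrank_pos (by omega)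
  exact Module.finite_of_finite F

lemma isSquare_base (hK : finrank F K = 2) (h2 : (2 : F) ≠ 0) (x : F) : IsSquare (algebraMap F K x) := by
  classical
  by_cases hx : x = 0
  · subst hx
    simp
  haveI hfin : Finite K := finite_ext hK
  letI : Fintype K := Fintype.ofFinite K
  haveI : Module.Finite F K := Module.finite_of_finrank_pos (by omega)
  have hcard : Fintype.card K = Fintype.card F ^ 2 := by
    rw [Module.card_eq_pow_finrank (K := F), hK]
  have h2K : (2 : K) ≠ 0 := two_ne_ext h2
  have hchar : ringChar K ≠ 2 := by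
    intro h
    apply h2K
    have := ringChar.Nat.cast_ringChar (R := K)
    rw [h] at this
    exact_mod_cast this
  have hx' : algebraMap F K x ≠ 0 := by
    simpa using hx
  rw [FiniteField.isSquare_iff hchar hx']
  have hq : Odd (Fintype.card F) := by
    rw [Nat.odd_iff]
    have hc : ringChar F ≠ 2 := by
      intro h
      apply h2
      have := ringChar.Nat.cast_ringChar (R := F)
      rw [h] at this
      exact_mod_cast this
    exact FiniteField.odd_card_of_char_ne_two hc
  obtain ⟨k, hk⟩ := hq
  have h3 : Fintype.card K / 2 = (Fintype.card F - 1) * (k + 1) := by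
    rw [hcard, hk]
    have h4 : 2 * k + 1 - 1 = 2 * k := by omega
    rw [h4]
    have h5 : (2 * k + 1) ^ 2 = 2 * (2 * k * (k + 1)) + 1 := by ring
    rw [h5]
    omega
  rw [h3, pow_mul, ← map_pow, FiniteField.pow_card_sub_one_eq_one x hx, map_one, one_pow]

variable (a b : F) (hab : ∀ z₁ z₂ : F, z₁ ^ 2 + a * z₁ * z₂ + b * z₂ ^ 2 = 0 → z₁ = 0 ∧ z₂ = 0)

include hab in
/-- The form over the extension is non-degenerate. -/
lemma nondeg_ext : (P (Qminus m K (algebraMap F K a) (algebraMap F K b))).Nondegenerate := by
  apply nondeg_of_gram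
  rw [← gram_map, ← RingHom.mapMatrix_apply]
  rw [← RingHom.map_det]
  have := gram_det_ne_zero _ (Qminus_nondeg hab m)
  simpa using this

/-- A Lagrangian over the extension. -/
noncomputable def lagrMap (θ : K) : (Fin m ⊕ Unit → K) →ₗ[K] ((Fin m ⊕ Fin m) ⊕ Fin 2 → K) where
  toFun x := Sum.elim (Sum.elim (fun i => x (Sum.inl i)) (fun _ => 0)) (fun j => if j = 0 then θ * x (Sum.inr ()) else x (Sum.inr ()))
  map_add' x y := by
    funext k
    rcases k with (k | k) | k
    · simp
    · simp
    · by_cases hk : k = 0
      · simp [hk, mul_add]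
      · simp [hk]
  map_smul' c x := by
    funext k
    rcases k with (k | k) | k
    · simp
    · simp
    · by_cases hk : k = 0
      · simp [hk]
        ring
      · simp [hk]

lemma lagrMap_inj (θ : K) : Function.Injective (lagrMap (m := m) θ) := by
  intro x y h
  funext k
  rcases k with k | k
  · exact congrFun h (Sum.inl (Sum.inl k))
  · have := congrFun h (Sum.inr 1)
    simpa [lagrMap] using this

lemma lagr_ext {a' b' θ : K} (hθ : θ ^ 2 + a' * θ + b' = 0) :
    IsLagr (Qminus m K a' b') (m + 1) (LinearMap.range (lagrMap (m := m) θ)) := by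
  constructor
  · rw [LinearMap.finrank_range_of_inj (lagrMap_inj θ)]
    simp
  · rintro _ ⟨x, rfl⟩
    rw [Qminus_apply]
    simp only [Cfsg.quadFormMinus, lagrMap]
    simp
    linear_combination (x (Sum.inr ())) ^ 2 * hθ

include hab in
/-- The root of the binary form in the extension. -/
lemma exists_root (hK : finrank F K = 2) (h2 : (2 : F) ≠ 0) : ∃ θ : K, θ ^ 2 + algebraMap F K a * θ + algebraMap F K b = 0 := by
  obtain ⟨s, hs⟩ := isSquare_base hK h2 (a ^ 2 - 4 * b)
  have h2K : (2 : K) ≠ 0 := two_ne_ext h2
  refine ⟨(-algebraMap F K a + s) / 2, ?_⟩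
  field_simp
  have h3 : s * s = (algebraMap F K a) ^ 2 - 4 * algebraMap F K b := by
    rw [← hs, map_sub, map_mul, map_pow, map_ofNat]
  linear_combination h3

end ext

end Cfsg.Agent.Lib.Known3.SimAut
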