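import Mathlib
import Cfsg.Agent.Lib.Known3.SimAut10

/-! The minus type: the singular classes over the extension. -/

set_option autoImplicit false
set_option linter.unusedSectionVars false

namespace Cfsg.Agent.Lib.Known3.SimAut

open Cfsg.Agent.Lib.Classical.Witt Cfsg.Agent.Lib.Classical.Abs Cfsg.Agent.Lib.Classical
open Cfsg.Agent.Lib.Classical.Orth Cfsg.Agent.Lib.Known3.Spinor Cfsg.Agent.Lib.Known3.OmegaCalc
open Cfsg.Agent.Lib.Known3.OmegaTrans Cfsg.Agent.Lib.Known3.QuadIso
open Module Matrix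
open scoped commutatorElement

local notation "P" => QuadraticMap.polarBilin

section ext

universe u

variable {F : Type u} [Field F] {K : Type*} [Field K] [Algebra F K] {m : ℕ} [Fintype F]
variable (a b : F) (hab : ∀ z₁ z₂ : F, z₁ ^ 2 + a * z₁ * z₂ + b * z₂ ^ 2 = 0 → z₁ = 0 ∧ z₂ = 0)

/-- The relation transported to the extension. -/
lemma map_sim (h2 : (2 : F) ≠ 0) (g : Sim (⇑(Qminus m F a b))) (v : (Fin m ⊕ Fin m) ⊕ Fin 2 → K)
    (hne : ∃ v, Qminus m F a b v ≠ 0) :
    Qminus m K (algebraMap F K a) (algebraMap F K b) (g.1.1.map (algebraMap F K) *ᵥ v) =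
      algebraMap F K (mu _ hne g : F) * Qminus m K (algebraMap F K a) (algebraMap F K b) v := by
  have h1 := transpose_gram_mul_sim hne g
  set M := g.1.1.map (algebraMap F K) with hM
  set Q' := Qminus m K (algebraMap F K a) (algebraMap F K b) with hQ'
  have h3 : M.transpose * gram Q' * M = (algebraMap F K (mu _ hne g : F)) • gram Q' := by
    have h4 : ((g.1.1).transpose * gram (Qminus m F a b) * g.1.1).map (algebraMap F K) = (((mu _ hne g : Fˣ) : F) • gram (Qminus m F a b)).map (algebraMap F K) := by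
      rw [h1]
    rw [Matrix.map_mul, Matrix.map_mul, gram_map, Matrix.transpose_map] at h4
    rw [h4, hQ', ← gram_map]
    ext i j
    simp
  have h2K : (2 : K) ≠ 0 := two_ne_ext h2
  have key : (M *ᵥ v) ⬝ᵥ (gram Q' *ᵥ (M *ᵥ v)) = v ⬝ᵥ ((M.transpose * gram Q' * M) *ᵥ v) := by
    rw [Matrix.mul_assoc, ← Matrix.mulVec_mulVec, ← Matrix.mulVec_mulVec, Matrix.dotProduct_mulVec v M.transpose, Matrix.vecMul_transpose]
  have h5 : QuadraticMap.polar (⇑Q') (M *ᵥ v) (M *ᵥ v) = algebraMap F K (mu _ hne g : F) * QuadraticMap.polar (⇑Q') v v := by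
    rw [← dot_gram_mulVec, ← dot_gram_mulVec, key, h3, Matrix.smul_mulVec, dotProduct_smul, smul_eq_mul]
  have h6 : ∀ x, QuadraticMap.polar (⇑Q') x x = 2 * Q' x := fun x => pol_self Q' x
  rw [h6, h6] at h5
  apply mul_left_cancel₀ h2K
  linear_combination h5

variable [Fintype K]

include hab in
/-- Parity over the extension. -/
theorem psc_ext (hK : finrank F K = 2) (h2 : (2 : F) ≠ 0) (g : Sim (⇑(Qminus m F a b))) :
    Cfsg.PreservesSingularClasses (⇑(Qminus m K (algebraMap F K a) (algebraMap F K b))) (g.1.1.map (algebraMap F K)) ↔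
      eps _ (ne_minus h2 a b hab) (Qminus_nondeg hab m) h2 card_minus g = 1 := by
  have hne := ne_minus (m := m) h2 a b hab
  set μ : Fˣ := mu _ hne g with hμ
  obtain ⟨c, hc⟩ := isSquare_base (K := K) hK h2 (μ : F)
  have h2K : (2 : K) ≠ 0 := two_ne_ext h2
  have hσμ : algebraMap F K (μ : F) ≠ 0 := by
    simp
  have hc0 : c ≠ 0 := by
    rintro rfl
    rw [mul_zero] at hc
    exact hσμ hc
  set M := g.1.1.map (algebraMap F K) with hM
  set Q' := Qminus m K (algebraMap F K a) (algebraMap F K b) with hQ'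
  have hdetM : M.det = algebraMap F K g.1.1.det := by
    rw [hM, ← RingHom.mapMatrix_apply, ← RingHom.map_det]
  have hdetg : g.1.1.det ≠ 0 := ((Matrix.isUnit_iff_isUnit_det _).1 g.1.isUnit).ne_zero
  have hcard := card_minus (m := m)
  have hdetN : (c⁻¹ • M).det = (c⁻¹) ^ (2 * (m + 1)) * algebraMap F K g.1.1.det := by
    rw [Matrix.det_smul, hcard, hdetM]
  have hdetN0 : (c⁻¹ • M).det ≠ 0 := by
    rw [hdetN]
    apply mul_ne_zero (pow_ne_zero _ (inv_ne_zero hc0))
    simpa using hdetg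
  have hpres : ∀ v, Q' ((c⁻¹ • M) *ᵥ v) = Q' v := by
    intro v
    rw [Matrix.smul_mulVec, Q_smul, map_sim a b h2 g v hne, ← hμ, hc]
    field_simp
    rfl
  let k : Cfsg.isometryGroup K (⇑Q') := mkIso' (⇑Q') (c⁻¹ • M) hdetN0 hpres
  have hk : k.1.1 = c⁻¹ • M := rfl
  have hMk : M = c • k.1.1 := by
    rw [hk, smul_smul, mul_inv_cancel₀ hc0, one_smul]
  have hV : finrank K ((Fin m ⊕ Fin m) ⊕ Fin 2 → K) = 2 * (m + 1) := by
    rw [Module.finrank_fintype_fun_eq_card, hcard]
  have hQK : (P Q').Nondegenerate := nondeg_ext a b hab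
  obtain ⟨θ, hθ⟩ := exists_root (K := K) a b hab hK h2
  have hU := lagr_ext (m := m) hθ
  have hkey : k.1.1.det = 1 ↔ eps _ hne (Qminus_nondeg hab m) h2 card_minus g = 1 := by
    rw [eps_eq_one_iff, hk, hdetN, ← hμ]
    constructor
    · intro h3
      apply (algebraMap F K).injective
      rw [map_pow]
      have h4 : (c⁻¹) ^ (2 * (m + 1)) * c ^ (2 * (m + 1)) = 1 := by
        rw [← mul_pow, inv_mul_cancel₀ hc0, one_pow]
      rw [hc, ← pow_two, ← pow_mul]
      calc algebraMap F K g.1.1.det = ((c⁻¹) ^ (2 * (m + 1)) * c ^ (2 * (m + 1))) * algebraMap F K g.1.1.det := by rw [h4, one_mul]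
        _ = ((c⁻¹) ^ (2 * (m + 1)) * algebraMap F K g.1.1.det) * c ^ (2 * (m + 1)) := by ring
        _ = c ^ (2 * (m + 1)) := by rw [h3, one_mul]
    · intro h3
      rw [h3, map_pow, hc, ← pow_two, ← pow_mul, ← mul_pow, inv_mul_cancel₀ hc0, one_pow]
  rw [← hkey]
  constructor
  · intro hp
    have h5 := hp _ (max_of_lagr hQK hV hU)
    rw [hMk, image_scal _ hc0] at h5
    exact (parity_iso (two_ne_ext h2) hQK hV hU k).1 h5
  · intro h5 U hU'
    have hUL := lagr_of_max hQK hV hU hU'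
    rw [hMk, image_scal _ hc0]
    exact (parity_iso (two_ne_ext h2) hQK hV hUL k).2 h5

end ext

section final

universe u

variable {F : Type u} [Field F] {m : ℕ} [Fintype F]
variable (a b : F) (hab : ∀ z₁ z₂ : F, z₁ ^ 2 + a * z₁ * z₂ + b * z₂ ^ 2 = 0 → z₁ = 0 ∧ z₂ = 0)

open Polynomial in
include hab in
/-- A quadratic extension exists. -/
lemma exists_quad : ∃ (K : Type u) (_ : Field K) (_ : Algebra F K), finrank F K = 2 := by
  let f : F[X] := X ^ 2 + C a * X + C b
  have hf : f.Monic := by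
    unfold f
    monicity!
  have hdeg : f.natDegree = 2 := by
    unfold f
    compute_degree!
  have hirr : Irreducible f := by
    apply Polynomial.irreducible_of_degree_le_three_of_not_isRoot
    · rw [hdeg]
      simp
    · intro t ht
      have h3 : t ^ 2 + a * t * 1 + b * 1 ^ 2 = 0 := by
        have := ht
        simp only [f, IsRoot.def, eval_add, eval_mul, eval_pow, eval_X, eval_C] at this
        linear_combination this
      exact one_ne_zero (hab t 1 h3).2
  haveI : Fact (Irreducible f) := ⟨hirr⟩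
  refine ⟨AdjoinRoot f, inferInstance, inferInstance, ?_⟩
  rw [(AdjoinRoot.powerBasis hirr.ne_zero).finrank, AdjoinRoot.powerBasis_dim, hdeg]

include hab in
/-- The class-preserving similarities. -/
theorem psc_minus (h2 : (2 : F) ≠ 0) (g : Sim (⇑(Qminus m F a b))) :
    Cfsg.PreservesSingularClassesMinus m a b g.1.1 ↔ eps _ (ne_minus h2 a b hab) (Qminus_nondeg hab m) h2 card_minus g = 1 := by
  constructor
  · rintro ⟨K, iK, iA, hK, hp⟩
    rw [← coe_Qminus] at hp
    haveI := finite_ext (F := F) (K := K) hK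
    letI : Fintype K := Fintype.ofFinite K
    exact (psc_ext a b hab hK h2 g).1 hp
  · intro h
    obtain ⟨K, iK, iA, hK⟩ := exists_quad a b hab
    refine ⟨K, iK, iA, hK, ?_⟩
    rw [← coe_Qminus]
    haveI := finite_ext (F := F) (K := K) hK
    letI : Fintype K := Fintype.ofFinite K
    exact (psc_ext a b hab hK h2 g).2 h

omit [Fintype F] in
lemma inndiagMinus_def : Cfsg.inndiagPOmegaMinus m F a b = Cfsg.autSubgroupOf (fun β => ∃ g : GL ((Fin m ⊕ Fin m) ⊕ Fin 2) F,
    g ∈ Cfsg.Geo.quadSimilarityGroup (F := F) (Cfsg.quadFormMinus m F a b) ∧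
    Cfsg.PreservesSingularClassesMinus m a b (g : Matrix ((Fin m ⊕ Fin m) ⊕ Fin 2) ((Fin m ⊕ Fin m) ⊕ Fin 2) F) ∧
    Cfsg.IsInducedBySemilinearPOmega (Cfsg.quadFormMinus m F a b) g (RingEquiv.refl F) β) := rfl

end final


end Cfsg.Agent.Lib.Known3.SimAut
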