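import Mathlib
import Cfsg.Agent.Lib.Known3.SimAut11

/-! The inner-diagonal group of the minus type. -/

set_option autoImplicit false
set_option linter.unusedSectionVars false

namespace Cfsg.Agent.Lib.Known3.SimAut

open Cfsg.Agent.Lib.Classical.Witt Cfsg.Agent.Lib.Classical.Abs Cfsg.Agent.Lib.Classical
open Cfsg.Agent.Lib.Classical.Orth Cfsg.Agent.Lib.Known3.Spinor Cfsg.Agent.Lib.Known3.OmegaCalc
open Cfsg.Agent.Lib.Known3.OmegaTrans Cfsg.Agent.Lib.Known3.QuadIso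
open Module Matrix
open scoped commutatorElement

local notation "P" => QuadraticMap.polarBilin

section minus

variable {F : Type*} [Field F] {m : ℕ} (a b : F)

/-- A vector in the anisotropic plane. -/
def pl (x y : F) : (Fin m ⊕ Fin m) ⊕ Fin 2 → F := Sum.elim 0 ![x, y]

lemma Q_pl (x y : F) : Qminus m F a b (pl x y) = x ^ 2 + a * x * y + b * y ^ 2 := by
  rw [Qminus_apply]
  simp [Cfsg.quadFormMinus, pl]

lemma P_pl (x y : F) (v : (Fin m ⊕ Fin m) ⊕ Fin 2 → F) :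
    P (Qminus m F a b) (pl x y) v = 2 * x * v (Sum.inr 0) + a * (x * v (Sum.inr 1) + y * v (Sum.inr 0)) + 2 * b * (y * v (Sum.inr 1)) := by
  rw [polar_Qminus]
  simp [pl]

lemma d_inl (ν s t : F) (x : (Fin m ⊕ Fin m) ⊕ Fin 2 → F) (i : Fin m) :
    (dMinusM a b ν s t *ᵥ x) (Sum.inl (Sum.inl i)) = ν * x (Sum.inl (Sum.inl i)) := by
  rw [dMinusM, fromBlocks_mulVec]
  simp [mulVec_diagonal]

lemma d_inr (ν s t : F) (x : (Fin m ⊕ Fin m) ⊕ Fin 2 → F) (i : Fin m) :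
    (dMinusM a b ν s t *ᵥ x) (Sum.inl (Sum.inr i)) = x (Sum.inl (Sum.inr i)) := by
  rw [dMinusM, fromBlocks_mulVec]
  simp [mulVec_diagonal]

lemma d_0 (ν s t : F) (x : (Fin m ⊕ Fin m) ⊕ Fin 2 → F) :
    (dMinusM a b ν s t *ᵥ x) (Sum.inr 0) = s * x (Sum.inr 0) + -b * t * x (Sum.inr 1) := by
  rw [dMinusM, fromBlocks_mulVec]
  simp [mulVec, dotProduct, Fin.sum_univ_two]

lemma d_1 (ν s t : F) (x : (Fin m ⊕ Fin m) ⊕ Fin 2 → F) :
    (dMinusM a b ν s t *ᵥ x) (Sum.inr 1) = t * x (Sum.inr 0) + (s + a * t) * x (Sum.inr 1) := by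
  rw [dMinusM, fromBlocks_mulVec]
  simp [mulVec, dotProduct, Fin.sum_univ_two]

/-- The square of the similarity. -/
lemma dMinus_sq (ν s t : F) (hν0 : ν ≠ 0) (hν : ν = s ^ 2 + a * s * t + b * t ^ 2) :
    ∃ L : List (NS (Qminus m F a b)), L.length = 2 * (m + 1) ∧ (L.map (fun v => Qminus m F a b v.1)).prod = ν ^ (m + 1) ∧
    (dMinus a b ν s t hν0 hν : Sim (⇑(Qminus m F a b))) * dMinus a b ν s t hν0 hν =
      scal (Qminus m F a b) (Units.mk0 ν hν0) * isoSim (isoL (Qminus m F a b) L) := by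
  obtain ⟨L₁, h1, h3, h4⟩ := exists_scale_first (Q := Qminus m F a b) (fun j => Sum.inl (Sum.inl j)) (fun j => Sum.inl (Sum.inr j)) (pair_minus m a b)
    (Sum.elim (Sum.elim (fun j : Fin m => (j : ℕ)) (fun j : Fin m => (j : ℕ))) (fun _ : Fin 2 => m))
    (Sum.elim (Sum.elim (fun _ => ν) (fun _ => ν⁻¹)) (fun _ => 1)) hν0 (fun _ => rfl) (fun _ => rfl) m le_rfl (by
      intro j hj k
      rcases k with (k | k) | k
      · simp [Fin.ext_iff]
      · simp [Fin.ext_iff]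
      · simp
        omega) m le_rfl
  have hu : Qminus m F a b (pl s t) ≠ 0 := by
    rw [Q_pl, ← hν]
    exact hν0
  have he : Qminus m F a b (pl 1 0) ≠ 0 := by
    rw [Q_pl]
    simp
  refine ⟨L₁ ++ [⟨pl s t, hu⟩, ⟨pl 1 0, he⟩], ?_, ?_, ?_⟩
  · simp [h1]
    ring
  · simp only [List.map_append, List.prod_append, h3, List.map_cons, List.map_nil, List.prod_cons, List.prod_nil, Q_pl, ← hν]
    simp
    ring
  · apply Subtype.ext
    apply Units.ext
    change dMinusM a b ν s t * dMinusM a b ν s t = (ν • (1 : Matrix _ _ F)) * (isoL (Qminus m F a b) _).1.1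
    rw [isoL_coe, Matrix.smul_mul, Matrix.one_mul]
    apply Matrix.mulVec_injective
    funext x k
    have hQe : Qminus m F a b (pl 1 0) = 1 := by
      rw [Q_pl]
      simp
    have hQu : Qminus m F a b (pl s t) = ν := by
      rw [Q_pl, ← hν]
    rw [Matrix.smul_mulVec, ← prodL_apply, prodL_append, Orth.mul_apply', Pi.smul_apply, h4, ← Matrix.mulVec_mulVec]
    -- the action on the plane
    set y := (prodL [⟨pl s t, hu⟩, ⟨pl 1 0, he⟩]).1 x with hy
    have hy1 : y = (refl (Qminus m F a b) (pl s t) hu).1 ((refl (Qminus m F a b) (pl 1 0) he).1 x) := by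
      rw [hy, prodL_cons, prodL_cons, prodL_nil, mul_one]
      rfl
    set z := (refl (Qminus m F a b) (pl 1 0) he).1 x with hz
    have hz1 : z = x - (2 * x (Sum.inr 0) + a * x (Sum.inr 1)) • pl 1 0 := by
      rw [hz, refl_apply, hQe, P_pl]
      congr 2
      ring
    have hy2 : y = z - (ν⁻¹ * (2 * s * z (Sum.inr 0) + a * (s * z (Sum.inr 1) + t * z (Sum.inr 0)) + 2 * b * (t * z (Sum.inr 1)))) • pl s t := by
      rw [hy1, refl_apply, hQu, P_pl]
    have hzi : ∀ i, z (Sum.inl i) = x (Sum.inl i) := by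
      intro i
      rw [hz1]
      simp [pl]
    have hyi : ∀ i, y (Sum.inl i) = x (Sum.inl i) := by
      intro i
      rw [hy2, ← hzi]
      simp [pl]
    have hz0 : z (Sum.inr 0) = x (Sum.inr 0) - (2 * x (Sum.inr 0) + a * x (Sum.inr 1)) := by
      rw [hz1]
      simp [pl]
    have hz1' : z (Sum.inr 1) = x (Sum.inr 1) := by
      rw [hz1]
      simp [pl]
    have hy0 : ν * y (Sum.inr 0) = ν * z (Sum.inr 0) - (2 * s * z (Sum.inr 0) + a * (s * z (Sum.inr 1) + t * z (Sum.inr 0)) + 2 * b * (t * z (Sum.inr 1))) * s := by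
      rw [hy2]
      simp [pl]
      field_simp
    have hy1' : ν * y (Sum.inr 1) = ν * z (Sum.inr 1) - (2 * s * z (Sum.inr 0) + a * (s * z (Sum.inr 1) + t * z (Sum.inr 0)) + 2 * b * (t * z (Sum.inr 1))) * t := by
      rw [hy2]
      simp [pl]
      field_simp
    rcases k with (k | k) | k
    · rw [d_inl, d_inl]
      simp [hyi]
    · rw [d_inr, d_inr]
      simp [hyi, hν0]
    · simp only [Sum.elim_inr, lt_irrefl, if_false]
      fin_cases k
      · change _ = ν * y (Sum.inr 0)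
        change (dMinusM a b ν s t *ᵥ (dMinusM a b ν s t *ᵥ x)) (Sum.inr 0) = _
        rw [d_0, d_0, d_1, hy0, hz0, hz1', hν]
        ring
      · change _ = ν * y (Sum.inr 1)
        change (dMinusM a b ν s t *ᵥ (dMinusM a b ν s t *ᵥ x)) (Sum.inr 1) = _
        rw [d_1, d_0, d_1, hy1', hz0, hz1', hν]
        ring

end minus

section final

universe u

variable {F : Type u} [Field F] {m : ℕ} [Fintype F]
variable (a b : F) (hab : ∀ z₁ z₂ : F, z₁ ^ 2 + a * z₁ * z₂ + b * z₂ ^ 2 = 0 → z₁ = 0 ∧ z₂ = 0)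

set_option maxHeartbeats 2000000 in
include hab in
/-- The main theorem for the minus type. -/
theorem minus_inndiag (hodd : Odd (Fintype.card F)) (hm : 2 ≤ m) :
    ((Even m ∧ Fintype.card F % 4 = 3) → (∃ φ : ↥(Cfsg.autSubgroupOf (fun β => ∃ g : GL ((Fin m ⊕ Fin m) ⊕ Fin 2) F,
        g ∈ Cfsg.Geo.quadSimilarityGroup (F := F) (⇑(Qminus m F a b)) ∧
        Cfsg.PreservesSingularClassesMinus m a b (g : Matrix ((Fin m ⊕ Fin m) ⊕ Fin 2) ((Fin m ⊕ Fin m) ⊕ Fin 2) F) ∧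
        Cfsg.IsInducedBySemilinearPOmega (⇑(Qminus m F a b)) g (RingEquiv.refl F) β)) →* Multiplicative (ZMod 4), Function.Surjective φ ∧
        φ.ker = (Cfsg.Inn (Cfsg.POmega F (⇑(Qminus m F a b)))).subgroupOf (Cfsg.autSubgroupOf (fun β => ∃ g : GL ((Fin m ⊕ Fin m) ⊕ Fin 2) F,
        g ∈ Cfsg.Geo.quadSimilarityGroup (F := F) (⇑(Qminus m F a b)) ∧
        Cfsg.PreservesSingularClassesMinus m a b (g : Matrix ((Fin m ⊕ Fin m) ⊕ Fin 2) ((Fin m ⊕ Fin m) ⊕ Fin 2) F) ∧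
        Cfsg.IsInducedBySemilinearPOmega (⇑(Qminus m F a b)) g (RingEquiv.refl F) β)))) ∧
    (¬ (Even m ∧ Fintype.card F % 4 = 3) → (∃ φ : ↥(Cfsg.autSubgroupOf (fun β => ∃ g : GL ((Fin m ⊕ Fin m) ⊕ Fin 2) F,
        g ∈ Cfsg.Geo.quadSimilarityGroup (F := F) (⇑(Qminus m F a b)) ∧
        Cfsg.PreservesSingularClassesMinus m a b (g : Matrix ((Fin m ⊕ Fin m) ⊕ Fin 2) ((Fin m ⊕ Fin m) ⊕ Fin 2) F) ∧
        Cfsg.IsInducedBySemilinearPOmega (⇑(Qminus m F a b)) g (RingEquiv.refl F) β)) →* Multiplicative (ZMod 2), Function.Surjective φ ∧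
        φ.ker = (Cfsg.Inn (Cfsg.POmega F (⇑(Qminus m F a b)))).subgroupOf (Cfsg.autSubgroupOf (fun β => ∃ g : GL ((Fin m ⊕ Fin m) ⊕ Fin 2) F,
        g ∈ Cfsg.Geo.quadSimilarityGroup (F := F) (⇑(Qminus m F a b)) ∧
        Cfsg.PreservesSingularClassesMinus m a b (g : Matrix ((Fin m ⊕ Fin m) ⊕ Fin 2) ((Fin m ⊕ Fin m) ⊕ Fin 2) F) ∧
        Cfsg.IsInducedBySemilinearPOmega (⇑(Qminus m F a b)) g (RingEquiv.refl F) β)))) := by
  have h2 := two_ne_of_odd rfl hodd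
  rw [inndiag_eq (ne_minus h2 a b hab) (Qminus_nondeg hab m) h2 card_minus _ (psc_minus a b hab h2)]
  obtain ⟨ν, hν0, hν⟩ := exists_nonsq h2
  obtain ⟨s, t, hst⟩ := exists_rep h2 a b hab ν
  have hn : 5 ≤ Fintype.card ((Fin m ⊕ Fin m) ⊕ Fin 2) := by rw [card_minus]; omega
  have hd : ¬ IsSquare ((mu _ (ne_minus h2 a b hab) (dMinus a b ν s t hν0 hst : Sim (⇑(Qminus m F a b))) : Fˣ) : F) := by
    rw [mu_dMinus a b hab h2]
    exact hν
  obtain ⟨L, hL1, hL2, hL3⟩ := dMinus_sq (m := m) a b ν s t hν0 hst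
  have hw : isoL (Qminus m F a b) L ∈ Cfsg.Omega F (⇑(Qminus m F a b)) ↔ Even (m + 1) := by
    rw [mem_Omega_iff, toOG_isoL, mem_comm_odd h2 (Qminus_nondeg hab m), hL1, hL2, isSquare_pow_nonsq h2 hν0 hν]
    simp
  refine ⟨?_, ?_⟩
  · rintro ⟨h3, h4⟩
    exact inndiag_C4 (ne_minus h2 a b hab) (Qminus_nondeg hab m) h2 card_minus hn (dMinus a b ν s t hν0 hst) hd (eps_dMinus a b hab h2 ν s t hν0 hst)
      ((negOm_minus rfl hodd a b hab).2 ⟨h3, h4⟩) _ _ hL3 (by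
        rw [hw, Nat.even_add_one]
        exact not_not.2 h3)
  · intro h
    exact inndiag_C2 (ne_minus h2 a b hab) (Qminus_nondeg hab m) h2 card_minus hn (dMinus a b ν s t hν0 hst) hd (eps_dMinus a b hab h2 ν s t hν0 hst) (by
      rw [negOm_minus rfl hodd a b hab]
      exact h)

end final

end Cfsg.Agent.Lib.Known3.SimAut
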