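import Mathlib
import Cfsg.Agent.Lib.Known3.SimAut12
import Cfsg.Agent.Lib.Classical.SympStd

/-! Similarities with scalar square: skew case and commuting elements of non-trivial spinor norm. -/

set_option autoImplicit false
set_option linter.unusedSectionVars false

namespace Cfsg.Agent.Lib.Known3.SimAut

open Cfsg.Agent.Lib.Classical.Witt Cfsg.Agent.Lib.Classical.Abs Cfsg.Agent.Lib.Classical
open Cfsg.Agent.Lib.Classical.Orth Cfsg.Agent.Lib.Known3.Spinor Cfsg.Agent.Lib.Known3.OmegaCalc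
open Cfsg.Agent.Lib.Known3.OmegaTrans Cfsg.Agent.Lib.Known3.QuadIso
open Module Matrix
open scoped commutatorElement

local notation "P" => QuadraticMap.polarBilin

section symp

variable {ι : Type} [Fintype ι] [DecidableEq ι] {F : Type*} [Field F]

/-- The determinant of a similitude of an alternating form. -/
theorem similitude_det {h : ℕ} (hc : Fintype.card ι = 2 * h) (A : Matrix ι ι F) (hA : ∀ v, v ⬝ᵥ (A *ᵥ v) = 0) (hdet : A.det ≠ 0)
    (M : Matrix ι ι F) {μ : F} (hμ : μ ≠ 0) (hM : M.transpose * A * M = μ • A) : M.det = μ ^ h := by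
  have hB : (Matrix.toBilin' A).Nondegenerate := Matrix.Nondegenerate.toBilin' (Matrix.nondegenerate_of_det_ne_zero hdet)
  have hAlt : (Matrix.toBilin' A).IsAlt := fun v => by
    rw [Matrix.toBilin'_apply']
    exact hA v
  obtain ⟨θ, hθ⟩ := exists_symp_isometry (Matrix.toBilin' A) hB hAlt h (by simpa using hc)
  let R : Matrix (Fin h ⊕ Fin h) ι F := LinearMap.toMatrix' θ.toLinearMap
  let S : Matrix ι (Fin h ⊕ Fin h) F := LinearMap.toMatrix' θ.symm.toLinearMap
  have hRS : R * S = 1 := by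
    simp only [R, S, ← LinearMap.toMatrix'_comp]
    simp
  have hSR : S * R = 1 := by
    simp only [R, S, ← LinearMap.toMatrix'_comp]
    simp
  have hRv : ∀ v, R *ᵥ v = θ v := fun v => by
    simp [R, LinearMap.toMatrix'_mulVec]
  have hdot : ∀ u v, u ⬝ᵥ ((R.transpose * Matrix.J (Fin h) F * R) *ᵥ v) = (R *ᵥ u) ⬝ᵥ (Matrix.J (Fin h) F *ᵥ (R *ᵥ v)) := by
    intro u v
    rw [Matrix.mul_assoc, ← Matrix.mulVec_mulVec, ← Matrix.mulVec_mulVec, Matrix.dotProduct_mulVec u R.transpose, Matrix.vecMul_transpose]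
  have hJ : R.transpose * Matrix.J (Fin h) F * R = A := by
    ext i j
    have h1 := hθ (Pi.single i 1) (Pi.single j 1)
    rw [Matrix.toBilin'_apply', Cfsg.sympForm, ← hRv, ← hRv, ← hdot] at h1
    simpa [Matrix.mulVec_single_one, single_dotProduct] using h1
  set M' := R * M * S with hM'
  have hdetM' : M'.det = M.det := Matrix.det_conj_of_mul_eq_one hRS hSR
  have h3 : M'.transpose * Matrix.J (Fin h) F * M' = μ • Matrix.J (Fin h) F := by
    have h4 : M'.transpose * Matrix.J (Fin h) F * M' = S.transpose * (M.transpose * (R.transpose * Matrix.J (Fin h) F * R) * M) * S := by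
      rw [hM']
      simp only [Matrix.transpose_mul, Matrix.mul_assoc]
    rw [h4, hJ, hM, Matrix.mul_smul, Matrix.smul_mul, ← hJ]
    congr 1
    have h5 : S.transpose * (R.transpose * Matrix.J (Fin h) F * R) * S = (R * S).transpose * Matrix.J (Fin h) F * (R * S) := by
      simp only [Matrix.transpose_mul, Matrix.mul_assoc]
    rw [h5, hRS]
    simp
  -- the standard similitude
  let D : Matrix (Fin h ⊕ Fin h) (Fin h ⊕ Fin h) F := Matrix.fromBlocks (μ • 1) 0 0 1
  let D' : Matrix (Fin h ⊕ Fin h) (Fin h ⊕ Fin h) F := Matrix.fromBlocks (μ⁻¹ • 1) 0 0 1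
  have hDD : D * D' = 1 := by
    simp only [D, D', Matrix.fromBlocks_multiply]
    simp [hμ, ← Matrix.fromBlocks_one]
  have hdetD : D.det = μ ^ h := by
    simp [D, Matrix.det_fromBlocks_zero₁₂, Matrix.det_smul]
  have hD'J : D'.transpose * Matrix.J (Fin h) F * D' = μ⁻¹ • Matrix.J (Fin h) F := by
    simp only [D', Matrix.J, Matrix.fromBlocks_transpose, Matrix.fromBlocks_multiply, Matrix.fromBlocks_smul]
    simp
  have hN : M' * D' ∈ Matrix.symplecticGroup (Fin h) F := by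
    rw [SymplecticGroup.mem_iff']
    have h6 : (M' * D').transpose * Matrix.J (Fin h) F * (M' * D') = D'.transpose * (M'.transpose * Matrix.J (Fin h) F * M') * D' := by
      simp only [Matrix.transpose_mul, Matrix.mul_assoc]
    rw [h6, h3, Matrix.mul_smul, Matrix.smul_mul, hD'J, smul_smul, mul_inv_cancel₀ hμ, one_smul]
  have h7 := SymplecticGroup.det_eq_one hN
  rw [Matrix.det_mul] at h7
  have h8 : D'.det * D.det = 1 := by
    rw [← Matrix.det_mul, mul_eq_one_comm.1 hDD, Matrix.det_one]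
  rw [← hdetM', ← hdetD]
  calc M'.det = M'.det * (D'.det * D.det) := by rw [h8, mul_one]
    _ = (M'.det * D'.det) * D.det := by ring
    _ = D.det := by rw [h7, one_mul]

end symp

section main

variable {ι : Type} [Fintype ι] [DecidableEq ι] {F : Type*} [Field F] {Q : QuadraticForm F (ι → F)}

lemma polar_eq (a b : ι → F) : QuadraticMap.polar (⇑Q) a b = P Q a b := rfl

lemma reflM_smul {v : ι → F} (hv : Q v ≠ 0) {c : F} (hc : c ≠ 0) :
    Cfsg.reflectionMatrix (⇑Q) (c • v) = Cfsg.reflectionMatrix (⇑Q) v := by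
  apply Matrix.mulVec_injective
  funext x
  rw [reflectionMatrix_mulVec, reflectionMatrix_mulVec, Q_smul, polar_eq, polar_eq, map_smul, LinearMap.smul_apply, smul_eq_mul, smul_smul]
  congr 2
  field_simp

lemma reflM_comm {u w : ι → F} (huw : P Q u w = 0) :
    Cfsg.reflectionMatrix (⇑Q) u * Cfsg.reflectionMatrix (⇑Q) w = Cfsg.reflectionMatrix (⇑Q) w * Cfsg.reflectionMatrix (⇑Q) u := by
  apply Matrix.mulVec_injective
  funext x
  have hwu : P Q w u = 0 := by rw [pol_comm]; exact huw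
  rw [← Matrix.mulVec_mulVec, ← Matrix.mulVec_mulVec, reflectionMatrix_mulVec, reflectionMatrix_mulVec, reflectionMatrix_mulVec, reflectionMatrix_mulVec]
  simp only [polar_eq, map_sub, map_smul, huw, hwu, smul_eq_mul, mul_zero, sub_zero]
  abel

variable [Fintype F]
variable {hne : ∃ v, Q v ≠ 0} {hQ : (P Q).Nondegenerate} {h2 : (2 : F) ≠ 0} {h : ℕ} {hc : Fintype.card ι = 2 * h}

lemma mm_apply (g : Sim (⇑Q)) (c : Fˣ) (hgc : g * g = scal Q c) (x : ι → F) : g.1.1 *ᵥ (g.1.1 *ᵥ x) = (c : F) • x := by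
  have h1 : g.1.1 * g.1.1 = (c : F) • 1 := congrArg (fun z : Sim (⇑Q) => z.1.1) hgc
  rw [Matrix.mulVec_mulVec, h1, Matrix.smul_mulVec, Matrix.one_mulVec]

/-- The skew case. -/
lemma eps_of_skew (hne : ∃ v, Q v ≠ 0) (hQ : (P Q).Nondegenerate) (h2 : (2 : F) ≠ 0) {h : ℕ} (hc : Fintype.card ι = 2 * h)
    (g : Sim (⇑Q)) (c : Fˣ) (hgc : g * g = scal Q c) (hcμ : (c : F) = - (mu Q hne g : F)) : eps Q hne hQ h2 hc g = 1 := by
  rw [eps_eq_one_iff]
  have hμ : (mu Q hne g : F) ≠ 0 := Units.ne_zero _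
  have h1 : ∀ x, P Q x (g.1.1 *ᵥ x) = 0 := by
    intro x
    have e1 := polar_mu hne g x (g.1.1 *ᵥ x)
    rw [mm_apply g c hgc, polar_eq, polar_eq, map_smul, pol_comm Q (g.1.1 *ᵥ x) x, hcμ, smul_eq_mul] at e1
    have e2 : (2 * (mu Q hne g : F)) * P Q x (g.1.1 *ᵥ x) = 0 := by linear_combination -e1
    exact (mul_eq_zero.1 e2).resolve_left (mul_ne_zero h2 hμ)
  have hG := gram_det_ne_zero Q hQ
  have hg0 : g.1.1.det ≠ 0 := ((Matrix.isUnit_iff_isUnit_det _).1 g.1.isUnit).ne_zero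
  apply similitude_det hc (gram Q * g.1.1) _ _ _ hμ
  · rw [← Matrix.mul_assoc, transpose_gram_mul_sim hne g, Matrix.smul_mul]
  · intro v
    rw [← Matrix.mulVec_mulVec, dot_gram_mulVec]
    exact h1 v
  · rw [Matrix.det_mul]
    exact mul_ne_zero hG hg0

/-- Conjugating a reflection by a similarity. -/
lemma refl_conj' (hne : ∃ v, Q v ≠ 0) (g : Sim (⇑Q)) (v : ι → F) (hv : Q v ≠ 0) :
    Cfsg.reflectionMatrix (⇑Q) (g.1.1 *ᵥ v) * g.1.1 = g.1.1 * Cfsg.reflectionMatrix (⇑Q) v :=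
  refl_conj hne g v hv

lemma isoL_pair_coe (u w : NS Q) : (isoL Q [u, w]).1.1 = Cfsg.reflectionMatrix (⇑Q) u.1 * Cfsg.reflectionMatrix (⇑Q) w.1 := by
  rw [isoL_coe]
  simp [mL]

/-- In the non-square case there is a non-singular vector orthogonal to its image. -/
lemma exists_orth_image (hne : ∃ v, Q v ≠ 0) (hQ : (P Q).Nondegenerate) (h2 : (2 : F) ≠ 0) {h : ℕ} (hc : Fintype.card ι = 2 * h) (hh : 3 ≤ h)
    (g : Sim (⇑Q)) (c : Fˣ) (hgc : g * g = scal Q c) (hcμ : c = mu Q hne g) (hμ : ¬ IsSquare (c : F)) :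
    ∃ u, Q u ≠ 0 ∧ P Q u (g.1.1 *ᵥ u) = 0 := by
  set M := g.1.1 with hM
  have hμ0 : (c : F) ≠ 0 := Units.ne_zero _
  have hMM := mm_apply g c hgc
  have hpol : ∀ x y, P Q (M *ᵥ x) (M *ᵥ y) = (c : F) * P Q x y := by
    intro x y
    have := polar_mu hne g x y
    rw [← hcμ] at this
    exact this
  have hsa : ∀ x y, P Q (M *ᵥ x) y = P Q x (M *ᵥ y) := by
    intro x y
    have e1 := hpol x (M *ᵥ y)
    rw [hMM, map_smul, smul_eq_mul] at e1
    exact mul_left_cancel₀ hμ0 e1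
  have hQM : ∀ x, Q (M *ᵥ x) = (c : F) * Q x := by
    intro x
    have := mu_spec hne g x
    rw [← hcμ] at this
    exact this
  let R : QuadraticForm F (ι → F) := LinearMap.BilinMap.toQuadraticMap ((P Q).compl₂ (Matrix.mulVecLin M))
  have hR : ∀ x, R x = P Q x (M *ᵥ x) := fun x => rfl
  obtain ⟨e, -, he0, heR⟩ := exists_singular (Q := R) (⊤ : Submodule F (ι → F)) (by
    rw [finrank_top, Module.finrank_fintype_fun_eq_card, hc]
    omega)
  rw [hR] at heR
  by_cases hQe : Q e = 0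
  swap
  · exact ⟨e, hQe, heR⟩
  -- a partner
  obtain ⟨v, hv⟩ : ∃ v, P Q e v ≠ 0 := by
    by_contra hcon
    push Not at hcon
    exact he0 (hQ.1 e hcon)
  set A := P Q e v with hA
  set C := P Q (M *ᵥ e) v with hC
  have hD : C ^ 2 - (c : F) * A ^ 2 ≠ 0 := by
    intro h0
    apply hμ
    refine ⟨C / A, ?_⟩
    field_simp
    linear_combination -h0
  set r₀ := - P Q v (M *ᵥ v) with hr₀
  set q₀ := 1 - Q v with hq₀
  let x₁ := (r₀ * C - 2 * (c : F) * A * q₀) / (2 * (C ^ 2 - (c : F) * A ^ 2))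
  let x₂ := (2 * C * q₀ - A * r₀) / (2 * (C ^ 2 - (c : F) * A ^ 2))
  have hD' : 2 * (C ^ 2 - (c : F) * A ^ 2) ≠ 0 := mul_ne_zero h2 hD
  have eq1 : 2 * C * x₁ + 2 * (c : F) * A * x₂ = r₀ := by
    have e : 2 * C * x₁ + 2 * (c : F) * A * x₂ = (2 * C * (r₀ * C - 2 * (c : F) * A * q₀) + 2 * (c : F) * A * (2 * C * q₀ - A * r₀)) / (2 * (C ^ 2 - (c : F) * A ^ 2)) := by
      simp only [x₁, x₂]
      ring
    rw [e, div_eq_iff hD']
    ring
  have eq2 : A * x₁ + C * x₂ = q₀ := by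
    have e : A * x₁ + C * x₂ = (A * (r₀ * C - 2 * (c : F) * A * q₀) + C * (2 * C * q₀ - A * r₀)) / (2 * (C ^ 2 - (c : F) * A ^ 2)) := by
      simp only [x₁, x₂]
      ring
    rw [e, div_eq_iff hD']
    ring
  refine ⟨x₁ • e + x₂ • (M *ᵥ e) + v, ?_, ?_⟩
  · have hee : P Q e e = 0 := by rw [pol_self, hQe, mul_zero]
    have hev : Q (x₁ • e + x₂ • (M *ᵥ e) + v) = 1 := by
      rw [Q_add, Q_add, Q_smul, Q_smul, hQM, hQe, map_add, LinearMap.add_apply, map_smul, map_smul, LinearMap.smul_apply, LinearMap.smul_apply,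
        map_smul, LinearMap.smul_apply, heR, ← hA, ← hC]
      simp only [smul_eq_mul]
      linear_combination eq2 - hq₀
    rw [hev]
    exact one_ne_zero
  · have hee : P Q e e = 0 := by rw [pol_self, hQe, mul_zero]
    have hme : P Q (M *ᵥ e) e = 0 := by rw [pol_comm]; exact heR
    have hmm : P Q (M *ᵥ e) (M *ᵥ e) = 0 := by rw [hpol, hee, mul_zero]
    have hve : P Q v e = A := by rw [pol_comm, hA]
    have hvm : P Q v (M *ᵥ e) = C := by rw [pol_comm, hC]
    have hemv : P Q e (M *ᵥ v) = C := by rw [← hsa, hC]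
    have hmmv : P Q (M *ᵥ e) (M *ᵥ v) = (c : F) * A := hpol e v
    have hMu : M *ᵥ (x₁ • e + x₂ • (M *ᵥ e) + v) = x₁ • (M *ᵥ e) + (x₂ * (c : F)) • e + M *ᵥ v := by
      rw [Matrix.mulVec_add, Matrix.mulVec_add, Matrix.mulVec_smul, Matrix.mulVec_smul, hMM, smul_smul]
    rw [hMu]
    simp only [map_add, LinearMap.add_apply, map_smul, LinearMap.smul_apply, smul_eq_mul, hee, hme, hmm, hve, hvm, hemv, hmmv, heR]
    linear_combination eq1 - hr₀

end main

end Cfsg.Agent.Lib.Known3.SimAut
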