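import Mathlib
import Cfsg.Agent.Lib.Known3.SimAut13

/-! Commuting elements of non-trivial spinor norm, and the count of the classes. -/

set_option autoImplicit false
set_option linter.unusedSectionVars false

namespace Cfsg.Agent.Lib.Known3.SimAut

open Cfsg.Agent.Lib.Classical.Witt Cfsg.Agent.Lib.Classical.Abs Cfsg.Agent.Lib.Classical
open Cfsg.Agent.Lib.Classical.Orth Cfsg.Agent.Lib.Known3.Spinor Cfsg.Agent.Lib.Known3.OmegaCalc
open Cfsg.Agent.Lib.Known3.OmegaTrans Cfsg.Agent.Lib.Known3.QuadIso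
open Module Matrix
open scoped commutatorElement

local notation "P" => QuadraticMap.polarBilin

section main

variable {ι : Type} [Fintype ι] [DecidableEq ι] {F : Type*} [Field F] [Fintype F] {Q : QuadraticForm F (ι → F)}

local notation "orth" => LinearMap.BilinForm.orthogonal (P Q)

/-- The square case: an eigenspace of dimension at least two. -/
lemma exists_eig (hne : ∃ v, Q v ≠ 0) (hQ : (P Q).Nondegenerate) (h2 : (2 : F) ≠ 0) {h : ℕ} (hc : Fintype.card ι = 2 * h) (hh : 3 ≤ h)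
    (g : Sim (⇑Q)) (c : Fˣ) (hgc : g * g = scal Q c) (hcμ : c = mu Q hne g) (e : F) (hce : (c : F) = e * e) :
    ∃ W : Submodule F (ι → F), 2 ≤ finrank F W ∧ W ⊓ orth W = ⊥ ∧ ∀ x ∈ W, ∃ a : F, a ≠ 0 ∧ g.1.1 *ᵥ x = a • x := by
  set M := g.1.1 with hM
  have he0 : e ≠ 0 := by
    rintro rfl
    rw [mul_zero] at hce
    exact Units.ne_zero c hce
  have hMM := mm_apply g c hgc
  have hpol : ∀ x y, P Q (M *ᵥ x) (M *ᵥ y) = (c : F) * P Q x y := by
    intro x y
    have := polar_mu hne g x y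
    rw [← hcμ] at this
    exact this
  let W : F → Submodule F (ι → F) := fun a => LinearMap.ker (Matrix.mulVecLin M - a • LinearMap.id)
  have hmem : ∀ a x, x ∈ W a ↔ M *ᵥ x = a • x := by
    intro a x
    simp only [W, LinearMap.mem_ker, LinearMap.sub_apply, Matrix.mulVecLin_apply, LinearMap.smul_apply, LinearMap.id_apply, sub_eq_zero]
  have hortho : ∀ x ∈ W e, ∀ y ∈ W (-e), P Q x y = 0 := by
    intro x hx y hy
    have e1 := hpol x y
    rw [(hmem _ _).1 hx, (hmem _ _).1 hy] at e1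
    simp only [map_smul, LinearMap.smul_apply, smul_eq_mul] at e1
    rw [hce] at e1
    have e2 : (2 * (e * e)) * P Q x y = 0 := by linear_combination -e1
    exact (mul_eq_zero.1 e2).resolve_left (mul_ne_zero h2 (mul_ne_zero he0 he0))
  have hdec : ∀ x, ∃ y ∈ W e, ∃ z ∈ W (-e), x = y + z := by
    intro x
    have h2e : 2 * e ≠ 0 := mul_ne_zero h2 he0
    refine ⟨(2 * e)⁻¹ • (e • x + M *ᵥ x), ?_, (2 * e)⁻¹ • (e • x - M *ᵥ x), ?_, ?_⟩
    · rw [hmem, Matrix.mulVec_smul, Matrix.mulVec_add, Matrix.mulVec_smul, hMM, hce]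
      ext i
      simp only [Pi.smul_apply, Pi.add_apply, smul_eq_mul]
      ring
    · rw [hmem, Matrix.mulVec_smul, Matrix.mulVec_sub, Matrix.mulVec_smul, hMM, hce]
      ext i
      simp only [Pi.smul_apply, Pi.sub_apply, smul_eq_mul]
      ring
    · rw [← smul_add]
      have : e • x + M *ᵥ x + (e • x - M *ᵥ x) = (2 * e) • x := by
        rw [mul_smul, two_smul]
        abel
      rw [this, smul_smul, inv_mul_cancel₀ h2e, one_smul]
  have htop : W e ⊔ W (-e) = ⊤ := by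
    rw [eq_top_iff]
    intro x _
    obtain ⟨y, hy, z, hz, rfl⟩ := hdec x
    exact Submodule.add_mem_sup hy hz
  have hdim : 2 * h ≤ finrank F (W e) + finrank F (W (-e)) := by
    have h3 := Submodule.finrank_add_le_finrank_add_finrank (W e) (W (-e))
    rw [htop, finrank_top, Module.finrank_fintype_fun_eq_card, hc] at h3
    exact h3
  have hnd1 : W e ⊓ orth (W e) = ⊥ := by
    rw [eq_bot_iff]
    rintro x ⟨hx1, hx2⟩
    rw [Submodule.mem_bot]
    apply hQ.1 x
    intro t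
    obtain ⟨y, hy, z, hz, rfl⟩ := hdec t
    rw [map_add, hortho x hx1 z hz, add_zero]
    rw [pol_comm]
    exact (LinearMap.BilinForm.mem_orthogonal_iff.1 hx2) y hy
  have hnd2 : W (-e) ⊓ orth (W (-e)) = ⊥ := by
    rw [eq_bot_iff]
    rintro x ⟨hx1, hx2⟩
    rw [Submodule.mem_bot]
    apply hQ.1 x
    intro t
    obtain ⟨y, hy, z, hz, rfl⟩ := hdec t
    rw [map_add, pol_comm Q x y, hortho y hy x hx1, zero_add]
    rw [pol_comm]
    exact (LinearMap.BilinForm.mem_orthogonal_iff.1 hx2) z hz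
  by_cases hd : 2 ≤ finrank F (W e)
  · exact ⟨W e, hd, hnd1, fun x hx => ⟨e, he0, (hmem _ _).1 hx⟩⟩
  · refine ⟨W (-e), by omega, hnd2, fun x hx => ⟨-e, neg_ne_zero.2 he0, (hmem _ _).1 hx⟩⟩

/-- A commuting element of non-trivial spinor norm. -/
theorem exists_comm_spin (hne : ∃ v, Q v ≠ 0) (hQ : (P Q).Nondegenerate) (h2 : (2 : F) ≠ 0) {h : ℕ} (hc : Fintype.card ι = 2 * h) (hh : 3 ≤ h)
    (g : Sim (⇑Q)) (hg : eps Q hne hQ h2 hc g = -1) (c : Fˣ) (hgc : g * g = scal Q c) {ν : F} (hν0 : ν ≠ 0) (hν : ¬ IsSquare ν) :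
    ∃ k : Cfsg.isometryGroup F (⇑Q), k.1.1.det = 1 ∧ spin Q ν k = -1 ∧ isoSim k * g = g * isoSim k := by
  have hcases : c = mu Q hne g ∨ (c : F) = - (mu Q hne g : F) := by
    have h1 : mu Q hne g * mu Q hne g = c * c := by
      rw [← map_mul, hgc, mu_scal]
    have h3 : ((c : F) - mu Q hne g) * ((c : F) + mu Q hne g) = 0 := by
      have := congrArg Units.val h1
      simp only [Units.val_mul] at this
      linear_combination -this
    rcases mul_eq_zero.1 h3 with h4 | h4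
    · exact Or.inl (Units.ext (sub_eq_zero.1 h4))
    · exact Or.inr (by linear_combination h4)
  rcases hcases with hcμ | hcμ
  swap
  · exfalso
    have := eps_of_skew hne hQ h2 hc g c hgc hcμ
    rw [hg] at this
    exact absurd this (by decide)
  set M := g.1.1 with hM
  have hdet2 : ((-1 : F) * -1) = 1 := by ring
  by_cases hsq : IsSquare (c : F)
  · obtain ⟨e, he⟩ := hsq
    obtain ⟨W, hW1, hW2, hW3⟩ := exists_eig hne hQ h2 hc hh g c hgc hcμ e he
    obtain ⟨u, huW, hu⟩ := exists_value hW2 hW1 1 one_ne_zero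
    obtain ⟨w, hwW, hw⟩ := exists_value hW2 hW1 ν hν0
    have hu0 : Q u ≠ 0 := by rw [hu]; exact one_ne_zero
    have hw0 : Q w ≠ 0 := by rw [hw]; exact hν0
    let L : List (NS Q) := [⟨u, hu0⟩, ⟨w, hw0⟩]
    refine ⟨isoL Q L, ?_, ?_, ?_⟩
    · rw [isoL_coe, det_mL]
      simp [L]
    · rcases Int.units_eq_one_or (spin Q ν (isoL Q L)) with h3 | h3
      · have h4 := (spin_isoL h2 hν0 hν (toOG_isoL Q L)).1 h3
        simp [L, hu, hw] at h4
        exact absurd h4 hν
      · exact h3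
    · have hcomm : ∀ x ∈ W, Q x ≠ 0 → Cfsg.reflectionMatrix (⇑Q) x * M = M * Cfsg.reflectionMatrix (⇑Q) x := by
        intro x hx hx0
        obtain ⟨a, ha0, hax⟩ := hW3 x hx
        have h5 := refl_conj' hne g x hx0
        rw [hax, reflM_smul hx0 ha0] at h5
        exact h5
      apply Subtype.ext
      apply Units.ext
      change (isoL Q L).1.1 * M = M * (isoL Q L).1.1
      rw [isoL_pair_coe, Matrix.mul_assoc, hcomm w hwW hw0, ← Matrix.mul_assoc, hcomm u huW hu0, Matrix.mul_assoc]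
  · obtain ⟨u, hu0, huu⟩ := exists_orth_image hne hQ h2 hc hh g c hgc hcμ hsq
    have hMu : Q (M *ᵥ u) = (c : F) * Q u := by
      have := mu_spec hne g u
      rw [← hcμ] at this
      exact this
    have hu'0 : Q (M *ᵥ u) ≠ 0 := by
      rw [hMu]
      exact mul_ne_zero (Units.ne_zero c) hu0
    let L : List (NS Q) := [⟨u, hu0⟩, ⟨M *ᵥ u, hu'0⟩]
    refine ⟨isoL Q L, ?_, ?_, ?_⟩
    · rw [isoL_coe, det_mL]
      simp [L]
    · rcases Int.units_eq_one_or (spin Q ν (isoL Q L)) with h3 | h3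
      swap
      · exact h3
      exfalso
      rw [spin_isoL h2 hν0 hν (toOG_isoL Q L)] at h3
      simp only [L, List.map_cons, List.map_nil, List.prod_cons, List.prod_nil, mul_one, hMu] at h3
      obtain ⟨s, hs⟩ := h3
      apply hsq
      refine ⟨s / Q u, ?_⟩
      field_simp
      linear_combination hs
    · have h5 := refl_conj' hne g u hu0
      have h6 := refl_conj' hne g (M *ᵥ u) hu'0
      have h7 : M *ᵥ (M *ᵥ u) = (c : F) • u := mm_apply g c hgc u
      rw [h7, reflM_smul hu0 (Units.ne_zero c)] at h6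
      apply Subtype.ext
      apply Units.ext
      change (isoL Q L).1.1 * M = M * (isoL Q L).1.1
      rw [isoL_pair_coe]
      change Cfsg.reflectionMatrix (⇑Q) u * Cfsg.reflectionMatrix (⇑Q) (M *ᵥ u) * M = M * (Cfsg.reflectionMatrix (⇑Q) u * Cfsg.reflectionMatrix (⇑Q) (M *ᵥ u))
      have h5' : Cfsg.reflectionMatrix (⇑Q) (M *ᵥ u) * M = M * Cfsg.reflectionMatrix (⇑Q) u := h5
      have h6' : Cfsg.reflectionMatrix (⇑Q) u * M = M * Cfsg.reflectionMatrix (⇑Q) (M *ᵥ u) := h6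
      calc Cfsg.reflectionMatrix (⇑Q) u * Cfsg.reflectionMatrix (⇑Q) (M *ᵥ u) * M
          = Cfsg.reflectionMatrix (⇑Q) u * (Cfsg.reflectionMatrix (⇑Q) (M *ᵥ u) * M) := by rw [Matrix.mul_assoc]
        _ = Cfsg.reflectionMatrix (⇑Q) u * (M * Cfsg.reflectionMatrix (⇑Q) u) := by rw [h5']
        _ = (Cfsg.reflectionMatrix (⇑Q) u * M) * Cfsg.reflectionMatrix (⇑Q) u := by rw [Matrix.mul_assoc]
        _ = (M * Cfsg.reflectionMatrix (⇑Q) (M *ᵥ u)) * Cfsg.reflectionMatrix (⇑Q) u := by rw [h6']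
        _ = M * (Cfsg.reflectionMatrix (⇑Q) (M *ᵥ u) * Cfsg.reflectionMatrix (⇑Q) u) := by rw [Matrix.mul_assoc]
        _ = M * (Cfsg.reflectionMatrix (⇑Q) u * Cfsg.reflectionMatrix (⇑Q) (M *ᵥ u)) := by rw [reflM_comm huu]

end main

end Cfsg.Agent.Lib.Known3.SimAut
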