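import Mathlib
import Cfsg.Agent.Lib.Known3.SimAut14

/-! The number of `Inn`-classes in an `Inndiag`-class of an involutory graph automorphism. -/

set_option autoImplicit false
set_option linter.unusedSectionVars false

namespace Cfsg.Agent.Lib.Known3.SimAut

open Cfsg.Agent.Lib.Classical.Witt Cfsg.Agent.Lib.Classical.Abs Cfsg.Agent.Lib.Classical
open Cfsg.Agent.Lib.Classical.Orth Cfsg.Agent.Lib.Known3.Spinor Cfsg.Agent.Lib.Known3.OmegaCalc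
open Cfsg.Agent.Lib.Known3.OmegaTrans Cfsg.Agent.Lib.Known3.QuadIso
open Module Matrix
open scoped commutatorElement

local notation "P" => QuadraticMap.polarBilin

section count

variable {X : Type*} [Group X]

lemma conjUnder_refl (K : Subgroup X) (x : X) : Cfsg.IsConjUnder K x x := ⟨1, K.one_mem, by simp⟩

lemma conjUnder_symm {K : Subgroup X} {x y : X} (h : Cfsg.IsConjUnder K x y) : Cfsg.IsConjUnder K y x := by
  obtain ⟨k, hk, rfl⟩ := h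
  exact ⟨k⁻¹, K.inv_mem hk, by group⟩

lemma conjUnder_trans {K : Subgroup X} {x y z : X} (h : Cfsg.IsConjUnder K x y) (h' : Cfsg.IsConjUnder K y z) : Cfsg.IsConjUnder K x z := by
  obtain ⟨k, hk, rfl⟩ := h
  obtain ⟨l, hl, rfl⟩ := h'
  exact ⟨l * k, K.mul_mem hl hk, by group⟩

/-- Counting classes when there are at most two of them. -/
theorem count_two_cases (H K : Subgroup X) (γ t : X) (ht : t ∈ H)
    (hcov : ∀ y, Cfsg.IsConjUnder H γ y → Cfsg.IsConjUnder K γ y ∨ Cfsg.IsConjUnder K (t * γ * t⁻¹) y) :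
    (Cfsg.splitClassCount H K γ = 1 ∨ Cfsg.splitClassCount H K γ = 2) ∧
      (¬ Cfsg.IsConjUnder K γ (t * γ * t⁻¹) → Cfsg.splitClassCount H K γ = 2) := by
  classical
  let A := {y : X // Cfsg.IsConjUnder H γ y}
  let r : A → A → Prop := fun y z => Cfsg.IsConjUnder K y.1 z.1
  have hr : Equivalence r := ⟨fun y => conjUnder_refl K y.1, conjUnder_symm, conjUnder_trans⟩
  let a0 : A := ⟨γ, conjUnder_refl H γ⟩
  let a1 : A := ⟨t * γ * t⁻¹, ⟨t, ht, rfl⟩⟩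
  have hall : ∀ q : Quot r, q = Quot.mk r a0 ∨ q = Quot.mk r a1 := by
    intro q
    obtain ⟨y, rfl⟩ := Quot.exists_rep q
    rcases hcov y.1 y.2 with h3 | h3
    · exact Or.inl (Quot.sound (conjUnder_symm h3))
    · exact Or.inr (Quot.sound (conjUnder_symm h3))
  have hex : ∀ y z : A, Quot.mk r y = Quot.mk r z → r y z := by
    intro y z h3
    exact hr.eqvGen_iff.1 (Quot.eqvGen_exact h3)
  have hcase2 : Quot.mk r a0 ≠ Quot.mk r a1 → Nat.card (Quot r) = 2 := by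
    intro hne
    rw [Nat.card_eq_two_iff]
    refine ⟨_, _, hne, ?_⟩
    ext q
    simp only [Set.mem_insert_iff, Set.mem_singleton_iff, Set.mem_univ, iff_true]
    exact hall q
  have hcase1 : Quot.mk r a0 = Quot.mk r a1 → Nat.card (Quot r) = 1 := by
    intro he
    rw [Nat.card_eq_one_iff_unique]
    refine ⟨⟨?_⟩, ⟨Quot.mk r a0⟩⟩
    intro q q'
    have h3 : ∀ q : Quot r, q = Quot.mk r a0 := by
      intro q
      rcases hall q with h4 | h4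
      · exact h4
      · rw [h4, he]
    rw [h3 q, h3 q']
  constructor
  · by_cases he : Quot.mk r a0 = Quot.mk r a1
    · exact Or.inl (hcase1 he)
    · exact Or.inr (hcase2 he)
  · intro hno
    apply hcase2
    intro he
    exact hno (hex _ _ he)

/-- A quotient of order four is abelian. -/
lemma comm_of_relIndex_four (A N : Subgroup X) [hN : N.Normal] (hidx : N.relIndex A = 4) {a b : X} (ha : a ∈ A) (hb : b ∈ A) :
    a * b * a⁻¹ * b⁻¹ ∈ N := by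
  have hc : Nat.card (A ⧸ N.subgroupOf A) = 2 ^ 2 := by
    have : Nat.card (A ⧸ N.subgroupOf A) = (N.subgroupOf A).index := rfl
    rw [this]
    exact hidx
  haveI : Fact (Nat.Prime 2) := ⟨Nat.prime_two⟩
  have hcomm := IsPGroup.isMulCommutative_of_card_eq_prime_sq hc
  have h3 := hcomm.is_comm.comm ((⟨a, ha⟩ : A) : A ⧸ N.subgroupOf A) ((⟨b, hb⟩ : A) : A ⧸ N.subgroupOf A)
  have h4 : (((⟨a, ha⟩ * ⟨b, hb⟩ * (⟨a, ha⟩ : A)⁻¹ * (⟨b, hb⟩ : A)⁻¹ : A)) : A ⧸ N.subgroupOf A) = 1 := by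
    rw [QuotientGroup.mk_mul, QuotientGroup.mk_mul, QuotientGroup.mk_mul, QuotientGroup.mk_inv, QuotientGroup.mk_inv, h3]
    group
  rw [QuotientGroup.eq_one_iff] at h4
  exact h4

end count

section main

variable {ι : Type} [Fintype ι] [DecidableEq ι] {F : Type*} [Field F] [Fintype F] {Q : QuadraticForm F (ι → F)}

/-- Elements of `SO` act on `γ` as elements of `Inn` do. -/
lemma so_act (hne : ∃ v, Q v ≠ 0) (hQ : (P Q).Nondegenerate) (h2 : (2 : F) ≠ 0) {h : ℕ} (hc : Fintype.card ι = 2 * h) (hh : 3 ≤ h)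
    (g : Sim (⇑Q)) (hg : eps Q hne hQ h2 hc g = -1) (c : Fˣ) (hgc : g * g = scal Q c) (k : Cfsg.isometryGroup F (⇑Q)) (hk : k.1.1.det = 1) :
    ∃ σ ∈ Cfsg.Inn (Cfsg.POmega F (⇑Q)), Ψ (⇑Q) (isoSim k) * Ψ (⇑Q) g * (Ψ (⇑Q) (isoSim k))⁻¹ = σ * Ψ (⇑Q) g * σ⁻¹ := by
  obtain ⟨ν, hν0, hν⟩ := exists_nonsq h2
  have hmemΩ : ∀ ω : Cfsg.isometryGroup F (⇑Q), ω ∈ Cfsg.Omega F (⇑Q) → Ψ (⇑Q) (isoSim ω) ∈ Cfsg.Inn (Cfsg.POmega F (⇑Q)) := by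
    intro ω hω
    rw [Inn_eq]
    exact mem_img.2 ⟨isoSim ω, ⟨ω, hω, rfl⟩, rfl⟩
  rcases Int.units_eq_one_or (spin Q ν k) with hs | hs
  · have hkΩ : k ∈ Cfsg.Omega F (⇑Q) := (mem_Omega_iff_spin h2 hQ hν0 hν k).2 ⟨hk, hs⟩
    exact ⟨_, hmemΩ k hkΩ, rfl⟩
  · obtain ⟨s, hs1, hs2, hs3⟩ := exists_comm_spin hne hQ h2 hc hh g hg c hgc hν0 hν
    have hkΩ : k * s⁻¹ ∈ Cfsg.Omega F (⇑Q) := by
      rw [mem_Omega_iff_spin h2 hQ hν0 hν]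
      constructor
      · change (k.1.1 * (s⁻¹).1.1).det = 1
        rw [Matrix.det_mul, hk, one_mul]
        have h3 : (s * s⁻¹).1.1 = 1 := by rw [mul_inv_cancel]; rfl
        have h4 : (s.1.1 * (s⁻¹).1.1).det = 1 := by
          have : s.1.1 * (s⁻¹).1.1 = 1 := h3
          rw [this, Matrix.det_one]
        rw [Matrix.det_mul, hs1, one_mul] at h4
        exact h4
      · rw [map_mul, map_inv, hs, hs2]
        rfl
    refine ⟨_, hmemΩ _ hkΩ, ?_⟩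
    have h3 : isoSim (k * s⁻¹) = isoSim k * (isoSim s)⁻¹ := rfl
    have h4 : Ψ (⇑Q) (isoSim s) * Ψ (⇑Q) g = Ψ (⇑Q) g * Ψ (⇑Q) (isoSim s) := by
      rw [← map_mul, ← map_mul, hs3]
    rw [h3, map_mul, map_inv]
    set a := Ψ (⇑Q) (isoSim k)
    set b := Ψ (⇑Q) (isoSim s)
    set x := Ψ (⇑Q) g
    calc a * x * a⁻¹ = a * (b⁻¹ * b) * x * a⁻¹ := by group
      _ = a * b⁻¹ * (b * x) * a⁻¹ := by group
      _ = a * b⁻¹ * (x * b) * a⁻¹ := by rw [h4]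
      _ = a * b⁻¹ * x * (a * b⁻¹)⁻¹ := by group

/-- The covering. -/
lemma keps_cover (hne : ∃ v, Q v ≠ 0) (hQ : (P Q).Nondegenerate) (h2 : (2 : F) ≠ 0) {h : ℕ} (hc : Fintype.card ι = 2 * h) (hh : 3 ≤ h)
    (g : Sim (⇑Q)) (hg : eps Q hne hQ h2 hc g = -1) (c : Fˣ) (hgc : g * g = scal Q c) (d : Sim (⇑Q)) (hd : ¬ IsSquare (mu Q hne d : F))
    (hde : eps Q hne hQ h2 hc d = 1) (y : MulAut (Cfsg.POmega F (⇑Q)))
    (hy : Cfsg.IsConjUnder (img (⇑Q) (keps Q hne hQ h2 hc)) (Ψ (⇑Q) g) y) :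
    Cfsg.IsConjUnder (Cfsg.Inn (Cfsg.POmega F (⇑Q))) (Ψ (⇑Q) g) y ∨
      Cfsg.IsConjUnder (Cfsg.Inn (Cfsg.POmega F (⇑Q))) (Ψ (⇑Q) d * Ψ (⇑Q) g * (Ψ (⇑Q) d)⁻¹) y := by
  obtain ⟨b, hb, rfl⟩ := hy
  obtain ⟨g₁', hg₁', hg₁b⟩ := mem_img.1 hb
  obtain ⟨g₁, hg₁e, hg₁c⟩ := hg₁'
  have hg₁g : g₁ = g₁' := Subtype.ext hg₁c
  subst hg₁g
  have hg₁e' : eps Q hne hQ h2 hc g₁ = 1 := hg₁e
  have hiso : ∀ x : Sim (⇑Q), eps Q hne hQ h2 hc x = 1 → aa Q hne x = 1 → ∃ k : Cfsg.isometryGroup F (⇑Q), k.1.1.det = 1 ∧ Ψ (⇑Q) x = Ψ (⇑Q) (isoSim k) := by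
    intro x hx1 hx2
    obtain ⟨e, k, hk1, hk2⟩ := exists_scal_mul x hx2
    refine ⟨⟨k.1, hk2⟩, ?_, ?_⟩
    · have h3 : eps Q hne hQ h2 hc k = 1 := by
        rw [hk1, map_mul, eps_scal, one_mul] at hx1
        exact hx1
      exact ((eps_of_iso k hk2).1 h3)
    · rw [hk1, map_mul, Ψ_scal, one_mul]
      rfl
  have haa : aa Q hne d = -1 := by
    rcases Int.units_eq_one_or (aa Q hne d) with h3 | h3
    · exact absurd ((aa_eq_one_iff d).1 h3) hd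
    · exact h3
  rcases Int.units_eq_one_or (aa Q hne g₁) with h3 | h3
  · left
    obtain ⟨k, hk1, hk2⟩ := hiso g₁ hg₁e' h3
    obtain ⟨σ, hσ, hσ2⟩ := so_act hne hQ h2 hc hh g hg c hgc k hk1
    refine ⟨σ, hσ, ?_⟩
    rw [← hσ2, ← hg₁b, hk2]
  · right
    have h4 : aa Q hne (d⁻¹ * g₁) = 1 := by
      rw [map_mul, map_inv, haa, h3]
      rfl
    have h5 : eps Q hne hQ h2 hc (d⁻¹ * g₁) = 1 := by
      rw [map_mul, map_inv, hde, hg₁e']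
      rfl
    obtain ⟨k, hk1, hk2⟩ := hiso _ h5 h4
    obtain ⟨σ, hσ, hσ2⟩ := so_act hne hQ h2 hc hh g hg c hgc k hk1
    have h6 : Ψ (⇑Q) g₁ = Ψ (⇑Q) d * Ψ (⇑Q) (isoSim k) := by
      rw [← hk2, ← map_mul, mul_inv_cancel_left]
    have hN : (Cfsg.Inn (Cfsg.POmega F (⇑Q))).Normal := Cfsg.innNormal _
    refine ⟨Ψ (⇑Q) d * σ * (Ψ (⇑Q) d)⁻¹, hN.conj_mem _ hσ _, ?_⟩
    rw [← hg₁b, h6]
    calc Ψ (⇑Q) d * Ψ (⇑Q) (isoSim k) * Ψ (⇑Q) g * (Ψ (⇑Q) d * Ψ (⇑Q) (isoSim k))⁻¹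
        = Ψ (⇑Q) d * (Ψ (⇑Q) (isoSim k) * Ψ (⇑Q) g * (Ψ (⇑Q) (isoSim k))⁻¹) * (Ψ (⇑Q) d)⁻¹ := by group
      _ = Ψ (⇑Q) d * (σ * Ψ (⇑Q) g * σ⁻¹) * (Ψ (⇑Q) d)⁻¹ := by rw [hσ2]
      _ = _ := by group

/-- The lower bound. -/
lemma keps_not_conj (hne : ∃ v, Q v ≠ 0) (hQ : (P Q).Nondegenerate) (h2 : (2 : F) ≠ 0) {h : ℕ} (hc : Fintype.card ι = 2 * h) (hh : 3 ≤ h)
    (hneg : NegOm Q) (g : Sim (⇑Q)) (hg : eps Q hne hQ h2 hc g = -1) (d : Sim (⇑Q)) (hd : ¬ IsSquare (mu Q hne d : F))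
    (hde : eps Q hne hQ h2 hc d = 1) :
    ¬ Cfsg.IsConjUnder (Cfsg.Inn (Cfsg.POmega F (⇑Q))) (Ψ (⇑Q) g) (Ψ (⇑Q) d * Ψ (⇑Q) g * (Ψ (⇑Q) d)⁻¹) := by
  rintro ⟨κ, hκ, he⟩
  have hn : 5 ≤ Fintype.card ι := by omega
  obtain ⟨v, hv⟩ := hne
  have hN : (Cfsg.Inn (Cfsg.POmega F (⇑Q))).Normal := Cfsg.innNormal _
  set r : Sim (⇑Q) := isoSim (reflIso Q v hv) with hr
  have hr2 : r * r = 1 := by
    apply Subtype.ext
    have := reflIso_mul_self (Q := Q) v hv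
    have h3 : ((reflIso Q v hv * reflIso Q v hv : Cfsg.isometryGroup F (⇑Q)) : GL ι F) = 1 := by
      rw [this]
      rfl
    exact h3
  have hre := (exists_refl ⟨v, hv⟩ hQ h2 hc v hv).2
  have hx : eps Q ⟨v, hv⟩ hQ h2 hc (r⁻¹ * g) = 1 := by
    rw [map_mul, map_inv, hre, hg]
    rfl
  have hxA := mem_pgo_img (hne := ⟨v, hv⟩) (hQ := hQ) (h2 := h2) (hc := hc) _ hx
  have htA := mem_pgo_img (hne := ⟨v, hv⟩) (hQ := hQ) (h2 := h2) (hc := hc) _ hde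
  have hidx := keps_relIndex ⟨v, hv⟩ hQ h2 hc hn d hd hde hneg
  have hcomm := comm_of_relIndex_four _ _ hidx htA hxA
  have hfin := comm_not_inn h2 hQ hn ⟨v, hv⟩ hneg d hd v hv
  apply hfin
  set t := Ψ (⇑Q) d
  set ρ := Ψ (⇑Q) r
  set x := Ψ (⇑Q) (r⁻¹ * g)
  have hγ : Ψ (⇑Q) g = ρ * x := by
    simp only [x, ρ]
    rw [← map_mul, mul_inv_cancel_left]
  have hρ2 : ρ * ρ = 1 := by
    simp only [ρ]
    rw [← map_mul, hr2, map_one]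
  have hρi : ρ⁻¹ = ρ := inv_eq_of_mul_eq_one_left hρ2
  have h5 : t * (ρ * x) * t⁻¹ * (ρ * x)⁻¹ ∈ Cfsg.Inn (Cfsg.POmega F (⇑Q)) := by
    rw [← hγ, he]
    have h6 := hN.conj_mem κ⁻¹ ((Cfsg.Inn (Cfsg.POmega F (⇑Q))).inv_mem hκ) (Ψ (⇑Q) g)
    have : κ * Ψ (⇑Q) g * κ⁻¹ * (Ψ (⇑Q) g)⁻¹ = κ * (Ψ (⇑Q) g * κ⁻¹ * (Ψ (⇑Q) g)⁻¹) := by group
    rw [this]
    exact (Cfsg.Inn (Cfsg.POmega F (⇑Q))).mul_mem hκ h6
  -- `t ρ t⁻¹ ρ⁻¹ = (t ρ x t⁻¹ x⁻¹ρ⁻¹) · ρ (x t x⁻¹ t⁻¹) ρ⁻¹`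
  have h7 : t * ρ * t⁻¹ * ρ = (t * (ρ * x) * t⁻¹ * (ρ * x)⁻¹) * (ρ * (x * t * x⁻¹ * t⁻¹) * ρ⁻¹) * (ρ * ρ) := by
    rw [hρ2, mul_one, hρi]
    group
  rw [h7, hρ2, mul_one]
  refine (Cfsg.Inn (Cfsg.POmega F (⇑Q))).mul_mem h5 (hN.conj_mem _ ?_ _)
  have h8 : x * t * x⁻¹ * t⁻¹ = (t * x * t⁻¹ * x⁻¹)⁻¹ := by group
  rw [h8]
  exact (Cfsg.Inn (Cfsg.POmega F (⇑Q))).inv_mem hcomm

end main

section plus

variable {F : Type*} [Field F] [Fintype F] {m : ℕ}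

set_option maxHeartbeats 2000000 in
/-- The plus type. -/
theorem plus_split (hodd : Odd (Fintype.card F)) (hm : 4 ≤ m) (γ : MulAut (Cfsg.POmega F (⇑(Qplus m F))))
    (hγ : ∃ g : GL (Fin m ⊕ Fin m) F, g ∈ Cfsg.Geo.quadSimilarityGroup (F := F) (⇑(Qplus m F)) ∧
      ¬ Cfsg.PreservesSingularClasses (⇑(Qplus m F)) (g : Matrix (Fin m ⊕ Fin m) (Fin m ⊕ Fin m) F) ∧
      Cfsg.IsInducedBySemilinearPOmega (⇑(Qplus m F)) g (RingEquiv.refl F) γ) (hγ2 : orderOf γ = 2) :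
    (Cfsg.splitClassCount (Cfsg.autSubgroupOf (fun β => ∃ g : GL (Fin m ⊕ Fin m) F,
        g ∈ Cfsg.Geo.quadSimilarityGroup (F := F) (⇑(Qplus m F)) ∧
        Cfsg.PreservesSingularClasses (⇑(Qplus m F)) (g : Matrix (Fin m ⊕ Fin m) (Fin m ⊕ Fin m) F) ∧
        Cfsg.IsInducedBySemilinearPOmega (⇑(Qplus m F)) g (RingEquiv.refl F) β)) (Cfsg.Inn (Cfsg.POmega F (⇑(Qplus m F)))) γ = 1 ∨
     Cfsg.splitClassCount (Cfsg.autSubgroupOf (fun β => ∃ g : GL (Fin m ⊕ Fin m) F,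
        g ∈ Cfsg.Geo.quadSimilarityGroup (F := F) (⇑(Qplus m F)) ∧
        Cfsg.PreservesSingularClasses (⇑(Qplus m F)) (g : Matrix (Fin m ⊕ Fin m) (Fin m ⊕ Fin m) F) ∧
        Cfsg.IsInducedBySemilinearPOmega (⇑(Qplus m F)) g (RingEquiv.refl F) β)) (Cfsg.Inn (Cfsg.POmega F (⇑(Qplus m F)))) γ = 2) ∧
    (¬ (Odd m ∧ Fintype.card F % 4 = 3) → Cfsg.splitClassCount (Cfsg.autSubgroupOf (fun β => ∃ g : GL (Fin m ⊕ Fin m) F,
        g ∈ Cfsg.Geo.quadSimilarityGroup (F := F) (⇑(Qplus m F)) ∧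
        Cfsg.PreservesSingularClasses (⇑(Qplus m F)) (g : Matrix (Fin m ⊕ Fin m) (Fin m ⊕ Fin m) F) ∧
        Cfsg.IsInducedBySemilinearPOmega (⇑(Qplus m F)) g (RingEquiv.refl F) β)) (Cfsg.Inn (Cfsg.POmega F (⇑(Qplus m F)))) γ = 2) := by
  have h2 := two_ne_of_odd rfl hodd
  have hm1 : 1 ≤ m := by omega
  rw [inndiag_eq (ne_plus h2 hm1) (Qplus_nondeg m) h2 card_plus _ (psc_plus h2 hm1)]
  obtain ⟨g, hg, hnp, hind⟩ := hγ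
  have hγe : γ = Ψ _ ⟨g, hg⟩ := eq_Ψ_of_induced _ ⟨g, hg⟩ γ hind
  subst hγe
  have heps : eps _ (ne_plus h2 hm1) (Qplus_nondeg m) h2 card_plus ⟨g, hg⟩ = -1 := by
    rcases Int.units_eq_one_or (eps _ (ne_plus h2 hm1) (Qplus_nondeg m) h2 card_plus ⟨g, hg⟩) with h | h
    · exact absurd ((psc_plus h2 hm1 _).2 h) hnp
    · exact h
  have hsq : Ψ _ ((⟨g, hg⟩ : Sim (⇑(Qplus m F))) * ⟨g, hg⟩) = 1 := by
    rw [map_mul, ← pow_two, ← hγ2]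
    exact pow_orderOf_eq_one _
  have hh : 3 ≤ m := by omega
  obtain ⟨c, hc⟩ := scalar_of_Ψ h2 (Qplus_nondeg m) (by rw [card_plus]; omega) _ hsq
  obtain ⟨ν, hν0, hν⟩ := exists_nonsq h2
  have hd : ¬ IsSquare ((mu _ (ne_plus h2 hm1) (dPlus ν hν0 : Sim (⇑(Qplus m F))) : Fˣ) : F) := by
    rw [mu_dPlus h2 hm1]
    exact hν
  have hde := eps_dPlus h2 hm1 ν hν0
  have ht := mem_pgo_img (hne := ne_plus h2 hm1) (hQ := Qplus_nondeg m) (h2 := h2) (hc := card_plus) _ hde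
  have hcount := count_two_cases _ (Cfsg.Inn (Cfsg.POmega F (⇑(Qplus m F)))) (Ψ _ ⟨g, hg⟩) _ ht
    (fun y hy => keps_cover (ne_plus h2 hm1) (Qplus_nondeg m) h2 card_plus hh ⟨g, hg⟩ heps c hc (dPlus ν hν0) hd hde y hy)
  refine ⟨hcount.1, fun hno => hcount.2 ?_⟩
  have hneg : NegOm (Qplus m F) := (negOm_plus rfl hodd).2 hno
  exact keps_not_conj (ne_plus h2 hm1) (Qplus_nondeg m) h2 card_plus hh hneg ⟨g, hg⟩ heps (dPlus ν hν0) hd hde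

end plus

end Cfsg.Agent.Lib.Known3.SimAut
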