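import Mathlib

/-! Largest abelian subgroups of symmetric and alternating groups. -/

set_option autoImplicit false

namespace Cfsg.Agent.Lib.Known3.AbPerm

open Equiv Equiv.Perm MulAction

/-- The maximal product of a partition. -/
def ff (n : ℕ) : ℕ :=
  if n % 3 = 0 then 3 ^ (n / 3)
  else if n % 3 = 2 then 2 * 3 ^ (n / 3)
  else if n = 1 then 1 else 4 * 3 ^ (n / 3 - 1)

lemma ff_zero_mod (k : ℕ) : ff (3 * k) = 3 ^ k := by
  have h1 : (3 * k) % 3 = 0 := by omega
  have h2 : (3 * k) / 3 = k := by omega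
  simp [ff, h1, h2]

lemma ff_two_mod (k : ℕ) : ff (3 * k + 2) = 2 * 3 ^ k := by
  have h1 : (3 * k + 2) % 3 = 2 := by omega
  have h2 : (3 * k + 2) / 3 = k := by omega
  simp [ff, h1, h2]

lemma ff_one : ff 1 = 1 := by decide

lemma ff_one_mod (k : ℕ) : ff (3 * (k + 1) + 1) = 4 * 3 ^ k := by
  have h1 : (3 * (k + 1) + 1) % 3 = 1 := by omega
  have h2 : (3 * (k + 1) + 1) / 3 = k + 1 := by omega
  have h3 : 3 * (k + 1) + 1 ≠ 1 := by omega
  simp [ff, h1, h2, h3]

lemma m00 (i j : ℕ) : ff (3 * i) * ff (3 * j) ≤ ff (3 * i + 3 * j) := by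
  rw [show 3 * i + 3 * j = 3 * (i + j) by ring, ff_zero_mod, ff_zero_mod, ff_zero_mod, pow_add]

lemma m01 (i j : ℕ) : ff (3 * i) * ff (3 * j + 1) ≤ ff (3 * i + (3 * j + 1)) := by
  cases j with
  | zero =>
    cases i with
    | zero => decide
    | succ i =>
      rw [show 3 * (i + 1) + (3 * 0 + 1) = 3 * (i + 1) + 1 by ring, ff_one_mod, ff_zero_mod,
        show 3 * 0 + 1 = 1 by norm_num, ff_one, mul_one, pow_succ]
      have : 0 < 3 ^ i := by positivity
      omega
  | succ j =>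
    rw [show 3 * i + (3 * (j + 1) + 1) = 3 * (i + j + 1) + 1 by ring, ff_one_mod, ff_one_mod, ff_zero_mod,
      pow_add]
    exact le_of_eq (by ring)

lemma m02 (i j : ℕ) : ff (3 * i) * ff (3 * j + 2) ≤ ff (3 * i + (3 * j + 2)) := by
  rw [show 3 * i + (3 * j + 2) = 3 * (i + j) + 2 by ring, ff_two_mod, ff_two_mod, ff_zero_mod, pow_add]
  exact le_of_eq (by ring)

lemma m11 (i j : ℕ) : ff (3 * i + 1) * ff (3 * j + 1) ≤ ff (3 * i + 1 + (3 * j + 1)) := by
  rw [show 3 * i + 1 + (3 * j + 1) = 3 * (i + j) + 2 by ring, ff_two_mod]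
  have hp : ∀ t : ℕ, 0 < 3 ^ t := fun t => by positivity
  cases i with
  | zero =>
    cases j with
    | zero => simp [ff_one]
    | succ j =>
      rw [show 3 * 0 + 1 = 1 by norm_num, ff_one, ff_one_mod, one_mul, show 0 + (j + 1) = j + 1 by ring, pow_succ]
      have := hp j
      omega
  | succ i =>
    cases j with
    | zero =>
      rw [show 3 * 0 + 1 = 1 by norm_num, ff_one, ff_one_mod, mul_one, show i + 1 + 0 = i + 1 by ring, pow_succ]
      have := hp i
      omega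
    | succ j =>
      rw [ff_one_mod, ff_one_mod, show i + 1 + (j + 1) = i + j + 2 by ring, pow_add 3 (i + j) 2,
        pow_add 3 i j]
      have := hp (i + j)
      rw [pow_add] at this
      have h3 : 4 * 3 ^ i * (4 * 3 ^ j) = 16 * (3 ^ i * 3 ^ j) := by ring
      rw [h3]
      omega

lemma m12 (i j : ℕ) : ff (3 * i + 1) * ff (3 * j + 2) ≤ ff (3 * i + 1 + (3 * j + 2)) := by
  rw [show 3 * i + 1 + (3 * j + 2) = 3 * (i + j + 1) by ring, ff_zero_mod, ff_two_mod]
  have hp : ∀ t : ℕ, 0 < 3 ^ t := fun t => by positivity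
  cases i with
  | zero =>
    rw [show 3 * 0 + 1 = 1 by norm_num, ff_one, one_mul, show 0 + j + 1 = j + 1 by ring, pow_succ]
    have := hp j
    omega
  | succ i =>
    rw [ff_one_mod, show i + 1 + j + 1 = i + j + 2 by ring, pow_add 3 (i + j) 2, pow_add 3 i j]
    have := hp (i + j)
    rw [pow_add] at this
    have h3 : 4 * 3 ^ i * (2 * 3 ^ j) = 8 * (3 ^ i * 3 ^ j) := by ring
    rw [h3]
    omega

lemma m22 (i j : ℕ) : ff (3 * i + 2) * ff (3 * j + 2) ≤ ff (3 * i + 2 + (3 * j + 2)) := by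
  rw [show 3 * i + 2 + (3 * j + 2) = 3 * (i + j + 1) + 1 by ring, ff_one_mod, ff_two_mod, ff_two_mod, pow_add]
  exact le_of_eq (by ring)

lemma ff_mul (a b : ℕ) : ff a * ff b ≤ ff (a + b) := by
  obtain ⟨i, hi⟩ : ∃ i, a = 3 * i ∨ a = 3 * i + 1 ∨ a = 3 * i + 2 := ⟨a / 3, by omega⟩
  obtain ⟨j, hj⟩ : ∃ j, b = 3 * j ∨ b = 3 * j + 1 ∨ b = 3 * j + 2 := ⟨b / 3, by omega⟩
  rcases hi with rfl | rfl | rfl <;> rcases hj with rfl | rfl | rfl
  · exact m00 i j
  · exact m01 i j
  · exact m02 i j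
  · have := m01 j i
    rwa [mul_comm (ff (3 * j)), add_comm (3 * j) (3 * i + 1)] at this
  · exact m11 i j
  · exact m12 i j
  · have := m02 j i
    rwa [mul_comm (ff (3 * j)), add_comm (3 * j) (3 * i + 2)] at this
  · have := m12 j i
    rwa [mul_comm (ff (3 * j + 1)), add_comm (3 * j + 1) (3 * i + 2)] at this
  · exact m22 i j

lemma pw0 (k : ℕ) : 3 * k ≤ 3 ^ k := by
  induction k with
  | zero => simp
  | succ k ih =>
    rw [pow_succ]
    have : 0 < 3 ^ k := by positivity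
    omega

lemma pw2 (k : ℕ) : 3 * k + 2 ≤ 2 * 3 ^ k := by
  induction k with
  | zero => simp
  | succ k ih =>
    rw [pow_succ]
    omega

lemma pw1 (k : ℕ) : 3 * k + 4 ≤ 4 * 3 ^ k := by
  induction k with
  | zero => simp
  | succ k ih =>
    rw [pow_succ]
    omega

lemma le_ff (p : ℕ) : p ≤ ff p := by
  obtain ⟨i, hi⟩ : ∃ i, p = 3 * i ∨ p = 3 * i + 1 ∨ p = 3 * i + 2 := ⟨p / 3, by omega⟩
  rcases hi with rfl | rfl | rfl
  · rw [ff_zero_mod]; exact pw0 i
  · cases i with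
    | zero => simp [ff_one]
    | succ i =>
      rw [ff_one_mod]
      have := pw1 i
      omega
  · rw [ff_two_mod]; exact pw2 i

lemma prod_le_ff {ι : Type*} (s : Finset ι) (c : ι → ℕ) : ∏ i ∈ s, c i ≤ ff (∑ i ∈ s, c i) := by
  classical
  induction s using Finset.induction_on with
  | empty => simp [ff]
  | insert a s ha ih =>
    rw [Finset.prod_insert ha, Finset.sum_insert ha]
    exact (Nat.mul_le_mul (le_ff _) ih).trans (ff_mul _ _)

lemma l0 (j : ℕ) (hj : 2 ≤ j) : 54 * j ≤ 16 * 3 ^ j := by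
  induction j, hj using Nat.le_induction with
  | base => norm_num
  | succ j _ ih =>
    rw [pow_succ]
    omega

lemma l1 (j : ℕ) : 3 * (3 * j + 1) ≤ 4 * 3 ^ j := by
  induction j with
  | zero => norm_num
  | succ j ih =>
    rw [pow_succ]
    by_cases h : j = 0
    · subst h; norm_num
    · have : 0 < 3 ^ j := by positivity
      omega

lemma l2 (j : ℕ) (hj : 1 ≤ j) : 9 * (3 * j + 2) ≤ 16 * 3 ^ j := by
  induction j, hj using Nat.le_induction with
  | base => norm_num
  | succ j _ ih =>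
    rw [pow_succ]
    omega

/-- The first arithmetic bound. -/
lemma arithA (t r k : ℕ) (h1 : 1 ≤ t) (h2 : t ≠ 2) (h3 : t ≠ 3) (hs : t + r = 3 * k + 2) :
    9 * t * ff r ≤ 16 * 3 ^ k := by
  obtain ⟨j, hj⟩ : ∃ j, t = 3 * j ∨ t = 3 * j + 1 ∨ t = 3 * j + 2 := ⟨t / 3, by omega⟩
  have hp : ∀ x : ℕ, 0 < 3 ^ x := fun x => by positivity
  rcases hj with rfl | rfl | rfl
  · obtain ⟨m, rfl⟩ : ∃ m, k = j + m := ⟨k - j, by omega⟩
    have hr : r = 3 * m + 2 := by omega
    rw [hr, ff_two_mod, pow_add]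
    have hj2 : 2 ≤ j := by omega
    have h4 := l0 j hj2
    calc 9 * (3 * j) * (2 * 3 ^ m) = (54 * j) * 3 ^ m := by ring
      _ ≤ (16 * 3 ^ j) * 3 ^ m := Nat.mul_le_mul_right _ h4
      _ = _ := by ring
  · obtain ⟨m, rfl⟩ : ∃ m, k = j + m := ⟨k - j, by omega⟩
    have hr : r = 3 * m + 1 := by omega
    have h4 := l1 j
    rw [hr]
    cases m with
    | zero =>
      rw [show 3 * 0 + 1 = 1 by norm_num, ff_one, add_zero, mul_one]
      have := hp j
      omega
    | succ m =>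
      rw [ff_one_mod, show j + (m + 1) = j + m + 1 by ring, pow_succ, pow_add]
      calc 9 * (3 * j + 1) * (4 * 3 ^ m) = 12 * (3 * (3 * j + 1)) * 3 ^ m := by ring
        _ ≤ 12 * (4 * 3 ^ j) * 3 ^ m := Nat.mul_le_mul_right _ (Nat.mul_le_mul_left _ h4)
        _ = _ := by ring
  · obtain ⟨m, rfl⟩ : ∃ m, k = j + m := ⟨k - j, by omega⟩
    have hr : r = 3 * m := by omega
    have hj1 : 1 ≤ j := by omega
    have h4 := l2 j hj1
    rw [hr, ff_zero_mod, pow_add]
    calc 9 * (3 * j + 2) * 3 ^ m = (9 * (3 * j + 2)) * 3 ^ m := by ring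
      _ ≤ (16 * 3 ^ j) * 3 ^ m := Nat.mul_le_mul_right _ h4
      _ = _ := by ring

/-- The second arithmetic bound. -/
lemma arithB (r k : ℕ) (hs : 4 + r = 3 * k + 2) : 9 * 4 * ff r ≤ 16 * 3 ^ k := by
  have hk : 1 ≤ k := by omega
  obtain ⟨j, rfl⟩ : ∃ j, k = j + 1 := ⟨k - 1, by omega⟩
  cases j with
  | zero =>
    have hr : r = 1 := by omega
    rw [hr, ff_one]
    norm_num
  | succ j =>
    have hr : r = 3 * (j + 1) + 1 - 3 + 3 - 0 := by omega
    have hr' : r = 3 * (j + 1) + 1 := by omega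
    rw [hr', ff_one_mod, show j + 1 + 1 = j + 2 by ring, pow_add]
    exact le_of_eq (by ring)

/-- Partitions of `3k + 2` with a large product. -/
theorem partition_cases {ι : Type*} [Fintype ι] [DecidableEq ι] (c : ι → ℕ) (hc : ∀ i, 1 ≤ c i) (k : ℕ)
    (hs : ∑ i, c i = 3 * k + 2) :
    9 * ∏ i, c i ≤ 16 * 3 ^ k ∨ ∃ i₀, c i₀ = 2 ∧ ∀ j, j ≠ i₀ → c j = 3 := by
  by_cases h : ∃ p, c p ≠ 2 ∧ c p ≠ 3
  · left
    obtain ⟨p, hp2, hp3⟩ := h
    have h1 : ∑ i, c i = c p + ∑ i ∈ Finset.univ.erase p, c i :=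
      (Finset.add_sum_erase _ _ (Finset.mem_univ p)).symm
    have h2 : ∏ i, c i = c p * ∏ i ∈ Finset.univ.erase p, c i :=
      (Finset.mul_prod_erase _ _ (Finset.mem_univ p)).symm
    have h3 := prod_le_ff (Finset.univ.erase p) c
    have h4 := arithA (c p) (∑ i ∈ Finset.univ.erase p, c i) k (hc p) hp2 hp3 (by omega)
    rw [h2]
    calc 9 * (c p * ∏ i ∈ Finset.univ.erase p, c i) = 9 * c p * ∏ i ∈ Finset.univ.erase p, c i := by ring
      _ ≤ 9 * c p * ff (∑ i ∈ Finset.univ.erase p, c i) := Nat.mul_le_mul_left _ h3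
      _ ≤ _ := h4
  · push Not at h
    by_cases h2 : ∃ p q, p ≠ q ∧ c p = 2 ∧ c q = 2
    · left
      obtain ⟨p, q, hpq, hp, hq⟩ := h2
      have hq' : q ∈ Finset.univ.erase p := Finset.mem_erase.2 ⟨hpq.symm, Finset.mem_univ q⟩
      have h1 : ∑ i, c i = c p + (c q + ∑ i ∈ (Finset.univ.erase p).erase q, c i) := by
        rw [Finset.add_sum_erase _ _ hq', Finset.add_sum_erase _ _ (Finset.mem_univ p)]
      have h3 : ∏ i, c i = c p * (c q * ∏ i ∈ (Finset.univ.erase p).erase q, c i) := by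
        rw [Finset.mul_prod_erase _ _ hq', Finset.mul_prod_erase _ _ (Finset.mem_univ p)]
      have h4 := prod_le_ff ((Finset.univ.erase p).erase q) c
      have h5 := arithB (∑ i ∈ (Finset.univ.erase p).erase q, c i) k (by omega)
      rw [h3, hp, hq]
      calc 9 * (2 * (2 * ∏ i ∈ (Finset.univ.erase p).erase q, c i))
          = 9 * 4 * ∏ i ∈ (Finset.univ.erase p).erase q, c i := by ring
        _ ≤ 9 * 4 * ff (∑ i ∈ (Finset.univ.erase p).erase q, c i) := Nat.mul_le_mul_left _ h4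
        _ ≤ _ := h5
    · right
      push Not at h2
      by_cases h3 : ∃ p, c p = 2
      · obtain ⟨p, hp⟩ := h3
        refine ⟨p, hp, fun j hj => ?_⟩
        by_cases h4 : c j = 2
        · exact absurd h4 (h2 p j hj.symm hp)
        · exact h j h4
      · push Not at h3
        exfalso
        have h4 : ∀ i, c i = 3 := fun i => h i (h3 i)
        rw [Finset.sum_congr rfl (fun i _ => h4 i), Finset.sum_const, smul_eq_mul] at hs
        omega

section orbits

variable {α : Type*} [Fintype α] (A : Subgroup (Perm α))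

noncomputable local instance instFQ : Fintype (orbitRel.Quotient A α) := Fintype.ofFinite _

/-- Sizes of orbits. -/
noncomputable def osz (ω : orbitRel.Quotient A α) : ℕ := Nat.card (orbit A ω.out)

lemma osz_pos (ω : orbitRel.Quotient A α) : 1 ≤ osz A ω := by
  have : Nonempty (orbit A ω.out) := ⟨⟨ω.out, mem_orbit_self _⟩⟩
  exact Nat.card_pos

lemma sum_osz : ∑ ω, osz A ω = Nat.card α := by
  rw [Nat.card_congr (selfEquivSigmaOrbits A α), Nat.card_sigma]
  rfl

lemma mem_orbit_out (z : α) : z ∈ orbit A (Quotient.out (Quotient.mk (orbitRel A α) z)) := by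
  have h : (Quotient.out (Quotient.mk (orbitRel A α) z)) ∈ orbit A z := by
    have h1 := Quotient.exact (Quotient.out_eq (Quotient.mk (orbitRel A α) z))
    exact h1
  exact mem_orbit_symm.1 h

variable {A}

lemma comm_of (hA : IsMulCommutative A) (a b : A) : a * b = b * a := hA.is_comm.comm a b

lemma card_le_prod (hA : IsMulCommutative A) : Nat.card A ≤ ∏ ω, osz A ω := by
  classical
  let Φ : A → ∀ ω : orbitRel.Quotient A α, orbit A ω.out := fun a ω => ⟨a • ω.out, mem_orbit _ _⟩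
  have hΦ : Function.Injective Φ := by
    intro a b hab
    apply Subtype.ext
    apply Equiv.ext
    intro z
    obtain ⟨c, hc⟩ := mem_orbit_out A z
    have h1 : a • (Quotient.out (Quotient.mk (orbitRel A α) z)) = b • (Quotient.out (Quotient.mk (orbitRel A α) z)) :=
      congrArg Subtype.val (congrFun hab (Quotient.mk (orbitRel A α) z))
    change a • z = b • z
    rw [← hc]
    change a • c • _ = b • c • _
    rw [smul_smul, smul_smul, comm_of hA a c, comm_of hA b c, mul_smul, mul_smul, h1]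
  have h1 := Nat.card_le_card_of_injective Φ hΦ
  rwa [Nat.card_pi] at h1

theorem ub_S (hA : IsMulCommutative A) : Nat.card A ≤ ff (Nat.card α) := by
  rw [← sum_osz A]
  exact (card_le_prod hA).trans (prod_le_ff _ _)

/-- Abelian subgroups consisting of even permutations of `3k+2` points. -/
theorem ub_even [DecidableEq α] (k : ℕ) (hn : Nat.card α = 3 * k + 2) (hA : IsMulCommutative A)
    (hE : ∀ a ∈ A, sign a = 1) : 9 * Nat.card A ≤ 16 * 3 ^ k := by
  classical
  rcases partition_cases (osz A) (osz_pos A) k ((sum_osz A).trans hn) with h | ⟨i₀, h2, h3⟩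
  · exact (Nat.mul_le_mul_left _ (card_le_prod hA)).trans h
  · exfalso
    set x := i₀.out with hx
    have horb : Nat.card (orbit A x) = 2 := h2
    obtain ⟨⟨u, hu⟩, ⟨v, hv⟩, huv, hall⟩ := Nat.card_eq_two_iff.1 horb
    have huv' : u ≠ v := fun h => huv (Subtype.ext h)
    have hmem : ∀ z ∈ orbit A x, z = u ∨ z = v := by
      intro z hz
      have h5 : (⟨z, hz⟩ : orbit A x) ∈ ({⟨u, hu⟩, ⟨v, hv⟩} : Set (orbit A x)) := by
        rw [hall]; trivial
      rcases h5 with h5 | h5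
      · exact Or.inl (congrArg Subtype.val h5)
      · exact Or.inr (congrArg Subtype.val h5)
    obtain ⟨a, ha⟩ : ∃ a : A, a • u = v := by
      have h4 : v ∈ orbit A u := by
        have h5 : orbit A u = orbit A x := orbit_eq_iff.2 hu
        rw [h5]; exact hv
      obtain ⟨a, ha⟩ := h4
      exact ⟨a, ha⟩
    have hav : a • v = u := by
      have h4 : a • v ∈ orbit A x := by
        have h5 : orbit A v = orbit A x := orbit_eq_iff.2 hv
        rw [← h5]; exact mem_orbit _ _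
      rcases hmem _ h4 with h5 | h5
      · exact h5
      · exfalso
        apply huv'
        have h6 : a • u = a • v := by rw [ha, h5]
        exact smul_left_cancel a h6
    have hswap : ((a ^ 3 : A) : Perm α) = swap u v := by
      apply Equiv.ext
      intro z
      by_cases hzu : z = u
      · subst hzu
        rw [swap_apply_left]
        change a ^ 3 • z = v
        rw [pow_succ, pow_two, mul_smul, mul_smul, ha, hav, ha]
      by_cases hzv : z = v
      · subst hzv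
        rw [swap_apply_right]
        change a ^ 3 • z = u
        rw [pow_succ, pow_two, mul_smul, mul_smul, hav, ha, hav]
      rw [swap_apply_of_ne_of_ne hzu hzv]
      -- the orbit of `z` has size 3
      have hne : Quotient.mk (orbitRel A α) z ≠ i₀ := by
        intro h
        have h4 := mem_orbit_out A z
        rw [h] at h4
        rcases hmem z h4 with h5 | h5
        · exact hzu h5
        · exact hzv h5
      have h3' := h3 _ hne
      have horb3 : (orbit A z).ncard = 3 := by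
        have h4 : orbit A z = orbit A (Quotient.out (Quotient.mk (orbitRel A α) z)) :=
          orbit_eq_iff.2 (mem_orbit_out A z)
        rw [h4, ← Nat.card_coe_set_eq]
        exact h3'
      have hidx : (stabilizer A z).index = 3 := by
        rw [index_stabilizer, horb3]
      haveI hnorm : (stabilizer A z).Normal := ⟨fun n hn g => by
        rw [comm_of hA g n, mul_inv_cancel_right]; exact hn⟩
      have h4 := Subgroup.pow_index_mem (stabilizer A z) a
      rw [hidx] at h4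
      exact h4
    have h5 := hE _ (a ^ 3 : A).2
    rw [hswap, sign_swap huv'] at h5
    exact absurd h5 (by decide)

end orbits

/-- Realization by even permutations. -/
def Rr (n c : ℕ) : Prop :=
  ∃ A : Subgroup (Perm (Fin n)), IsMulCommutative A ∧ Nat.card A = c ∧ ∀ a ∈ A, sign a = 1

/-- Realization by permutations. -/
def Rs (n c : ℕ) : Prop :=
  ∃ A : Subgroup (Perm (Fin n)), IsMulCommutative A ∧ Nat.card A = c

/-- The homomorphism of the direct sum. -/
def fHom (a b : ℕ) : Perm (Fin a) × Perm (Fin b) →* Perm (Fin (a + b)) :=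
  (finSumFinEquiv.permCongrHom.toMonoidHom).comp (sumCongrHom (Fin a) (Fin b))

lemma fHom_inj (a b : ℕ) : Function.Injective (fHom a b) :=
  fun x y h => sumCongrHom_injective ((finSumFinEquiv (m := a) (n := b)).permCongrHom.injective h)

lemma sign_fHom (a b : ℕ) (x : Perm (Fin a) × Perm (Fin b)) : sign (fHom a b x) = sign x.1 * sign x.2 := by
  change sign (finSumFinEquiv.permCongr (Equiv.Perm.sumCongr x.1 x.2)) = _
  rw [sign_permCongr, sign_sumCongr]

/-- Product subgroup. -/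
lemma exists_sum {a b : ℕ} (A : Subgroup (Perm (Fin a))) (B : Subgroup (Perm (Fin b)))
    (hA : IsMulCommutative A) (hB : IsMulCommutative B) :
    ∃ C : Subgroup (Perm (Fin (a + b))), IsMulCommutative C ∧ Nat.card C = Nat.card A * Nat.card B ∧
      ∀ x ∈ C, ∃ u ∈ A, ∃ v ∈ B, sign x = sign u * sign v := by
  refine ⟨(A.prod B).map (fHom a b), ⟨⟨?_⟩⟩, ?_, ?_⟩
  · rintro ⟨_, ⟨x, hx, rfl⟩⟩ ⟨_, ⟨y, hy, rfl⟩⟩
    apply Subtype.ext
    change fHom a b x * fHom a b y = fHom a b y * fHom a b x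
    rw [← map_mul, ← map_mul]
    congr 1
    apply Prod.ext
    · have := hA.is_comm.comm ⟨x.1, hx.1⟩ ⟨y.1, hy.1⟩
      exact congrArg Subtype.val this
    · have := hB.is_comm.comm ⟨x.2, hx.2⟩ ⟨y.2, hy.2⟩
      exact congrArg Subtype.val this
  · rw [← Nat.card_prod]
    exact (Nat.card_congr ((A.prod B).equivMapOfInjective _ (fHom_inj a b)).toEquiv.symm).trans
      (Nat.card_congr (Subgroup.prodEquiv A B).toEquiv)
  · rintro _ ⟨x, hx, rfl⟩
    exact ⟨x.1, hx.1, x.2, hx.2, sign_fHom a b x⟩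

lemma Rr_add {a b c d : ℕ} (h1 : Rr a c) (h2 : Rr b d) : Rr (a + b) (c * d) := by
  obtain ⟨A, hA, hc, hE⟩ := h1
  obtain ⟨B, hB, hd, hF⟩ := h2
  obtain ⟨C, h3, h4, h5⟩ := exists_sum A B hA hB
  refine ⟨C, h3, by rw [h4, hc, hd], fun x hx => ?_⟩
  obtain ⟨u, hu, v, hv, h6⟩ := h5 x hx
  rw [h6, hE u hu, hF v hv, one_mul]

lemma Rs_add {a b c d : ℕ} (h1 : Rs a c) (h2 : Rs b d) : Rs (a + b) (c * d) := by
  obtain ⟨A, hA, hc⟩ := h1
  obtain ⟨B, hB, hd⟩ := h2
  obtain ⟨C, h3, h4, -⟩ := exists_sum A B hA hB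
  exact ⟨C, h3, by rw [h4, hc, hd]⟩

lemma Rr_Rs {a c : ℕ} (h : Rr a c) : Rs a c := by
  obtain ⟨A, hA, hc, -⟩ := h
  exact ⟨A, hA, hc⟩

lemma Rr_zero : Rr 0 1 := ⟨⊥, ⟨⟨fun _ _ => Subsingleton.elim _ _⟩⟩, by simp, by
  intro a ha
  rw [Subgroup.mem_bot] at ha
  simp [ha]⟩

/-- The rotation. -/
def rot3 : Perm (Fin 3) := finRotate 3

lemma rot3_order : orderOf rot3 = 3 :=
  orderOf_eq_prime (by decide) (by decide)

lemma rot3_sign : sign rot3 = 1 := by decide

lemma Rr_three : Rr 3 3 := by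
  refine ⟨Subgroup.zpowers rot3, ?_, ?_, ?_⟩
  · exact ⟨⟨fun ⟨_, ⟨x, rfl⟩⟩ ⟨_, ⟨y, rfl⟩⟩ => Subtype.ext ((zpow_mul_comm _ x y))⟩⟩
  · rw [Nat.card_zpowers, rot3_order]
  · rintro _ ⟨x, rfl⟩
    simp [rot3_sign]

/-- The Klein group. -/
def V4F : Finset (Perm (Fin 4)) :=
  {1, swap 0 1 * swap 2 3, swap 0 2 * swap 1 3, swap 0 3 * swap 1 2}

/-- The Klein subgroup. -/
def V4 : Subgroup (Perm (Fin 4)) where
  carrier := {x | x ∈ V4F}
  mul_mem' := by
    have : ∀ a ∈ V4F, ∀ b ∈ V4F, a * b ∈ V4F := by decide +kernel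
    exact fun {a b} ha hb => this a ha b hb
  one_mem' := by decide +kernel
  inv_mem' := by
    have : ∀ a ∈ V4F, a⁻¹ ∈ V4F := by decide +kernel
    exact fun {a} ha => this a ha

lemma Rr_four : Rr 4 4 := by
  refine ⟨V4, ?_, ?_, ?_⟩
  · have : ∀ a ∈ V4F, ∀ b ∈ V4F, a * b = b * a := by decide +kernel
    exact ⟨⟨fun a b => Subtype.ext (this a.1 a.2 b.1 b.2)⟩⟩
  · have h1 : Nat.card V4 = V4F.card := by
      change Nat.card {x // x ∈ V4F} = _
      rw [Nat.card_eq_fintype_card, Fintype.card_coe]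
    rw [h1]
    decide +kernel
  · have : ∀ a ∈ V4F, sign a = 1 := by decide +kernel
    exact fun a ha => this a ha

lemma Rs_two : Rs 2 2 := by
  refine ⟨Subgroup.zpowers (swap 0 1), ?_, ?_⟩
  · exact ⟨⟨fun ⟨_, ⟨x, rfl⟩⟩ ⟨_, ⟨y, rfl⟩⟩ => Subtype.ext ((zpow_mul_comm _ x y))⟩⟩
  · rw [Nat.card_zpowers]
    exact orderOf_eq_prime (by decide) (by decide)

lemma Rr_mul3 (k : ℕ) : Rr (3 * k) (3 ^ k) := by
  induction k with
  | zero => simpa using Rr_zero
  | succ k ih =>
    have := Rr_add ih Rr_three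
    rwa [show 3 * k + 3 = 3 * (k + 1) by ring, ← pow_succ] at this

lemma Rr_mod1 (j : ℕ) : Rr (3 * (j + 1) + 1) (4 * 3 ^ j) := by
  have := Rr_add (Rr_mul3 j) Rr_four
  rwa [show 3 * j + 4 = 3 * (j + 1) + 1 by ring, mul_comm (3 ^ j) 4] at this

lemma Rr_mod2 (j : ℕ) : Rr (3 * (j + 2) + 2) (16 * 3 ^ j) := by
  have := Rr_add (Rr_mod1 j) Rr_four
  rwa [show 3 * (j + 1) + 1 + 4 = 3 * (j + 2) + 2 by ring,
    show 4 * 3 ^ j * 4 = 16 * 3 ^ j by ring] at this

lemma Rs_mod2 (k : ℕ) : Rs (3 * k + 2) (2 * 3 ^ k) := by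
  have := Rs_add (Rr_Rs (Rr_mul3 k)) Rs_two
  rwa [mul_comm (3 ^ k) 2] at this

/-- Subgroups of the alternating group from realizations. -/
lemma mem_alt {n c : ℕ} (h : Rr n c) :
    ∃ A : Subgroup (alternatingGroup (Fin n)), IsMulCommutative A ∧ Nat.card A = c := by
  obtain ⟨A, hA, hc, hE⟩ := h
  have hle : A ≤ alternatingGroup (Fin n) := fun a ha => Equiv.Perm.mem_alternatingGroup.2 (hE a ha)
  refine ⟨A.subgroupOf (alternatingGroup (Fin n)), ⟨⟨?_⟩⟩, ?_⟩
  · rintro ⟨⟨a, ha⟩, ha'⟩ ⟨⟨b, hb⟩, hb'⟩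
    apply Subtype.ext
    apply Subtype.ext
    change a * b = b * a
    exact congrArg Subtype.val (hA.is_comm.comm ⟨a, ha'⟩ ⟨b, hb'⟩)
  · rw [← hc]
    exact Nat.card_congr (Subgroup.subgroupOfEquivOfLe hle).toEquiv

/-- From the alternating group to the symmetric group. -/
lemma to_perm {n : ℕ} (A : Subgroup (alternatingGroup (Fin n))) (hA : IsMulCommutative A) :
    ∃ B : Subgroup (Perm (Fin n)), IsMulCommutative B ∧ Nat.card B = Nat.card A ∧ ∀ a ∈ B, sign a = 1 := by
  refine ⟨A.map (alternatingGroup (Fin n)).subtype, ⟨⟨?_⟩⟩, ?_, ?_⟩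
  · rintro ⟨_, ⟨x, hx, rfl⟩⟩ ⟨_, ⟨y, hy, rfl⟩⟩
    apply Subtype.ext
    have := hA.is_comm.comm ⟨x, hx⟩ ⟨y, hy⟩
    exact congrArg (fun z : A => ((z : alternatingGroup (Fin n)) : Perm (Fin n))) this
  · exact (Nat.card_congr (A.equivMapOfInjective _ (Subgroup.subtype_injective _)).toEquiv).symm
  · rintro _ ⟨x, _, rfl⟩
    exact Equiv.Perm.mem_alternatingGroup.1 x.2

end Cfsg.Agent.Lib.Known3.AbPerm
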