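import Mathlib
import Cfsg.Agent.Lib.Known3.AbPerm

/-! Conjugacy of the largest abelian subgroups of the alternating groups. -/

set_option autoImplicit false

namespace Cfsg.Agent.Lib.Known3.AbPerm

open Equiv Equiv.Perm MulAction

attribute [local instance] instFQ

set_option synthInstance.maxHeartbeats 400000 in
set_option synthInstance.maxSize 4000 in
lemma D3 : ∀ f h : Perm (Fin 3), (∀ z, f (f (f z)) = z) → ((∃ y, f y = y) → ∀ z, f z = z) →
    (∀ z, h (h (h z)) = z) → ((∃ y, h y = y) → ∀ z, h z = z) → ∀ y, f y = h y → ∀ z, f z = h z := by decide +kernel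

set_option synthInstance.maxHeartbeats 400000 in
set_option synthInstance.maxSize 4000 in
lemma D4 : ∀ f h : Perm (Fin 4), (∀ z, f (f z) = z) → ((∃ y, f y = y) → ∀ z, f z = z) →
    (∀ z, h (h z) = z) → ((∃ y, h y = y) → ∀ z, h z = z) → ∀ y, f y = h y → ∀ z, f z = h z := by decide +kernel

lemma D3' : ∀ f : Perm (Fin 3), ((∃ y, f y = y) → ∀ z, f z = z) → ∀ z, f (f (f z)) = z := by decide +kernel

lemma D4' : ∀ f : Perm (Fin 4), (∀ y, f y ≠ y) → (∃ y, f (f y) ≠ y) → sign f = -1 := by decide +kernel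

section transport

variable {α : Type*} [DecidableEq α]

/-- Transport of a permutation preserving a set to `Fin c`. -/
def tr {c : ℕ} {Ω : Set α} (e : Ω ≃ Fin c) (x : Perm α) (hx : ∀ z, z ∈ Ω ↔ x z ∈ Ω) : Perm (Fin c) :=
  e.permCongr (x.subtypePerm (fun z => (hx z).symm))

lemma tr_apply {c : ℕ} {Ω : Set α} (e : Ω ≃ Fin c) (x : Perm α) (hx : ∀ z, z ∈ Ω ↔ x z ∈ Ω) (u : Ω) :
    tr e x hx (e u) = e ⟨x u.1, (hx u.1).1 u.2⟩ := by
  simp only [tr, Equiv.permCongr_apply, Equiv.symm_apply_apply]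
  rfl

lemma blk_eq3 {Ω : Set α} (hc : Nat.card Ω = 3) {f h : Perm α} (hf : ∀ z, z ∈ Ω ↔ f z ∈ Ω) (hh : ∀ z, z ∈ Ω ↔ h z ∈ Ω)
    (f3 : ∀ z ∈ Ω, f (f (f z)) = z) (f1 : (∃ y ∈ Ω, f y = y) → ∀ z ∈ Ω, f z = z)
    (h3 : ∀ z ∈ Ω, h (h (h z)) = z) (h1 : (∃ y ∈ Ω, h y = y) → ∀ z ∈ Ω, h z = z)
    {y : α} (hy : y ∈ Ω) (hfh : f y = h y) : ∀ z ∈ Ω, f z = h z := by
  haveI : Finite Ω := Nat.finite_of_card_ne_zero (by omega)
  let e : Ω ≃ Fin 3 := Finite.equivFinOfCardEq hc
  have hF := tr_apply e f hf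
  have hH := tr_apply e h hh
  have key := D3 (tr e f hf) (tr e h hh) ?_ ?_ ?_ ?_ (e ⟨y, hy⟩) ?_
  · intro z hz
    have h2 := key (e ⟨z, hz⟩)
    rw [hF, hH] at h2
    exact congrArg Subtype.val (e.injective h2)
  · intro v
    obtain ⟨u, rfl⟩ := e.surjective v
    rw [hF, hF, hF]
    congr 1
    exact Subtype.ext (f3 u.1 u.2)
  · rintro ⟨v, hv⟩ w
    obtain ⟨u, rfl⟩ := e.surjective v
    obtain ⟨u', rfl⟩ := e.surjective w
    rw [hF] at hv
    have h2 : f u.1 = u.1 := congrArg Subtype.val (e.injective hv)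
    rw [hF]
    congr 1
    exact Subtype.ext (f1 ⟨u.1, u.2, h2⟩ u'.1 u'.2)
  · intro v
    obtain ⟨u, rfl⟩ := e.surjective v
    rw [hH, hH, hH]
    congr 1
    exact Subtype.ext (h3 u.1 u.2)
  · rintro ⟨v, hv⟩ w
    obtain ⟨u, rfl⟩ := e.surjective v
    obtain ⟨u', rfl⟩ := e.surjective w
    rw [hH] at hv
    have h2 : h u.1 = u.1 := congrArg Subtype.val (e.injective hv)
    rw [hH]
    congr 1
    exact Subtype.ext (h1 ⟨u.1, u.2, h2⟩ u'.1 u'.2)
  · rw [hF, hH]
    congr 1
    exact Subtype.ext hfh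

lemma blk_eq4 {Ω : Set α} (hc : Nat.card Ω = 4) {f h : Perm α} (hf : ∀ z, z ∈ Ω ↔ f z ∈ Ω) (hh : ∀ z, z ∈ Ω ↔ h z ∈ Ω)
    (f3 : ∀ z ∈ Ω, f (f z) = z) (f1 : (∃ y ∈ Ω, f y = y) → ∀ z ∈ Ω, f z = z)
    (h3 : ∀ z ∈ Ω, h (h z) = z) (h1 : (∃ y ∈ Ω, h y = y) → ∀ z ∈ Ω, h z = z)
    {y : α} (hy : y ∈ Ω) (hfh : f y = h y) : ∀ z ∈ Ω, f z = h z := by
  haveI : Finite Ω := Nat.finite_of_card_ne_zero (by omega)
  let e : Ω ≃ Fin 4 := Finite.equivFinOfCardEq hc
  have hF := tr_apply e f hf
  have hH := tr_apply e h hh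
  have key := D4 (tr e f hf) (tr e h hh) ?_ ?_ ?_ ?_ (e ⟨y, hy⟩) ?_
  · intro z hz
    have h2 := key (e ⟨z, hz⟩)
    rw [hF, hH] at h2
    exact congrArg Subtype.val (e.injective h2)
  · intro v
    obtain ⟨u, rfl⟩ := e.surjective v
    rw [hF, hF]
    congr 1
    exact Subtype.ext (f3 u.1 u.2)
  · rintro ⟨v, hv⟩ w
    obtain ⟨u, rfl⟩ := e.surjective v
    obtain ⟨u', rfl⟩ := e.surjective w
    rw [hF] at hv
    have h2 : f u.1 = u.1 := congrArg Subtype.val (e.injective hv)
    rw [hF]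
    congr 1
    exact Subtype.ext (f1 ⟨u.1, u.2, h2⟩ u'.1 u'.2)
  · intro v
    obtain ⟨u, rfl⟩ := e.surjective v
    rw [hH, hH]
    congr 1
    exact Subtype.ext (h3 u.1 u.2)
  · rintro ⟨v, hv⟩ w
    obtain ⟨u, rfl⟩ := e.surjective v
    obtain ⟨u', rfl⟩ := e.surjective w
    rw [hH] at hv
    have h2 : h u.1 = u.1 := congrArg Subtype.val (e.injective hv)
    rw [hH]
    congr 1
    exact Subtype.ext (h1 ⟨u.1, u.2, h2⟩ u'.1 u'.2)
  · rw [hF, hH]
    congr 1
    exact Subtype.ext hfh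

lemma blk_cube {Ω : Set α} (hc : Nat.card Ω = 3) {f : Perm α} (hf : ∀ z, z ∈ Ω ↔ f z ∈ Ω)
    (f1 : (∃ y ∈ Ω, f y = y) → ∀ z ∈ Ω, f z = z) : ∀ z ∈ Ω, f (f (f z)) = z := by
  haveI : Finite Ω := Nat.finite_of_card_ne_zero (by omega)
  let e : Ω ≃ Fin 3 := Finite.equivFinOfCardEq hc
  have hF := tr_apply e f hf
  have key := D3' (tr e f hf) ?_
  · intro z hz
    have h2 := key (e ⟨z, hz⟩)
    rw [hF, hF, hF] at h2
    exact congrArg Subtype.val (e.injective h2)
  · rintro ⟨v, hv⟩ w
    obtain ⟨u, rfl⟩ := e.surjective v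
    obtain ⟨u', rfl⟩ := e.surjective w
    rw [hF] at hv
    have h2 : f u.1 = u.1 := congrArg Subtype.val (e.injective hv)
    rw [hF]
    congr 1
    exact Subtype.ext (f1 ⟨u.1, u.2, h2⟩ u'.1 u'.2)

/-- A fixed-point-free permutation supported on a set of four points, of order four on it, is odd. -/
lemma blk_sign [Fintype α] {Ω : Set α} [DecidablePred (· ∈ Ω)] (hc : Nat.card Ω = 4) {f : Perm α} (hf : ∀ z, z ∈ Ω ↔ f z ∈ Ω)
    (hsupp : ∀ z, z ∉ Ω → f z = z) (f1 : ∀ y ∈ Ω, f y ≠ y) {y : α} (hy : y ∈ Ω) (hy2 : f (f y) ≠ y) :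
    sign f = -1 := by
  haveI : Finite Ω := Nat.finite_of_card_ne_zero (by omega)
  let e : Ω ≃ Fin 4 := Finite.equivFinOfCardEq hc
  have hF := tr_apply e f hf
  have key := D4' (tr e f hf) ?_ ?_
  · have h1 : sign (f.subtypePerm (fun z => (hf z).symm)) = sign f := by
      apply Equiv.Perm.sign_subtypePerm
      intro z hz
      by_contra h
      exact hz (hsupp z h)
    rw [← h1]
    have h2 : tr e f hf = e.permCongr (f.subtypePerm (fun z => (hf z).symm)) := rfl
    rw [h2, Equiv.Perm.sign_permCongr] at key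
    exact key
  · intro v
    obtain ⟨u, rfl⟩ := e.surjective v
    rw [hF]
    intro h
    exact f1 u.1 u.2 (congrArg Subtype.val (e.injective h))
  · refine ⟨e ⟨y, hy⟩, ?_⟩
    rw [hF, hF]
    intro h
    exact hy2 (congrArg Subtype.val (e.injective h))

end transport

section good

variable {α : Type*} [Fintype α] [DecidableEq α] {A B : Subgroup (Perm α)}

/-- The largest abelian subgroups. -/
structure Good (A : Subgroup (Perm α)) : Prop where
  comm : IsMulCommutative A
  even : ∀ a ∈ A, sign a = 1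
  sz : ∀ ω : orbitRel.Quotient A α, osz A ω = 3 ∨ osz A ω = 4
  full : Nat.card A = ∏ ω, osz A ω

lemma card_orbit_eq (z : α) : Nat.card (orbit A z) = osz A (Quotient.mk (orbitRel A α) z) := by
  unfold osz
  rw [orbit_eq_iff.2 (mem_orbit_out A z)]

lemma mk_eq_iff {z w : α} : Quotient.mk (orbitRel A α) z = Quotient.mk (orbitRel A α) w ↔ z ∈ orbit A w := by
  rw [Quotient.eq]
  exact orbitRel_apply

lemma mk_of_mem {ω : orbitRel.Quotient A α} {w : α} (h : w ∈ orbit A ω.out) : Quotient.mk (orbitRel A α) w = ω := by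
  exact (mk_eq_iff.2 h).trans (Quotient.out_eq ω)

lemma orbit_card_cases (hG : Good A) (z : α) : Nat.card (orbit A z) = 3 ∨ Nat.card (orbit A z) = 4 := by
  rw [card_orbit_eq]
  exact hG.sz _

lemma Φ_inj (hA : IsMulCommutative A) : Function.Injective
    (fun (a : A) (ω : orbitRel.Quotient A α) => (⟨a • ω.out, mem_orbit _ _⟩ : orbit A ω.out)) := by
  intro a b hab
  apply Subtype.ext
  apply Equiv.ext
  intro z
  obtain ⟨c, hc⟩ := mem_orbit_out A z
  have h1 : a • (Quotient.out (Quotient.mk (orbitRel A α) z)) = b • (Quotient.out (Quotient.mk (orbitRel A α) z)) :=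
    congrArg Subtype.val (congrFun hab (Quotient.mk (orbitRel A α) z))
  change a • z = b • z
  rw [← hc]
  change a • c • _ = b • c • _
  rw [smul_smul, smul_smul, comm_of hA a c, comm_of hA b c, mul_smul, mul_smul, h1]

lemma full_surj (hG : Good A) (t : ∀ ω : orbitRel.Quotient A α, orbit A ω.out) : ∃ a : A, ∀ ω, a • ω.out = (t ω).1 := by
  have h1 := (Φ_inj hG.comm).bijective_of_nat_card_le (by
    rw [Nat.card_pi]
    exact hG.full.ge)
  obtain ⟨a, ha⟩ := h1.2 t
  exact ⟨a, fun ω => congrArg Subtype.val (congrFun ha ω)⟩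

lemma fix_orbit (hc : IsMulCommutative A) (a : A) {y z : α} (hz : z ∈ orbit A y) (h : a • y = y) : a • z = z := by
  obtain ⟨b, rfl⟩ := hz
  change a • b • y = b • y
  rw [smul_smul, comm_of hc a b, mul_smul, h]

/-- The exponent attached to a block. -/
def eE (c : ℕ) : ℕ := if c = 3 then 3 else 2

/-- The condition describing the elements of a largest abelian subgroup. -/
def Cond (A : Subgroup (Perm α)) (x : Perm α) : Prop :=
  ∀ z, x z ∈ orbit A z ∧ (x ^ eE (Nat.card (orbit A z))) z = z ∧ ((∃ y ∈ orbit A z, x y = y) → x z = z)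

lemma orbit_pres {x : Perm α} (h : ∀ z, x z ∈ orbit A z) (y z : α) : z ∈ orbit A y ↔ x z ∈ orbit A y := by
  have h1 : orbit A (x z) = orbit A z := orbit_eq_iff.2 (h z)
  rw [← orbit_eq_iff, ← orbit_eq_iff, h1]

lemma mem_smul_orbit (a : A) (z : α) : (a : Perm α) z ∈ orbit A z := ⟨a, rfl⟩

theorem cond_of_mem (hG : Good A) {x : Perm α} (hx : x ∈ A) : Cond A x := by
  classical
  have hthird : ∀ z, (∃ y ∈ orbit A z, x y = y) → x z = z := by
    rintro z ⟨y, hy, hxy⟩
    exact fix_orbit hG.comm ⟨x, hx⟩ (mem_orbit_symm.1 hy) hxy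
  have hpres : ∀ z, x z ∈ orbit A z := fun z => mem_smul_orbit ⟨x, hx⟩ z
  intro z
  refine ⟨hpres z, ?_, hthird z⟩
  rcases orbit_card_cases hG z with h3 | h4
  · rw [h3]
    have := blk_cube h3 (orbit_pres hpres z) (fun hy w hw => by
      have h5 : (∃ y ∈ orbit A w, x y = y) := by
        obtain ⟨y, hy1, hy2⟩ := hy
        exact ⟨y, by rw [orbit_eq_iff.2 hw]; exact hy1, hy2⟩
      exact hthird w h5) z (mem_orbit_self z)
    simpa [eE, pow_succ] using this
  · rw [h4]
    change (x ^ 2) z = z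
    by_contra hne
    have hne' : x (x z) ≠ z := by
      intro h
      apply hne
      rw [pow_two]
      exact h
    set ω₀ := Quotient.mk (orbitRel A α) z with hω₀
    let a : A := ⟨x, hx⟩
    let t : ∀ ω : orbitRel.Quotient A α, orbit A ω.out := fun ω =>
      if ω = ω₀ then ⟨a • ω.out, mem_orbit _ _⟩ else ⟨ω.out, mem_orbit_self _⟩
    obtain ⟨a', ha'⟩ := full_surj hG t
    have h1 : ∀ w ∈ orbit A z, (a' : Perm α) w = x w := by
      intro w hw
      have h5 : (a⁻¹ * a') • ω₀.out = ω₀.out := by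
        rw [mul_smul, ha']
        simp [t]
      have h6 : w ∈ orbit A ω₀.out := by
        have h7 : orbit A z = orbit A ω₀.out := orbit_eq_iff.2 (mem_orbit_out A z)
        rw [← h7]
        exact hw
      have h8 := fix_orbit hG.comm _ h6 h5
      rw [mul_smul, inv_smul_eq_iff] at h8
      exact h8
    have h2 : ∀ w, w ∉ orbit A z → (a' : Perm α) w = w := by
      intro w hw
      have h5 : Quotient.mk (orbitRel A α) w ≠ ω₀ := by
        intro h
        exact hw (mk_eq_iff.1 h)
      have h6 : a' • (Quotient.mk (orbitRel A α) w).out = (Quotient.mk (orbitRel A α) w).out := by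
        rw [ha']
        simp [t, h5]
      exact fix_orbit hG.comm a' (mem_orbit_out A w) h6
    have h5 := blk_sign (Ω := orbit A z) (f := (a' : Perm α)) h4 (orbit_pres (mem_smul_orbit a') z) h2 (by
      intro y hy hfix
      rw [h1 y hy] at hfix
      apply hne'
      rw [hthird z ⟨y, hy, hfix⟩, hthird z ⟨y, hy, hfix⟩]) (y := z) (mem_orbit_self z) (by
      rw [h1 z (mem_orbit_self z), h1 _ (hpres z)]
      exact hne')
    rw [hG.even _ a'.2] at h5
    exact absurd h5 (by decide)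

lemma cond_blk {x : Perm α} (hx : Cond A x) (y : α) :
    (∀ z, z ∈ orbit A y ↔ x z ∈ orbit A y) ∧ ((∃ w ∈ orbit A y, x w = w) → ∀ z ∈ orbit A y, x z = z) ∧
    (Nat.card (orbit A y) = 3 → ∀ z ∈ orbit A y, x (x (x z)) = z) ∧ (Nat.card (orbit A y) = 4 → ∀ z ∈ orbit A y, x (x z) = z) := by
  refine ⟨orbit_pres (fun z => (hx z).1) y, ?_, ?_, ?_⟩
  · rintro ⟨w, hw, hxw⟩ z hz
    exact (hx z).2.2 ⟨w, by rw [orbit_eq_iff.2 hz]; exact hw, hxw⟩
  · intro h3 z hz
    have h5 := (hx z).2.1
    rw [orbit_eq_iff.2 hz, h3] at h5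
    simpa [eE, pow_succ] using h5
  · intro h3 z hz
    have h5 := (hx z).2.1
    rw [orbit_eq_iff.2 hz, h3] at h5
    simpa [eE, pow_succ] using h5

theorem mem_of_cond (hG : Good A) {x : Perm α} (hx : Cond A x) : x ∈ A := by
  let t : ∀ ω : orbitRel.Quotient A α, orbit A ω.out := fun ω => ⟨x ω.out, (hx ω.out).1⟩
  obtain ⟨a, ha⟩ := full_surj hG t
  have hae : x = (a : Perm α) := by
    apply Equiv.ext
    intro w
    set y := (Quotient.mk (orbitRel A α) w).out with hy
    have hw : w ∈ orbit A y := mem_orbit_out A w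
    have hxa : x y = (a : Perm α) y := (ha _).symm
    obtain ⟨h1, h2, h3, h4⟩ := cond_blk hx y
    obtain ⟨h1', h2', h3', h4'⟩ := cond_blk (cond_of_mem hG a.2) y
    rcases orbit_card_cases hG y with hc | hc
    · exact blk_eq3 hc h1 h1' (h3 hc) h2 (h3' hc) h2' (mem_orbit_self y) hxa w hw
    · exact blk_eq4 hc h1 h1' (h4 hc) h2 (h4' hc) h2' (mem_orbit_self y) hxa w hw
  rw [hae]
  exact a.2

/-- A permutation carrying orbits to orbits conjugates one largest abelian subgroup into the other. -/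
theorem conj_mem (hA : Good A) (hB : Good B) (g : Perm α) (hg : ∀ z z', z' ∈ orbit A z ↔ g z' ∈ orbit B (g z))
    {x : Perm α} (hx : x ∈ A) : g * x * g⁻¹ ∈ B := by
  apply mem_of_cond hB
  intro w
  obtain ⟨z, rfl⟩ := g.surjective w
  obtain ⟨h1, h2, h3⟩ := cond_of_mem hA hx z
  have happ : ∀ u, (g * x * g⁻¹) (g u) = g (x u) := by
    intro u
    simp
  refine ⟨?_, ?_, ?_⟩
  · rw [happ]
    exact (hg z (x z)).1 h1
  · have hc : Nat.card (orbit B (g z)) = Nat.card (orbit A z) := by
      refine (Nat.card_congr (Equiv.ofBijective (fun u : orbit A z => (⟨g u.1, (hg z u.1).1 u.2⟩ : orbit B (g z))) ⟨?_, ?_⟩)).symm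
      · intro a b hab
        exact Subtype.ext (g.injective (congrArg Subtype.val hab))
      · rintro ⟨v, hv⟩
        obtain ⟨u, rfl⟩ := g.surjective v
        exact ⟨⟨u, (hg z u).2 hv⟩, rfl⟩
    have h5 : g⁻¹ (g z) = z := by simp
    rw [hc, conj_pow, Perm.mul_apply, Perm.mul_apply, h5, h2]
  · rintro ⟨v, hv, hfix⟩
    obtain ⟨u, rfl⟩ := g.surjective v
    rw [happ] at hfix ⊢
    have hu : u ∈ orbit A z := (hg z u).2 hv
    rw [h3 ⟨u, hu, g.injective hfix⟩]

/-- The representation of a point by its orbit and its place. -/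
noncomputable def toS (A : Subgroup (Perm α)) : α ≃ Σ ω : orbitRel.Quotient A α, orbit A ω.out where
  toFun z := ⟨Quotient.mk (orbitRel A α) z, ⟨z, mem_orbit_out A z⟩⟩
  invFun p := p.2.1
  left_inv _ := rfl
  right_inv := by
    rintro ⟨ω, w, hw⟩
    exact Sigma.subtype_ext (mk_of_mem hw) rfl

/-- Equal numbers of orbits of each size give a permutation carrying orbits to orbits. -/
theorem exists_g (hcount : ∀ c, Fintype.card {ω : orbitRel.Quotient A α // osz A ω = c} =
    Fintype.card {ω : orbitRel.Quotient B α // osz B ω = c}) :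
    ∃ g : Perm α, ∀ z z', z' ∈ orbit A z ↔ g z' ∈ orbit B (g z) := by
  let f : orbitRel.Quotient A α ≃ orbitRel.Quotient B α := Equiv.ofFiberEquiv (fun c => Fintype.equivOfCardEq (hcount c))
  have hf : ∀ ω, osz B (f ω) = osz A ω := fun ω => Equiv.ofFiberEquiv_map _ ω
  have hcard : ∀ ω, Nat.card (orbit A ω.out) = Nat.card (orbit B (f ω).out) := fun ω => (hf ω).symm
  let e : ∀ ω, orbit A ω.out ≃ orbit B (f ω).out := fun ω => Classical.choice (Finite.card_eq.1 (hcard ω))
  let g : Perm α := (toS A).trans ((Equiv.sigmaCongr f e).trans (toS B).symm)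
  have hg : ∀ z, g z ∈ orbit B (f (Quotient.mk (orbitRel A α) z)).out := fun z => (e _ _).2
  refine ⟨g, fun z z' => ?_⟩
  have h1 : ∀ w, Quotient.mk (orbitRel B α) (g w) = f (Quotient.mk (orbitRel A α) w) := fun w => mk_of_mem (hg w)
  rw [← mk_eq_iff, ← mk_eq_iff, h1, h1, f.apply_eq_iff_eq]

/-- Product and sum in terms of the numbers of orbits of each size. -/
lemma prod_sum (hsz : ∀ ω : orbitRel.Quotient A α, osz A ω = 3 ∨ osz A ω = 4) :
    ∏ ω, osz A ω = 3 ^ (Fintype.card {ω // osz A ω = 3}) * 4 ^ (Fintype.card {ω // osz A ω = 4}) ∧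
    ∑ ω, osz A ω = 3 * Fintype.card {ω // osz A ω = 3} + 4 * Fintype.card {ω // osz A ω = 4} := by
  classical
  have h4 : (Finset.univ.filter (fun ω : orbitRel.Quotient A α => ¬ osz A ω = 3)) = Finset.univ.filter (fun ω => osz A ω = 4) := by
    ext ω
    simp only [Finset.mem_filter, Finset.mem_univ, true_and]
    have := hsz ω
    omega
  rw [Fintype.card_subtype, Fintype.card_subtype]
  constructor
  · rw [← Finset.prod_filter_mul_prod_filter_not Finset.univ (fun ω => osz A ω = 3), h4,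
      Finset.prod_congr rfl (g := fun _ => 3) (fun ω hω => (Finset.mem_filter.1 hω).2),
      Finset.prod_congr rfl (s₁ := Finset.univ.filter (fun ω => osz A ω = 4)) (g := fun _ => 4) (fun ω hω => (Finset.mem_filter.1 hω).2),
      Finset.prod_const, Finset.prod_const]
  · rw [← Finset.sum_filter_add_sum_filter_not Finset.univ (fun ω => osz A ω = 3), h4,
      Finset.sum_congr rfl (g := fun _ => 3) (fun ω hω => (Finset.mem_filter.1 hω).2),
      Finset.sum_congr rfl (s₁ := Finset.univ.filter (fun ω => osz A ω = 4)) (g := fun _ => 4) (fun ω hω => (Finset.mem_filter.1 hω).2),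
      Finset.sum_const, Finset.sum_const]
    simp only [smul_eq_mul]
    ring

/-- An orbit of size two is invisible in an abelian group of even permutations. -/
lemma card_le_others [DecidableEq (orbitRel.Quotient A α)] (hc : IsMulCommutative A) (he : ∀ a ∈ A, sign a = 1) (ω₀ : orbitRel.Quotient A α) (h2 : osz A ω₀ = 2) :
    Nat.card A ≤ ∏ ω ∈ Finset.univ.erase ω₀, osz A ω := by
  let Φ : A → ∀ ω : {ω // ω ∈ Finset.univ.erase ω₀}, orbit A ω.1.out := fun a ω => ⟨a • ω.1.out, mem_orbit _ _⟩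
  have hΦ : Function.Injective Φ := by
    intro a b hab
    set c : A := a⁻¹ * b with hc'
    have hfix : ∀ ω, ω ≠ ω₀ → c • ω.out = ω.out := by
      intro ω hω
      have h3 : a • ω.out = b • ω.out :=
        congrArg Subtype.val (congrFun hab ⟨ω, Finset.mem_erase.2 ⟨hω, Finset.mem_univ _⟩⟩)
      rw [hc', mul_smul, ← h3, inv_smul_smul]
    have hfix' : ∀ w, Quotient.mk (orbitRel A α) w ≠ ω₀ → c • w = w := by
      intro w hw
      exact fix_orbit hc c (mem_orbit_out A w) (hfix _ hw)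
    have hone : c = 1 := by
      set x := ω₀.out with hx
      have horb : Nat.card (orbit A x) = 2 := h2
      obtain ⟨⟨u, hu⟩, ⟨v, hv⟩, huv, hall⟩ := Nat.card_eq_two_iff.1 horb
      have huv' : u ≠ v := fun h => huv (Subtype.ext h)
      have hmem : ∀ z ∈ orbit A x, z = u ∨ z = v := by
        intro z hz
        have h5 : (⟨z, hz⟩ : orbit A x) ∈ ({⟨u, hu⟩, ⟨v, hv⟩} : Set (orbit A x)) := by
          rw [hall]; trivial
        rcases h5 with h5 | h5
        · exact Or.inl (congrArg Subtype.val h5)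
        · exact Or.inr (congrArg Subtype.val h5)
      have hoff : ∀ w, w ∉ orbit A x → c • w = w := by
        intro w hw
        apply hfix'
        intro h
        apply hw
        rw [← h] at hx
        rw [hx]
        exact mem_orbit_out A w
      by_cases hcu : c • u = u
      · apply Subtype.ext
        apply Equiv.ext
        intro w
        change c • w = w
        by_cases hw : w ∈ orbit A x
        · have h7 : orbit A u = orbit A x := orbit_eq_iff.2 hu
          exact fix_orbit hc c (by rw [h7]; exact hw) hcu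
        · exact hoff w hw
      · exfalso
        have hcu' : c • u ∈ orbit A x := by
          have h7 : orbit A u = orbit A x := orbit_eq_iff.2 hu
          rw [← h7]
          exact mem_orbit _ _
        have hcuv : c • u = v := (hmem _ hcu').resolve_left hcu
        have hcv : c • v = u := by
          have hcv' : c • v ∈ orbit A x := by
            have h7 : orbit A v = orbit A x := orbit_eq_iff.2 hv
            rw [← h7]
            exact mem_orbit _ _
          refine (hmem _ hcv').resolve_right ?_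
          intro h8
          apply huv'
          exact smul_left_cancel c (hcuv.trans h8.symm)
        have hsw : (c : Perm α) = swap u v := by
          apply Equiv.ext
          intro w
          by_cases hzu : w = u
          · subst hzu
            rw [swap_apply_left]
            exact hcuv
          by_cases hzv : w = v
          · subst hzv
            rw [swap_apply_right]
            exact hcv
          rw [swap_apply_of_ne_of_ne hzu hzv]
          apply hoff
          intro hw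
          rcases hmem w hw with h8 | h8
          · exact hzu h8
          · exact hzv h8
        have h5 := he _ c.2
        rw [hsw, sign_swap huv'] at h5
        exact absurd h5 (by decide)
    have h5 : a⁻¹ * b = 1 := hone
    exact (inv_mul_eq_one.1 h5)
  have h1 := Nat.card_le_card_of_injective Φ hΦ
  rw [Nat.card_pi] at h1
  refine h1.trans (le_of_eq ?_)
  rw [← Finset.prod_coe_sort (Finset.univ.erase ω₀)]
  rfl

end good

section arith

lemma Rr_pow4 (b : ℕ) : Rr (4 * b) (4 ^ b) := by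
  induction b with
  | zero => simpa using Rr_zero
  | succ b ih =>
    have := Rr_add ih Rr_four
    rwa [show 4 * b + 4 = 4 * (b + 1) by ring, ← pow_succ] at this

lemma Rr_ab (a b : ℕ) : Rr (3 * a + 4 * b) (3 ^ a * 4 ^ b) := Rr_add (Rr_mul3 a) (Rr_pow4 b)

lemma s0 (k : ℕ) (hk : 2 ≤ k) : 3 * k < 3 ^ k := by
  induction k, hk using Nat.le_induction with
  | base => norm_num
  | succ k _ ih =>
    rw [pow_succ]
    omega

lemma s1 (j : ℕ) (hj : 1 ≤ j) : 3 * j + 4 < 4 * 3 ^ j := by
  induction j, hj using Nat.le_induction with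
  | base => norm_num
  | succ k _ ih =>
    rw [pow_succ]
    omega

lemma s2 (j : ℕ) (hj : 1 ≤ j) : 3 * j + 2 < 2 * 3 ^ j := by
  induction j, hj using Nat.le_induction with
  | base => norm_num
  | succ k _ ih =>
    rw [pow_succ]
    omega

lemma lt_ff (p : ℕ) (hp : 5 ≤ p) : p < ff p := by
  obtain ⟨i, hi⟩ : ∃ i, p = 3 * i ∨ p = 3 * i + 1 ∨ p = 3 * i + 2 := ⟨p / 3, by omega⟩
  rcases hi with rfl | rfl | rfl
  · rw [ff_zero_mod]
    exact s0 i (by omega)
  · obtain ⟨j, rfl⟩ : ∃ j, i = j + 1 := ⟨i - 1, by omega⟩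
    rw [ff_one_mod]
    have := s1 j (by omega)
    omega
  · rw [ff_two_mod]
    exact s2 i (by omega)

lemma ff_pos (n : ℕ) : 1 ≤ ff n := by
  rcases Nat.eq_zero_or_pos n with rfl | h
  · decide
  · exact lt_of_lt_of_le h (le_ff n)

lemma t0 (j : ℕ) (hj : 2 ≤ j) : 54 * j < 16 * 3 ^ j := by
  induction j, hj using Nat.le_induction with
  | base => norm_num
  | succ j _ ih =>
    rw [pow_succ]
    omega

lemma t1 (j : ℕ) (hj : 2 ≤ j) : 3 * (3 * j + 1) < 4 * 3 ^ j := by
  induction j, hj using Nat.le_induction with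
  | base => norm_num
  | succ j _ ih =>
    rw [pow_succ]
    omega

lemma t2 (j : ℕ) (hj : 1 ≤ j) : 9 * (3 * j + 2) < 16 * 3 ^ j := by
  induction j, hj using Nat.le_induction with
  | base => norm_num
  | succ j _ ih =>
    rw [pow_succ]
    omega

/-- The strict arithmetic bound. -/
lemma arithS (t r k : ℕ) (h1 : 5 ≤ t) (hs : t + r = 3 * k + 2) : 9 * t * ff r < 16 * 3 ^ k := by
  obtain ⟨j, hj⟩ : ∃ j, t = 3 * j ∨ t = 3 * j + 1 ∨ t = 3 * j + 2 := ⟨t / 3, by omega⟩
  have hp : ∀ x : ℕ, 0 < 3 ^ x := fun x => by positivity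
  rcases hj with rfl | rfl | rfl
  · obtain ⟨m, rfl⟩ : ∃ m, k = j + m := ⟨k - j, by omega⟩
    have hr : r = 3 * m + 2 := by omega
    rw [hr, ff_two_mod, pow_add]
    have h4 := t0 j (by omega)
    calc 9 * (3 * j) * (2 * 3 ^ m) = (54 * j) * 3 ^ m := by ring
      _ < (16 * 3 ^ j) * 3 ^ m := Nat.mul_lt_mul_of_pos_right h4 (hp m)
      _ = _ := by ring
  · obtain ⟨m, rfl⟩ : ∃ m, k = j + m := ⟨k - j, by omega⟩
    have hr : r = 3 * m + 1 := by omega
    have h4 := t1 j (by omega)
    rw [hr]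
    cases m with
    | zero =>
      rw [show 3 * 0 + 1 = 1 by norm_num, ff_one, add_zero, mul_one]
      have := hp j
      omega
    | succ m =>
      rw [ff_one_mod, show j + (m + 1) = j + m + 1 by ring, pow_succ, pow_add]
      calc 9 * (3 * j + 1) * (4 * 3 ^ m) = (3 * (3 * j + 1)) * (12 * 3 ^ m) := by ring
        _ < (4 * 3 ^ j) * (12 * 3 ^ m) := Nat.mul_lt_mul_of_pos_right h4 (by have := hp m; omega)
        _ = _ := by ring
  · obtain ⟨m, rfl⟩ : ∃ m, k = j + m := ⟨k - j, by omega⟩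
    have hr : r = 3 * m := by omega
    have h4 := t2 j (by omega)
    rw [hr, ff_zero_mod, pow_add]
    calc 9 * (3 * j + 2) * 3 ^ m = (9 * (3 * j + 2)) * 3 ^ m := by ring
      _ < (16 * 3 ^ j) * 3 ^ m := Nat.mul_lt_mul_of_pos_right h4 (hp m)
      _ = _ := by ring

/-- The lower bounds beat everything other than blocks of size three and four. -/
lemma lbd (n : ℕ) (h3 : 3 ≤ n) (h5 : n ≠ 5) : ∃ L, Rr n L ∧ (∀ p, 5 ≤ p → p ≤ n → p * ff (n - p) < L) ∧ ff (n - 1) < L ∧ ff (n - 2) < L := by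
  have hp : ∀ x : ℕ, 0 < 3 ^ x := fun x => by positivity
  have hgen : ∀ p, 5 ≤ p → p ≤ n → p * ff (n - p) < ff n := by
    intro p hp5 hpn
    have h1 := ff_mul p (n - p)
    rw [show p + (n - p) = n by omega] at h1
    refine lt_of_lt_of_le ?_ h1
    exact Nat.mul_lt_mul_of_pos_right (lt_ff p hp5) (ff_pos _)
  obtain ⟨i, hi⟩ : ∃ i, n = 3 * i ∨ n = 3 * i + 1 ∨ n = 3 * i + 2 := ⟨n / 3, by omega⟩
  rcases hi with rfl | rfl | rfl
  · refine ⟨3 ^ i, Rr_mul3 i, ?_, ?_, ?_⟩
    · intro p hp5 hpn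
      have := hgen p hp5 hpn
      rwa [ff_zero_mod] at this
    · obtain ⟨j, rfl⟩ : ∃ j, i = j + 1 := ⟨i - 1, by omega⟩
      rw [show 3 * (j + 1) - 1 = 3 * j + 2 by omega, ff_two_mod, pow_succ]
      have := hp j
      omega
    · cases i with
      | zero => omega
      | succ i =>
        cases i with
        | zero => decide
        | succ j =>
          rw [show 3 * (j + 1 + 1) - 2 = 3 * (j + 1) + 1 by omega, ff_one_mod, pow_succ, pow_succ]
          have := hp j
          omega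
  · obtain ⟨j, rfl⟩ : ∃ j, i = j + 1 := ⟨i - 1, by omega⟩
    refine ⟨4 * 3 ^ j, Rr_mod1 j, ?_, ?_, ?_⟩
    · intro p hp5 hpn
      have := hgen p hp5 hpn
      rwa [ff_one_mod] at this
    · rw [show 3 * (j + 1) + 1 - 1 = 3 * (j + 1) by omega, ff_zero_mod, pow_succ]
      have := hp j
      omega
    · rw [show 3 * (j + 1) + 1 - 2 = 3 * j + 2 by omega, ff_two_mod]
      have := hp j
      omega
  · obtain ⟨j, rfl⟩ : ∃ j, i = j + 2 := ⟨i - 2, by omega⟩
    refine ⟨16 * 3 ^ j, Rr_mod2 j, ?_, ?_, ?_⟩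
    · intro p hp5 hpn
      have := arithS p (3 * (j + 2) + 2 - p) (j + 2) hp5 (by omega)
      rw [pow_add] at this
      have h9 : 9 * p * ff (3 * (j + 2) + 2 - p) = 9 * (p * ff (3 * (j + 2) + 2 - p)) := by ring
      rw [h9] at this
      omega
    · rw [show 3 * (j + 2) + 2 - 1 = 3 * (j + 1 + 1) + 1 by omega, ff_one_mod, pow_succ]
      have := hp j
      omega
    · rw [show 3 * (j + 2) + 2 - 2 = 3 * (j + 2) by omega, ff_zero_mod, pow_add]
      have := hp j
      omega

end arith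

section top

variable {n : ℕ}

/-- A largest abelian group of even permutations has orbits of sizes three and four only. -/
theorem sz_of_max (h3 : 3 ≤ n) (h5 : n ≠ 5) {A : Subgroup (Perm (Fin n))} (hc : IsMulCommutative A) (he : ∀ a ∈ A, sign a = 1)
    (hmax : ∀ c, Rr n c → c ≤ Nat.card A) (ω₀ : orbitRel.Quotient A (Fin n)) : osz A ω₀ = 3 ∨ osz A ω₀ = 4 := by
  classical
  by_contra hne
  push Not at hne
  obtain ⟨L, hL, hL5, hL1, hL2⟩ := lbd n h3 h5
  have hLc := hmax L hL
  set p := osz A ω₀ with hp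
  have hp1 : 1 ≤ p := osz_pos A ω₀
  have hsum : p + ∑ ω ∈ Finset.univ.erase ω₀, osz A ω = n := by
    rw [hp, Finset.add_sum_erase _ _ (Finset.mem_univ ω₀), sum_osz]
    simp
  have hprod : p * ∏ ω ∈ Finset.univ.erase ω₀, osz A ω = ∏ ω, osz A ω := by
    rw [hp, Finset.mul_prod_erase _ _ (Finset.mem_univ ω₀)]
  have hP := prod_le_ff (Finset.univ.erase ω₀) (osz A)
  have hS : ∑ ω ∈ Finset.univ.erase ω₀, osz A ω = n - p := by omega
  rw [hS] at hP
  have hle := card_le_prod hc
  rw [← hprod] at hle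
  by_cases h1 : p = 1
  · rw [h1, one_mul] at hle
    rw [h1] at hP
    omega
  by_cases h2 : p = 2
  · have h6 := card_le_others hc he ω₀ h2
    rw [h2] at hP
    omega
  have hp5 : 5 ≤ p := by
    have := hne.1
    have := hne.2
    omega
  have h7 := hL5 p hp5 (by omega)
  have h8 : p * ∏ ω ∈ Finset.univ.erase ω₀, osz A ω ≤ p * ff (n - p) := Nat.mul_le_mul_left _ hP
  omega

/-- Maximal groups are good. -/
theorem good_of_max (h3 : 3 ≤ n) (h5 : n ≠ 5) {A : Subgroup (Perm (Fin n))} (hc : IsMulCommutative A) (he : ∀ a ∈ A, sign a = 1)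
    (hmax : ∀ c, Rr n c → c ≤ Nat.card A) : Good A := by
  have hsz := sz_of_max h3 h5 hc he hmax
  obtain ⟨h1, h2⟩ := prod_sum hsz
  refine ⟨hc, he, hsz, le_antisymm (card_le_prod hc) ?_⟩
  rw [h1]
  apply hmax
  have h6 := sum_osz A
  rw [h2] at h6
  have h7 : 3 * Fintype.card {ω // osz A ω = 3} + 4 * Fintype.card {ω // osz A ω = 4} = n := by
    rw [h6]
    simp
  have h8 := Rr_ab (Fintype.card {ω // osz A ω = 3}) (Fintype.card {ω // osz A ω = 4})
  rwa [h7] at h8

/-- Two good groups of the same order are conjugate by an even permutation. -/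
theorem conj_even (h3 : 3 ≤ n) {A B : Subgroup (Perm (Fin n))} (hA : Good A) (hB : Good B) (hcard : Nat.card A = Nat.card B) :
    ∃ g : Perm (Fin n), sign g = 1 ∧ ∀ x ∈ A, g * x * g⁻¹ ∈ B := by
  classical
  -- equal multiplicities
  obtain ⟨h1A, -⟩ := prod_sum hA.sz
  obtain ⟨h1B, -⟩ := prod_sum hB.sz
  have he : (3 : ℕ) ^ (Fintype.card {ω // osz A ω = 3}) * 4 ^ (Fintype.card {ω // osz A ω = 4}) =
      3 ^ (Fintype.card {ω // osz B ω = 3}) * 4 ^ (Fintype.card {ω // osz B ω = 4}) := by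
    rw [← h1A, ← h1B, ← hA.full, ← hB.full, hcard]
  have h34 : ∀ a b : ℕ, ((3 : ℕ) ^ a * 4 ^ b).factorization 3 = a ∧ ((3 : ℕ) ^ a * 4 ^ b).factorization 2 = 2 * b := by
    intro a b
    have h4 : (3 : ℕ) ^ a * 4 ^ b = 3 ^ a * 2 ^ (2 * b) := by
      rw [pow_mul]
      norm_num
    rw [h4, Nat.factorization_mul (by positivity) (by positivity), Nat.factorization_pow, Nat.factorization_pow]
    simp [Nat.Prime.factorization Nat.prime_two, Nat.Prime.factorization Nat.prime_three]
  have hb := (h34 (Fintype.card {ω // osz A ω = 3}) (Fintype.card {ω // osz A ω = 4})).2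
  have ha' := (h34 (Fintype.card {ω // osz B ω = 3}) (Fintype.card {ω // osz B ω = 4})).1
  have hb' := (h34 (Fintype.card {ω // osz B ω = 3}) (Fintype.card {ω // osz B ω = 4})).2
  have hAa := (h34 (Fintype.card {ω // osz A ω = 3}) (Fintype.card {ω // osz A ω = 4})).1
  rw [he] at hAa hb
  have e3 : Fintype.card {ω // osz A ω = 3} = Fintype.card {ω // osz B ω = 3} := by
    rw [← hAa, ha']
  have e4 : Fintype.card {ω // osz A ω = 4} = Fintype.card {ω // osz B ω = 4} := by
    omega
  have hcount : ∀ c, Fintype.card {ω : orbitRel.Quotient A (Fin n) // osz A ω = c} =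
      Fintype.card {ω : orbitRel.Quotient B (Fin n) // osz B ω = c} := by
    intro c
    by_cases hc3 : c = 3
    · subst hc3; exact e3
    by_cases hc4 : c = 4
    · subst hc4; exact e4
    rw [Fintype.card_eq_zero_iff.2 ⟨fun ω => ?_⟩, Fintype.card_eq_zero_iff.2 ⟨fun ω => ?_⟩]
    · have := hB.sz ω.1
      have := ω.2
      omega
    · have := hA.sz ω.1
      have := ω.2
      omega
  obtain ⟨g, hg⟩ := exists_g hcount
  have hgm := fun x (hx : x ∈ A) => conj_mem hA hB g hg hx
  rcases Int.units_eq_one_or (sign g) with h1 | h1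
  · exact ⟨g, h1, hgm⟩
  · -- correct the parity by a transposition within an orbit
    let z : Fin n := ⟨0, by omega⟩
    have hz : 2 ≤ Nat.card (orbit B z) := by
      rcases orbit_card_cases hB z with h | h <;> omega
    haveI : Finite (orbit B z) := inferInstance
    have hnt : Nontrivial (orbit B z) := Finite.one_lt_card_iff_nontrivial.1 (by omega)
    obtain ⟨⟨u, hu⟩, hu'⟩ := exists_ne (⟨z, mem_orbit_self z⟩ : orbit B z)
    have huz : z ≠ u := fun h => hu' (Subtype.ext h.symm)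
    let t : Perm (Fin n) := swap z u
    have htp : ∀ w, t w ∈ orbit B w := by
      intro w
      by_cases h1 : w = z
      · subst h1
        simp only [t, swap_apply_left]
        exact hu
      by_cases h2 : w = u
      · subst h2
        simp only [t, swap_apply_right]
        exact mem_orbit_symm.1 hu
      · simp only [t, swap_apply_of_ne_of_ne h1 h2]
        exact mem_orbit_self w
    have ht : ∀ w w', w' ∈ orbit B w ↔ t w' ∈ orbit B (t w) := by
      intro w w'
      rw [orbit_eq_iff.2 (htp w)]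
      exact orbit_pres htp w w'
    refine ⟨t * g, ?_, ?_⟩
    · rw [map_mul, h1, sign_swap huz]
      rfl
    · intro x hx
      have h2 := conj_mem hB hB t ht (hgm x hx)
      have h6 : t * g * x * (t * g)⁻¹ = t * (g * x * g⁻¹) * t⁻¹ := by group
      rw [h6]
      exact h2

end top

end Cfsg.Agent.Lib.Known3.AbPerm
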