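import Mathlib
import Cfsg.Agent.Lib.Known3.G23Tab

/-! The Chevalley group of type `G₂` over the field with three elements acts faithfully on its module of
dimension seven; centralisers of elements of order seven and thirteen. -/

set_option autoImplicit false
set_option maxRecDepth 100000
set_option linter.unusedVariables false

namespace Cfsg.Agent.Lib.Known3.G23

open Cfsg.Lie Matrix Cfsg.Agent.Lib.Chev

lemma P_add_left (u u' v : Fin 7 → R) : P (u + u') v = P u v + P u' v := by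
  funext k
  fin_cases k <;> simp [P] <;> ring

lemma P_smul_left (c : R) (u v : Fin 7 → R) : P (c • u) v = c • P u v := by
  funext k
  fin_cases k <;> simp [P] <;> ring

lemma P_add_right (u v v' : Fin 7 → R) : P u (v + v') = P u v + P u v' := by
  funext k
  fin_cases k <;> simp [P] <;> ring

lemma P_smul_right (c : R) (u v : Fin 7 → R) : P u (c • v) = c • P u v := by
  funext k
  fin_cases k <;> simp [P] <;> ring

/-- The product as a bilinear map. -/
noncomputable def Pl : (Fin 7 → R) →ₗ[R] (Fin 7 → R) →ₗ[R] (Fin 7 → R) :=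
  LinearMap.mk₂ R P P_add_left P_smul_left P_add_right P_smul_right

/-- Preservation of the product. -/
def Pres (Z : M7) : Prop := ∀ u v, Z *ᵥ P u v = P (Z *ᵥ u) (Z *ᵥ v)

lemma Pres_one : Pres 1 := by
  intro u v
  simp

lemma Pres_mul {Z Y : M7} (hZ : Pres Z) (hY : Pres Y) : Pres (Z * Y) := by
  intro u v
  rw [← Matrix.mulVec_mulVec, hY, hZ, Matrix.mulVec_mulVec, Matrix.mulVec_mulVec]

lemma Pres_of_basis {Z : M7}
    (h : ∀ a b, Z *ᵥ P (Pi.single a 1) (Pi.single b 1) = P (fun i => Z i a) (fun i => Z i b)) : Pres Z := by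
  have key : Pl.compr₂ Z.mulVecLin = Pl.compl₁₂ Z.mulVecLin Z.mulVecLin := by
    apply LinearMap.ext_basis (Pi.basisFun R (Fin 7)) (Pi.basisFun R (Fin 7))
    intro a b
    simp only [LinearMap.compr₂_apply, LinearMap.compl₁₂_apply, Pi.basisFun_apply, Matrix.mulVecLin_apply, Pl,
      LinearMap.mk₂_apply]
    rw [h a b, Matrix.mulVec_single_one, Matrix.mulVec_single_one]
    rfl
  intro u v
  have := LinearMap.congr_fun₂ key u v
  simpa only [LinearMap.compr₂_apply, LinearMap.compl₁₂_apply, Matrix.mulVecLin_apply, Pl, LinearMap.mk₂_apply] using this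

lemma rT_pres (r : Fin 12) : Pres (rT r) := by
  apply Pres_of_basis
  intro a b
  rw [← mv_eq]
  exact eqV_spec (rT_pres0 r a b)

/-- Preservation of the submodule. -/
def Inv (M : Matrix Idx Idx R) : Prop := ∀ k j, M (J' k) (J j) = 0

/-- The restriction to the submodule. -/
def rho (M : Matrix Idx Idx R) : M7 := M.submatrix J J

lemma rho_mul {M N : Matrix Idx Idx R} (hN : Inv N) : rho (M * N) = rho M * rho N := by
  ext k j
  simp only [rho, Matrix.submatrix_apply, Matrix.mul_apply]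
  symm
  apply Fintype.sum_of_injective J J_inj
  · intro i hi
    rcases J_cover i with ⟨k', rfl⟩ | ⟨k', rfl⟩
    · exact absurd ⟨k', rfl⟩ hi
    · rw [hN, mul_zero]
  · intro i
    rfl

lemma Inv_mul {M N : Matrix Idx Idx R} (hM : Inv M) (hN : Inv N) : Inv (M * N) := by
  intro k j
  rw [Matrix.mul_apply]
  apply Finset.sum_eq_zero
  intro l _
  rcases J_cover l with ⟨k', rfl⟩ | ⟨k', rfl⟩
  · rw [hM, zero_mul]
  · rw [hN, mul_zero]

lemma Inv_one : Inv 1 := by
  intro k j
  exact Matrix.one_apply_ne (J_ne k j)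

lemma rho_one : rho 1 = 1 := Matrix.submatrix_one _ J_inj

/-- The subgroup of `GL` preserving the submodule and the product on it. -/
def SS : Subgroup (GL Idx R) where
  carrier := {g | Inv g.val ∧ Pres (rho g.val)}
  mul_mem' := by
    rintro a b ⟨ha, ha'⟩ ⟨hb, hb'⟩
    refine ⟨Inv_mul ha hb, ?_⟩
    rw [Units.val_mul, rho_mul hb]
    exact Pres_mul ha' hb'
  one_mem' := ⟨Inv_one, by rw [Units.val_one, rho_one]; exact Pres_one⟩
  inv_mem' := by
    intro g hg
    have hp : ∀ n : ℕ, Inv (g ^ n).val ∧ Pres (rho (g ^ n).val) := by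
      intro n
      induction n with
      | zero => exact ⟨Inv_one, by rw [pow_zero, Units.val_one, rho_one]; exact Pres_one⟩
      | succ n ih =>
        rw [pow_succ, Units.val_mul]
        refine ⟨Inv_mul ih.1 hg.1, ?_⟩
        rw [rho_mul hg.1]
        exact Pres_mul ih.2 hg.2
    have h1 : g⁻¹ = g ^ (orderOf g - 1) := by
      apply inv_eq_of_mul_eq_one_right
      rw [← pow_succ', Nat.sub_add_cancel (orderOf_pos g), pow_orderOf_eq_one]
    rw [h1]
    exact hp _

lemma x_val (r : Fin chevG2.nroots) (t : R) : chevG2.x R r t = chevG2.xMat R r t := dif_pos r.2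

lemma rho_xx (r : Fin 12) : rho (xx r 1) = rT r := by
  ext k j
  exact xx_J r k j

lemma Inv_xx (r : Fin 12) : Inv (xx r 1) := xx_J' r

theorem group_le : chevG2.group R ≤ SS := by
  refine (Subgroup.closure_le _).2 ?_
  rintro g ⟨r, t, hg⟩
  have hcases : ∀ t : R, t = 0 ∨ t = 1 ∨ t = 2 := by decide
  rw [← x_val] at hg
  have h1 : Inv (chevG2.x R r 1) ∧ Pres (rho (chevG2.x R r 1)) := by
    rw [x_val]
    refine ⟨Inv_xx r, ?_⟩
    have := rho_xx r
    rw [show rho (chevG2.xMat R r 1) = rT r from this]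
    exact rT_pres r
  rcases hcases t with rfl | rfl | rfl
  · rw [x_zero] at hg
    have : g = 1 := Units.ext hg
    rw [this]
    exact SS.one_mem
  · show Inv g.val ∧ Pres (rho g.val)
    rw [hg]
    exact h1
  · show Inv g.val ∧ Pres (rho g.val)
    have h2 : chevG2.x R r 2 = chevG2.x R r 1 * chevG2.x R r 1 := by
      rw [goodG2.x_add r.2]
      rfl
    rw [hg, h2]
    refine ⟨Inv_mul h1.1 h1.1, ?_⟩
    rw [rho_mul h1.1]
    exact Pres_mul h1.2 h1.2

/-- The group. -/
abbrev G3 : Type := ↥(chevG2.group R)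

/-- The restriction homomorphism. -/
def rhoH : G3 →* M7 where
  toFun g := rho (g : GL Idx R).val
  map_one' := rho_one
  map_mul' a b := rho_mul (group_le b.2).1

lemma rhoH_apply (g : G3) : rhoH g = rho (g : GL Idx R).val := rfl

lemma rhoH_pres (g : G3) : Pres (rhoH g) := (group_le g.2).2

/-- The root elements as elements of the group. -/
noncomputable def gg (r : Fin 12) : G3 :=
  ⟨goodG2.xU (r := r) r.2 1, Subgroup.subset_closure ⟨r, 1, x_val r 1⟩⟩

lemma rhoH_gg (r : Fin 12) : rhoH (gg r) = rT r := by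
  rw [rhoH_apply]
  change rho (chevG2.x R r 1) = rT r
  rw [show chevG2.x R (r : ℕ) 1 = xx r 1 from x_val r 1]
  exact rho_xx r

instance : IsSimpleGroup G3 :=
  (good3G2.simple (F := R) (good2G2.perfect_of_H digG2_perfH (a := 2) (by decide) (by decide))).1

theorem rhoH_inj : Function.Injective rhoH := by
  have h1 : Function.Injective rhoH.toHomUnits := by
    rw [← MonoidHom.ker_eq_bot_iff]
    rcases IsSimpleGroup.eq_bot_or_eq_top_of_normal (H := rhoH.toHomUnits.ker) inferInstance with h | h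
    · exact h
    · exfalso
      have h2 : gg 0 ∈ rhoH.toHomUnits.ker := by
        rw [h]
        trivial
      rw [MonoidHom.mem_ker] at h2
      have h3 := congrArg Units.val h2
      rw [MonoidHom.coe_toHomUnits, rhoH_gg, Units.val_one] at h3
      revert h3
      decide +kernel
  intro a b hab
  apply h1
  apply Units.ext
  rw [MonoidHom.coe_toHomUnits, MonoidHom.coe_toHomUnits, hab]

lemma orderOf_rhoH (g : G3) : orderOf (rhoH g) = orderOf g := by
  have h1 : Function.Injective rhoH := rhoH_inj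
  rw [orderOf_injective rhoH h1]

lemma ext_cyc {A C Ci : M7} {v : Fin 7 → R} (hC : ∀ i : Fin 7, A ^ (i : ℕ) *ᵥ v = fun r => C r i) (hCC : C * Ci = 1) {Z Y : M7}
    (hZ : Z * A = A * Z) (hY : Y * A = A * Y) (h : Z *ᵥ v = Y *ᵥ v) : Z = Y := by
  have h1 : ∀ X : M7, X * A = A * X → ∀ i : ℕ, X * A ^ i = A ^ i * X := by
    intro X hX i
    have hc : Commute X A := hX
    exact (hc.pow_right i).eq
  have h2 : ∀ i : Fin 7, Z *ᵥ (A ^ (i : ℕ) *ᵥ v) = Y *ᵥ (A ^ (i : ℕ) *ᵥ v) := by
    intro i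
    rw [Matrix.mulVec_mulVec, Matrix.mulVec_mulVec, h1 Z hZ, h1 Y hY, ← Matrix.mulVec_mulVec, ← Matrix.mulVec_mulVec, h]
  have h3 : Z * C = Y * C := by
    ext r i
    have h4 := congrFun (h2 i) r
    rw [hC i] at h4
    exact h4
  calc Z = Z * (C * Ci) := by rw [hCC, mul_one]
    _ = Y * (C * Ci) := by rw [← mul_assoc, h3, mul_assoc]
    _ = Y := by rw [hCC, mul_one]

lemma vec7_eta (w : Fin 7 → R) : ![w 0, w 1, w 2, w 3, w 4, w 5, w 6] = w := by
  funext i
  fin_cases i <;> rfl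

lemma eqV_self (u : Fin 7 → R) : eqV u u = true := by
  simp [eqV]

/-- The centraliser lemma. -/
theorem cent_main {A M L C Ci : M7} {v : Fin 7 → R} {c : Fin 7 → R} {j : ℕ}
    (hM : M = A ^ j) (hL : L = ∑ i : Fin 7, c i • A ^ (i : ℕ)) (hv : P v (M *ᵥ v) = L *ᵥ v)
    (hC : ∀ i : Fin 7, A ^ (i : ℕ) *ᵥ v = fun r => C r i) (hCC : C * Ci = 1)
    (hchk : ∀ w : Fin 7 → R, L *ᵥ w = P w (M *ᵥ w) → w = 0 ∨ ∃ i : ℕ, w = A ^ i *ᵥ v)
    {Z : M7} (hZA : Z * A = A * Z) (hP : Pres Z) (hZ0 : Z ≠ 0) : ∃ i : ℕ, Z = A ^ i := by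
  have hcA : Commute Z A := hZA
  have hcM : Z * M = M * Z := by
    rw [hM]
    exact (hcA.pow_right j).eq
  have hcL : Z * L = L * Z := by
    rw [hL, Finset.mul_sum, Finset.sum_mul]
    refine Finset.sum_congr rfl fun i _ => ?_
    rw [mul_smul_comm, smul_mul_assoc]
    congr 1
    exact (hcA.pow_right _).eq
  set w := Z *ᵥ v with hw
  have h1 : L *ᵥ w = P w (M *ᵥ w) := by
    have h2 := hP v (M *ᵥ v)
    have e1 : Z *ᵥ (L *ᵥ v) = L *ᵥ w := by
      rw [Matrix.mulVec_mulVec, hcL, ← Matrix.mulVec_mulVec]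
    have e2 : Z *ᵥ (M *ᵥ v) = M *ᵥ w := by
      rw [Matrix.mulVec_mulVec, hcM, ← Matrix.mulVec_mulVec]
    rw [hv, e1, e2] at h2
    exact h2
  rcases hchk w h1 with h0 | ⟨i, hi⟩
  · exfalso
    apply hZ0
    apply ext_cyc hC hCC hZA (by rw [zero_mul, mul_zero])
    rw [Matrix.zero_mulVec]
    exact h0
  · refine ⟨i, ext_cyc hC hCC hZA ((Commute.pow_left (Commute.refl A) i).eq) hi⟩

lemma rhoH_ne_zero (g : G3) : rhoH g ≠ 0 := by
  intro h
  have h1 : rhoH g⁻¹ * rhoH g = 1 := by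
    rw [← map_mul, inv_mul_cancel, map_one]
  rw [h, mul_zero] at h1
  have h2 := congrFun (congrFun h1 0) 0
  revert h2
  decide

/-- Elements of the group. -/
noncomputable def a₀ : G3 := gg 0 * gg 1 * gg 3 * gg 11

/-- Elements of the group. -/
noncomputable def b₀ : G3 := gg 0 * gg 4 * gg 9

/-- Elements of the group. -/
noncomputable def e₀ : G3 := gg 0 * gg 0 * gg 11

lemma rhoH_a₀ : rhoH a₀ = aM := by
  rw [eqM_spec aM_eq, a₀, map_mul, map_mul, map_mul, rhoH_gg, rhoH_gg, rhoH_gg, rhoH_gg]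

lemma rhoH_b₀ : rhoH b₀ = bM := by
  rw [eqM_spec bM_eq, b₀, map_mul, map_mul, rhoH_gg, rhoH_gg, rhoH_gg]

lemma rhoH_e₀ : rhoH e₀ = eM := by
  rw [eqM_spec eM_eq, e₀, map_mul, map_mul, rhoH_gg, rhoH_gg]

theorem order_a₀ : orderOf a₀ = 7 := by
  rw [← orderOf_rhoH, rhoH_a₀]
  haveI : Fact (Nat.Prime 7) := ⟨by norm_num⟩
  exact orderOf_eq_prime (eqM_spec apow) (eqM_ne ane)

theorem order_b₀ : orderOf b₀ = 13 := by
  rw [← orderOf_rhoH, rhoH_b₀]
  haveI : Fact (Nat.Prime 13) := ⟨by norm_num⟩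
  exact orderOf_eq_prime (eqM_spec bpow) (eqM_ne bne)

theorem order_e₀ : orderOf e₀ = 6 := by
  rw [← orderOf_rhoH, rhoH_e₀]
  apply orderOf_eq_of_pow_and_pow_div_prime (by norm_num) (eqM_spec eM_six)
  intro p hp hd
  have h6 : p ∣ 2 * 3 := hd
  rcases (Nat.Prime.dvd_mul hp).1 h6 with h | h
  · rw [(Nat.prime_dvd_prime_iff_eq hp Nat.prime_two).1 h]
    exact eqM_ne eM_three
  · rw [(Nat.prime_dvd_prime_iff_eq hp Nat.prime_three).1 h]
    exact eqM_ne eM_two

theorem cent_a₀ (z : G3) (hz : z * a₀ = a₀ * z) : ∃ i : ℕ, z = a₀ ^ i := by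
  have hZA : rhoH z * aM = aM * rhoH z := by
    rw [← rhoH_a₀, ← map_mul, ← map_mul, hz]
  obtain ⟨i, hi⟩ := cent_main (M := aP) (L := aL) (Ci := aCi) (v := av) (c := ac) (j := 3)
    (eqM_spec aP_eq) (eqM_spec aL_eq) (by
      have := eqV_spec av_eq
      exact this) (fun i => eqV_spec (aC_eq i)) (eqM_spec aCC) (by
      intro w hw
      have h1 := achk_all (w 0) (w 1) (w 2) (w 3) (w 4) (w 5) (w 6)
      rw [vec7_eta] at h1
      have h2 : eqV (mv aL w) (P w (mv aP w)) = true := by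
        rw [mv_eq, mv_eq, hw]
        exact eqV_self _
      simp only [achk, h2, Bool.not_true, Bool.false_or, Bool.or_eq_true, List.any_eq_true] at h1
      rcases h1 with h1 | ⟨i, -, h1⟩
      · exact Or.inl (eqV_spec h1)
      · refine Or.inr ⟨i, ?_⟩
        rw [eqV_spec h1]
        exact (eqV_spec (aW_eq i)).symm) hZA (rhoH_pres z) (rhoH_ne_zero z)
  refine ⟨i, rhoH_inj ?_⟩
  rw [map_pow, rhoH_a₀]
  exact hi

theorem cent_b₀ (z : G3) (hz : z * b₀ = b₀ * z) : ∃ i : ℕ, z = b₀ ^ i := by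
  have hZA : rhoH z * bM = bM * rhoH z := by
    rw [← rhoH_b₀, ← map_mul, ← map_mul, hz]
  obtain ⟨i, hi⟩ := cent_main (M := bP) (L := bL) (Ci := bCi) (v := bv) (c := bc) (j := 1)
    (eqM_spec bP_eq) (eqM_spec bL_eq) (by
      have := eqV_spec bv_eq
      exact this) (fun i => eqV_spec (bC_eq i)) (eqM_spec bCC) (by
      intro w hw
      have h1 := bchk_all (w 0) (w 1) (w 2) (w 3) (w 4) (w 5) (w 6)
      rw [vec7_eta] at h1
      have h2 : eqV (mv bL w) (P w (mv bP w)) = true := by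
        rw [mv_eq, mv_eq, hw]
        exact eqV_self _
      simp only [bchk, h2, Bool.not_true, Bool.false_or, Bool.or_eq_true, List.any_eq_true] at h1
      rcases h1 with h1 | ⟨i, -, h1⟩
      · exact Or.inl (eqV_spec h1)
      · refine Or.inr ⟨i, ?_⟩
        rw [eqV_spec h1]
        exact (eqV_spec (bW_eq i)).symm) hZA (rhoH_pres z) (rhoH_ne_zero z)
  refine ⟨i, rhoH_inj ?_⟩
  rw [map_pow, rhoH_b₀]
  exact hi

end Cfsg.Agent.Lib.Known3.G23
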