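import Mathlib
import Cfsg.Agent.Lib.Known3.G23

/-! Orders of elements of `G₂(3)`. -/

set_option autoImplicit false
set_option maxRecDepth 100000
set_option linter.unusedVariables false

namespace Cfsg.Agent.Lib.Known3.G23

open Cfsg.Lie Matrix Cfsg.Agent.Lib.Chev
open scoped Pointwise

theorem smithG2' : digG2.tbl.chkSmith
    (decMat [0x807f, 0x8182])
    (decMat [0x807f, 0x8182])
    (decMat [0x8180, 0x8281])
    (decMat [0x817e, 0x8081])
    (fun _ => 1) = true := by decide +kernel

section

variable {F : Type*} [Field F]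

theorem cardChainG2' [Finite F] {q c : ℕ} (hq : Nat.card F = q) (hc : Nat.card (chevG2.diagonalSubgroup F) = c) :
    Nat.card (chevG2.group F) = (orbG20.map fun e => q ^ e.2).sum * ((orbG21.map fun e => q ^ e.2).sum * (q ^ 6 * c)) := by
  have h0 := good3G2.card_parabolic_step (F := F) chkOrbG20
  have h1 := good3G2.card_parabolic_step (F := F) chkOrbG21
  rw [good3G2.parabolic_all (J := maskSet 3) (by
    intro j hj
    have hj' : j < 2 := hj
    interval_cases j <;> rfl)] at h0
  rw [Tbl.Good3.parabolic_zero] at h1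
  have hB := good3G2.card_B (F := F)
  rw [show chevG2.nroots / 2 = 6 from rfl] at hB
  subst hq
  subst hc
  rw [h0, h1, hB]

theorem polyIdG2' {q : ℕ} (hq1 : 1 ≤ q) :
    (1 + q ^ 1 + q ^ 2 + q ^ 3 + q ^ 4 + q ^ 5) * ((1 + q ^ 1) * (q ^ 6 * (q - 1) ^ 2)) = q ^ 6 * (q ^ 2 - 1) * (q ^ 6 - 1) := by
  have key : (((1 + q ^ 1 + q ^ 2 + q ^ 3 + q ^ 4 + q ^ 5) * ((1 + q ^ 1) * (q ^ 6 * (q - 1) ^ 2)) : ℕ) : ℤ) = ((q ^ 6 * (q ^ 2 - 1) * (q ^ 6 - 1) : ℕ) : ℤ) := by
    push_cast [cast_pow_sub_one hq1, Nat.cast_sub hq1]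
    ring
  exact_mod_cast key

theorem orderG2' [Fintype F] {q : ℕ} (hq : Fintype.card F = q) :
    Nat.card ↥(chevG2.group F) = q ^ 6 * (q ^ 2 - 1) * (q ^ 6 - 1) := by
  have hq' : Nat.card F = q := by rw [Nat.card_eq_fintype_card, hq]
  have hq1 : 1 ≤ q := by
    have := Fintype.one_lt_card (α := F)
    omega
  have hH : Nat.card (chevG2.diagonalSubgroup F) = (q - 1) ^ 2 := by
    have h := good2G2.card_H (F := F) smithG2'
    rw [hq'] at h
    have h2 : 1 * Nat.card (chevG2.diagonalSubgroup F) = (q - 1) ^ chevG2.rank := by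
      convert h using 2
      rw [show chevG2.rank = 2 from rfl]
      simp [Finset.prod_range_succ]
    rw [one_mul] at h2
    exact h2
  have h := cardChainG2' (F := F) hq' hH
  rw [sumG20, sumG21] at h
  rw [h]
  exact polyIdG2' hq1

end

/-- Sylow argument: if `a` has prime order `p`, its own centraliser is generated by it, and `p` divides the order of
the group only once, then every element of order divisible by `p` has order `p`. -/
theorem order_of_cent {G : Type*} [Group G] [Finite G] {p m : ℕ} [hp : Fact p.Prime] (hcard : Nat.card G = p * m) (hpm : ¬ p ∣ m)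
    {a : G} (ha : orderOf a = p) (hcent : ∀ z : G, z * a = a * z → ∃ i : ℕ, z = a ^ i) {x : G} (hx : p ∣ orderOf x) :
    orderOf x = p := by
  have hx0 : orderOf x ≠ 0 := (orderOf_pos x).ne'
  set y := x ^ (orderOf x / p) with hy
  have hyo : orderOf y = p := orderOf_pow_orderOf_div hx0 hx
  have hfac : (Nat.card G).factorization p = 1 := by
    have hm0 : m ≠ 0 := by
      rintro rfl
      exact hpm (dvd_zero p)
    rw [hcard, Nat.factorization_mul hp.out.ne_zero hm0, Finsupp.add_apply, Nat.factorization_eq_zero_of_not_dvd hpm,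
      hp.out.factorization_self]
  have hP : Nat.card (Subgroup.zpowers a) = p ^ (Nat.card G).factorization p := by
    rw [hfac, pow_one, Nat.card_zpowers, ha]
  have hQ : Nat.card (Subgroup.zpowers y) = p ^ (Nat.card G).factorization p := by
    rw [hfac, pow_one, Nat.card_zpowers, hyo]
  let P' : Sylow p G := Sylow.ofCard _ hP
  let Q' : Sylow p G := Sylow.ofCard _ hQ
  obtain ⟨g, hg⟩ := MulAction.exists_smul_eq G Q' P'
  -- conjugating
  have hc : MulAut.conj g • (Q' : Subgroup G) = P' := by
    rw [← hg]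
    rfl
  have hyg : g * y * g⁻¹ ∈ Subgroup.zpowers a := by
    have h1 : MulAut.conj g • y ∈ MulAut.conj g • (Subgroup.zpowers y) :=
      Subgroup.smul_mem_pointwise_smul _ _ _ (Subgroup.mem_zpowers y)
    have h2 : (MulAut.conj g • Subgroup.zpowers y) = Subgroup.zpowers a := hc
    rw [h2] at h1
    exact h1
  set y' := g * y * g⁻¹ with hy'
  have hy'o : orderOf y' = p := by
    rw [hy', ← hyo, ← MulAut.conj_apply]
    exact MulEquiv.orderOf_eq _ _
  have hzp : Subgroup.zpowers y' = Subgroup.zpowers a := by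
    apply Subgroup.eq_of_le_of_card_ge
    · rw [Subgroup.zpowers_le]
      exact hyg
    · rw [Nat.card_zpowers, Nat.card_zpowers, ha, hy'o]
  have ha' : a ∈ Subgroup.zpowers y' := by
    rw [hzp]
    exact Subgroup.mem_zpowers a
  obtain ⟨l, hl⟩ := ha'
  set x' := g * x * g⁻¹ with hx'
  have hxy : Commute x' y' := by
    have h1 : y' = x' ^ (orderOf x / p) := by
      rw [hy', hy, hx', conj_pow]
    rw [h1]
    exact (Commute.refl x').pow_right _
  have hxa : Commute x' a := by
    rw [← hl]
    exact hxy.zpow_right l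
  obtain ⟨i, hi⟩ := hcent x' hxa.eq
  have hoo : orderOf x' = orderOf x := by
    rw [hx', ← MulAut.conj_apply]
    exact MulEquiv.orderOf_eq _ _
  apply Nat.dvd_antisymm _ hx
  rw [← hoo, hi]
  apply orderOf_dvd_of_pow_eq_one
  rw [← pow_mul, mul_comm, pow_mul, ← ha, pow_orderOf_eq_one, one_pow]

theorem card_G3 : Nat.card G3 = 4245696 := by
  have h := orderG2' (F := R) (q := 3) (ZMod.card 3)
  rw [h]
  norm_num

theorem G3_seven {x : G3} (h : 7 ∣ orderOf x) : orderOf x = 7 := by
  haveI : Fact (Nat.Prime 7) := ⟨by norm_num⟩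
  exact order_of_cent (m := 606528) (by rw [card_G3]) (by norm_num) order_a₀ cent_a₀ h

theorem G3_thirteen {x : G3} (h : 13 ∣ orderOf x) : orderOf x = 13 := by
  haveI : Fact (Nat.Prime 13) := ⟨by norm_num⟩
  exact order_of_cent (m := 326592) (by rw [card_G3]) (by norm_num) order_b₀ cent_b₀ h

section transfer

variable {F : Type*} [Field F]

lemma xMat_map' (f : R →+* F) (r : Fin chevG2.nroots) (t : R) :
    (chevG2.xMat R r t).map f = chevG2.xMat F r (f t) := by
  ext row col
  rcases col with i | s <;> rcases row with i' | u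
  · simp only [Matrix.map_apply, ChevalleyDatum.xMat, Matrix.of_apply]
    split_ifs <;> simp
  · simp only [Matrix.map_apply, ChevalleyDatum.xMat, Matrix.of_apply]
    split_ifs <;> simp
  · simp only [Matrix.map_apply, ChevalleyDatum.xMat, Matrix.of_apply]
    split_ifs <;> simp
  · simp only [Matrix.map_apply, ChevalleyDatum.xMat, Matrix.of_apply]
    split_ifs <;> simp [map_list_sum, List.map_map, Function.comp_def]

/-- Transfer along a field isomorphism. -/
noncomputable def glE (φ : R ≃+* F) : GL Idx R ≃* GL chevG2.Idx F :=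
  Units.mapEquiv (φ.mapMatrix (m := Idx)).toMulEquiv

lemma glE_coe (φ : R ≃+* F) (g : GL Idx R) :
    ((glE φ g : GL chevG2.Idx F) : Matrix chevG2.Idx chevG2.Idx F) = (g : Matrix Idx Idx R).map φ := rfl

theorem group_map_eq (φ : R ≃+* F) : (chevG2.group R).map (glE φ).toMonoidHom = chevG2.group F := by
  apply le_antisymm
  · rw [Subgroup.map_le_iff_le_comap]
    refine (Subgroup.closure_le _).2 ?_
    rintro g ⟨r, t, hg⟩
    refine Subgroup.subset_closure ⟨r, φ t, ?_⟩
    show ((glE φ g : GL chevG2.Idx F) : Matrix chevG2.Idx chevG2.Idx F) = _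
    rw [glE_coe, hg]
    exact xMat_map' φ.toRingHom r t
  · refine (Subgroup.closure_le _).2 ?_
    rintro g ⟨r, t, hg⟩
    have ht : φ (φ.symm t) = t := φ.apply_symm_apply t
    let g₀ : GL Idx R := goodG2.xU (F := R) (r := r) r.2 (φ.symm t)
    have hg₀ : (g₀ : Matrix Idx Idx R) = chevG2.xMat R r (φ.symm t) := x_val r _
    refine ⟨g₀, Subgroup.subset_closure ⟨r, _, hg₀⟩, ?_⟩
    apply Units.ext
    show ((glE φ g₀ : GL chevG2.Idx F) : Matrix chevG2.Idx chevG2.Idx F) = _
    rw [glE_coe, hg₀, hg]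
    have := xMat_map' φ.toRingHom r (φ.symm t)
    rw [show φ.toRingHom (φ.symm t) = t from ht] at this
    exact this

/-- `G₂` over a field with three elements. -/
theorem exists_iso [Fintype F] (hF : Fintype.card F = 3) : Nonempty (↥(chevG2.group F) ≃* G3) := by
  let φ : R ≃+* F := ZMod.ringEquivOfPrime F Nat.prime_three hF
  have e1 : G3 ≃* ↥((chevG2.group R).map (glE φ).toMonoidHom) := (glE φ).subgroupMap _
  have e2 : ↥((chevG2.group R).map (glE φ).toMonoidHom) ≃* ↥(chevG2.group F) := MulEquiv.subgroupCongr (group_map_eq φ)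
  exact ⟨(e1.trans e2).symm⟩

end transfer

end Cfsg.Agent.Lib.Known3.G23
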