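import Mathlib
import Cfsg.Agent.Lib.Char.Burnside
import Cfsg.Agent.Lib.Core.Solvable
import Cfsg.Agent.Lib.Core.Basic

/-! Subgroups of `GL₄(2)`: groups without solvable normal subgroups. -/

set_option autoImplicit false

namespace Cfsg.Agent.Lib.Known3.GL42

open Cfsg Cfsg.Agent.Lib.Core

/-- No nontrivial solvable normal subgroup. -/
def NS (G : Type*) [Group G] : Prop := ∀ N : Subgroup G, N.Normal → Group.IsSolvable N → N = ⊥

theorem ns_of_cores {G : Type*} [Group G] [Finite G] (h2 : pCore 2 G = ⊥) (h' : pPrimeCore 2 G = ⊥) : NS G := by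
  intro N hN hs
  by_contra hne
  haveI := hs
  haveI : Nontrivial N := (Subgroup.nontrivial_iff_ne_bot N).2 hne
  obtain ⟨q, hq, hcore⟩ := exists_prime_pCore_ne_bot (G := N)
  haveI : Fact q.Prime := ⟨hq⟩
  set K : Subgroup G := (pCore q N).map N.subtype with hK
  have hKn : K.Normal := ConjAct.normal_of_characteristic_of_normal
  have hp : IsPGroup q K := (pCore_isPGroup q N).map N.subtype
  have hbot : K = ⊥ := by
    by_cases hq2 : q = 2
    · subst hq2
      have := le_pCore hKn hp
      rw [h2, le_bot_iff] at this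
      exact this
    · have hc : (Nat.card K).Coprime 2 := by
        obtain ⟨k, hk⟩ := hp.exists_card_eq
        rw [hk]
        exact Nat.Coprime.pow_left _ ((Nat.coprime_primes hq Nat.prime_two).2 hq2)
      have := le_pPrimeCore hKn hc
      rw [h', le_bot_iff] at this
      exact this
  rw [hK, Subgroup.map_eq_bot_iff_of_injective _ N.subtype_injective] at hbot
  exact hcore hbot

theorem NS.of_equiv {G G' : Type*} [Group G] [Group G'] (e : G ≃* G') (h : NS G) : NS G' := by
  intro N hN hs
  have h1 : (N.comap e.toMonoidHom).Normal := hN.comap _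
  have h2 : Group.IsSolvable (N.comap e.toMonoidHom) := by
    haveI := hs
    let f : (N.comap e.toMonoidHom) →* N :=
      (e.toMonoidHom.comp (N.comap e.toMonoidHom).subtype).codRestrict N (fun x => x.2)
    apply Group.isSolvable_of_isSolvable_injective (f := f)
    intro x y hxy
    apply Subtype.ext
    apply e.injective
    exact congrArg Subtype.val hxy
  have h3 := h _ h1 h2
  rw [eq_bot_iff]
  intro x hx
  have : e.symm x ∈ N.comap e.toMonoidHom := by
    simpa using hx
  rw [h3, Subgroup.mem_bot] at this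
  rw [Subgroup.mem_bot]
  simpa using this

theorem NS.not_solvable {G : Type*} [Group G] [Nontrivial G] (h : NS G) : ¬ Group.IsSolvable G := by
  intro hs
  have h1 : Group.IsSolvable (⊤ : Subgroup G) := Group.isSolvable_of_isSolvable_injective (f := (⊤ : Subgroup G).subtype)
    (Subgroup.subtype_injective _)
  have := h ⊤ inferInstance h1
  exact top_ne_bot this

lemma sqf_aux (n : ℕ) (hn : 0 < n) (hn2 : n ≤ 210) (h : ∀ p, p ≤ 14 → 2 ≤ p → ¬ p * p ∣ n) : Squarefree n := by
  rw [Nat.squarefree_iff_prime_squarefree]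
  intro p hp hd
  have h1 := Nat.le_of_dvd hn hd
  have h2 : p ≤ 14 := by nlinarith
  exact h p h2 hp.two_le hd

lemma sqf30 : Squarefree 30 := sqf_aux 30 (by norm_num) (by norm_num) (by decide)

lemma sqf210 : Squarefree 210 := sqf_aux 210 (by norm_num) (by norm_num) (by decide)

/-- Small orders. -/
theorem solv_of_card {K : Type*} [Group K] [Finite K] (h : Nat.card K ∣ 120) (hlt : Nat.card K < 60) : Group.IsSolvable K := by
  have h2 : ∀ a b, Nat.card K = 2 ^ a * 3 ^ b → Group.IsSolvable K := fun a b hc =>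
    Cfsg.Agent.Lib.Char.isSolvable_of_card 2 3 a b Nat.prime_two Nat.prime_three hc
  have h5 : ∀ a b, Nat.card K = 2 ^ a * 5 ^ b → Group.IsSolvable K := fun a b hc =>
    Cfsg.Agent.Lib.Char.isSolvable_of_card 2 5 a b Nat.prime_two Nat.prime_five hc
  have h35 : ∀ a b, Nat.card K = 3 ^ a * 5 ^ b → Group.IsSolvable K := fun a b hc =>
    Cfsg.Agent.Lib.Char.isSolvable_of_card 3 5 a b Nat.prime_three Nat.prime_five hc
  have hpos : 0 < Nat.card K := Nat.card_pos
  generalize hn : Nat.card K = n at *
  have hcases : n = 1 ∨ n = 2 ∨ n = 3 ∨ n = 4 ∨ n = 5 ∨ n = 6 ∨ n = 8 ∨ n = 10 ∨ n = 12 ∨ n = 15 ∨ n = 20 ∨ n = 24 ∨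
      n = 30 ∨ n = 40 := by
    interval_cases n <;> omega
  rcases hcases with rfl | rfl | rfl | rfl | rfl | rfl | rfl | rfl | rfl | rfl | rfl | rfl | rfl | rfl
  · exact h2 0 0 (by norm_num)
  · exact h2 1 0 (by norm_num)
  · exact h2 0 1 (by norm_num)
  · exact h2 2 0 (by norm_num)
  · exact h5 0 1 (by norm_num)
  · exact h2 1 1 (by norm_num)
  · exact h2 3 0 (by norm_num)
  · exact h5 1 1 (by norm_num)
  · exact h2 2 1 (by norm_num)
  · exact h35 1 1 (by norm_num)
  · exact h5 2 1 (by norm_num)
  · exact h2 3 1 (by norm_num)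
  · haveI : IsZGroup K := IsZGroup.of_squarefree (by rw [hn]; exact sqf30)
    infer_instance
  · exact h5 3 1 (by norm_num)

/-- Subgroups of a simple group. -/
theorem card_dvd_factorial_index {A : Type*} [Group A] [Finite A] [IsSimpleGroup A] (M : Subgroup A) (hM : M ≠ ⊤) :
    Nat.card A ∣ M.index.factorial := by
  classical
  have hcore : M.normalCore = ⊥ := by
    rcases (inferInstance : M.normalCore.Normal).eq_bot_or_eq_top with h | h
    · exact h
    · exfalso
      apply hM
      rw [eq_top_iff, ← h]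
      exact Subgroup.normalCore_le M
  have hker : (MulAction.toPermHom A (A ⧸ M)).ker = ⊥ := by
    rw [← Subgroup.normalCore_eq_ker, hcore]
  have hinj : Function.Injective (MulAction.toPermHom A (A ⧸ M)) := (MonoidHom.ker_eq_bot_iff _).1 hker
  have h := Subgroup.card_dvd_of_injective _ hinj
  rw [Nat.card_perm] at h
  exact h

end Cfsg.Agent.Lib.Known3.GL42
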