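import Mathlib
import Cfsg.Agent.Lib.Known3.GL42a
import Cfsg.Agent.Lib.Perm.Jordan
import Cfsg.Agent.S0494
import Cfsg.Agent.Lib.KS2.AltSyl

/-! Primitive permutation groups of degree at most `8` with an element of order `5`. -/

set_option autoImplicit false
set_option linter.unusedSectionVars false

namespace Cfsg.Agent.Lib.Known3.GL42

open Equiv MulAction

open scoped Pointwise

variable {α : Type*} [Fintype α] [DecidableEq α] (G : Subgroup (Perm α))

/-- Primitivity from an element of order `5` in degree at most `8`. -/
theorem prim_five [IsPretransitive G α] {c : Perm α} (hc : c.IsCycle) (hs : c.support.card = 5) (hcG : c ∈ G)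
    (hα : Fintype.card α ≤ 8) : IsPreprimitive G α := by
  classical
  have hord : orderOf c = 5 := hc.orderOf.trans hs
  have hc' := hc
  obtain ⟨a, ha, hcyc⟩ := hc'
  let g : G := ⟨c, hcG⟩
  have hg5 : g ^ 5 = 1 := by
    apply Subtype.ext
    show c ^ 5 = 1
    rw [← hord, pow_orderOf_eq_one]
  refine IsPreprimitive.of_isTrivialBlock_base a ?_
  intro B haB hB
  by_cases h1 : g • B = B
  · right
    have hzp : ∀ i : ℤ, (g ^ i) • B = B := by
      intro i
      have : g ∈ stabilizer G B := h1
      exact (stabilizer G B).zpow_mem this i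
    have hsub : (c.support : Set α) ⊆ B := by
      intro y hy
      have hy' : c y ≠ y := by simpa using hy
      obtain ⟨i, hi⟩ := hcyc hy'
      have h2 : (g ^ i) • a ∈ (g ^ i) • B := Set.smul_mem_smul_set haB
      rw [hzp] at h2
      have h3 : (g ^ i) • a = y := by
        rw [← hi]
        rfl
      rwa [h3] at h2
    have hB5 : 5 ≤ B.ncard := by
      rw [← hs, ← Set.ncard_coe_finset]
      exact Set.ncard_le_ncard hsub (Set.toFinite _)
    have hd := hB.ncard_dvd_card ⟨a, haB⟩
    rw [Nat.card_eq_fintype_card] at hd
    have heq : B.ncard = Fintype.card α := by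
      obtain ⟨k, hk⟩ := hd
      have hk0 : k ≠ 0 := by
        rintro rfl
        have : 0 < Fintype.card α := Fintype.card_pos_iff.2 ⟨a⟩
        omega
      have hk1 : k = 1 := by
        by_contra hne
        have : 2 ≤ k := by omega
        nlinarith
      rw [hk, hk1, mul_one]
    exact Set.eq_of_subset_of_ncard_le (Set.subset_univ B) (by rw [Set.ncard_univ, Nat.card_eq_fintype_card, heq])
  · left
    have hdis : ∀ k : ℕ, 0 < k → k < 5 → ∀ b ∈ B, ∀ b' ∈ B, (c ^ k) b' ≠ b := by
      intro k hk0 hk5 b hb b' hb' e
      have h2 : (g ^ k) • B = B := by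
        rcases hB.smul_eq_or_disjoint (g ^ k) with h | h
        · exact h
        · exfalso
          have h3 : b ∈ (g ^ k) • B := by
            rw [← e]
            exact ⟨b', hb', rfl⟩
          exact Set.disjoint_left.1 h h3 hb
      have h4 : ∃ m : ℕ, (g ^ k) ^ m = g := by
        have h6 : g ^ 6 = g := by rw [pow_succ, hg5, one_mul]
        have h16 : g ^ 16 = g := by
          rw [show 16 = 5 * 3 + 1 by norm_num, pow_succ, pow_mul, hg5, one_pow, one_mul]
        interval_cases k
        · exact ⟨1, by simp⟩
        · exact ⟨3, by rw [← pow_mul]; exact h6⟩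
        · exact ⟨2, by rw [← pow_mul]; exact h6⟩
        · exact ⟨4, by rw [← pow_mul]; exact h16⟩
      obtain ⟨m, hm⟩ := h4
      apply h1
      rw [← hm]
      have : g ^ k ∈ stabilizer G B := h2
      exact (stabilizer G B).pow_mem this m
    let f : Fin 5 × B → α := fun p => (c ^ (p.1 : ℕ)) (p.2 : α)
    have hfi : Function.Injective f := by
      rintro ⟨i, b⟩ ⟨j, b'⟩ e
      have e' : (c ^ (i : ℕ)) (b : α) = (c ^ (j : ℕ)) (b' : α) := e
      rcases lt_trichotomy (i : ℕ) (j : ℕ) with hij | hij | hij
      · exfalso
        have h3 : (c ^ ((j : ℕ) - i)) (b' : α) = b := by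
          apply (c ^ (i : ℕ)).injective
          rw [e', ← Perm.mul_apply, ← pow_add]
          congr 2
          omega
        exact hdis _ (by omega) (by omega) _ b.2 _ b'.2 h3
      · have h2 : i = j := Fin.ext hij
        subst h2
        have := (c ^ (i : ℕ)).injective e'
        rw [Subtype.ext this]
      · exfalso
        have h3 : (c ^ ((i : ℕ) - j)) (b : α) = b' := by
          apply (c ^ (j : ℕ)).injective
          rw [← e', ← Perm.mul_apply, ← pow_add]
          congr 2
          omega
        exact hdis _ (by omega) (by omega) _ b'.2 _ b.2 h3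
    have hcard := Fintype.card_le_of_injective f hfi
    rw [Fintype.card_prod, Fintype.card_fin] at hcard
    have h1B : Fintype.card B ≤ 1 := by omega
    have := Fintype.card_le_one_iff_subsingleton.1 h1B
    exact (Set.subsingleton_coe B).1 this

/-- Multiple transitivity. -/
theorem mult_trans (hG : IsPreprimitive G α) {g : Perm α} (hgc : g.IsCycle) (hgp : g.support.card = 5) (hg : g ∈ G)
    (n : ℕ) (hn : Fintype.card α = 5 + (n + 1)) : IsMultiplyPretransitive G α (n + 2) := by
  classical
  set T := g.support with hTdef
  have hcardT : (Tᶜ).card = n + 1 := by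
    rw [Finset.card_compl, hgp, hn]; omega
  have hprim := hG.isMultiplyPreprimitive (s := ((T : Set α)ᶜ)) (n := n)
    (by
      rw [← Finset.coe_compl, Set.ncard_coe_finset, hcardT])
    (by
      rw [Nat.card_eq_fintype_card, hn]
      omega)
    (by
      have := Equiv.Perm.isPretransitive_of_isCycle_mem hgc hg
      apply IsPreprimitive.of_prime_card
      convert Nat.prime_five
      rw [Nat.card_eq_fintype_card, Fintype.card_subtype, ← hgp]
      apply congr_arg
      ext x
      simp [SubMulAction.mem_ofFixingSubgroup_iff, hTdef])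
  exact hprim.isMultiplyPretransitive

/-- The size of pointwise stabilizers. -/
theorem card_fix (k : ℕ) (hk : IsMultiplyPretransitive G α k) (s : Set α) (hs : s.ncard = k) :
    Nat.card (fixingSubgroup G s) * (Nat.choose (Fintype.card α) k * k.factorial) = Nat.card G := by
  subst hs
  have h := IsMultiplyPretransitive.index_of_fixingSubgroup_eq (G := G) s hk
  rw [Nat.card_eq_fintype_card] at h
  rw [← h, Subgroup.card_mul_index]

theorem exists_set (k : ℕ) (hk : k ≤ Fintype.card α) : ∃ s : Set α, s.ncard = k := by
  obtain ⟨t, -, ht⟩ := Finset.exists_subset_card_eq (s := (Finset.univ : Finset α)) (n := k) (by simpa using hk)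
  exact ⟨t, by rw [Set.ncard_coe_finset, ht]⟩

/-- Degree `5`. -/
theorem deg5 (hα : Fintype.card α = 5) (hns : ¬ Group.IsSolvable G) : G = ⊤ ∨ G = alternatingGroup α := by
  classical
  have hP : Nat.card (Perm α) = 120 := by
    rw [Nat.card_perm, Nat.card_eq_fintype_card, hα]
    rfl
  have hd : Nat.card G ∣ 120 := by
    rw [← hP]
    exact Subgroup.card_subgroup_dvd_card G
  have hge : 60 ≤ Nat.card G := by
    by_contra hlt
    exact hns (solv_of_card hd (by omega))
  have hle := Nat.le_of_dvd (by norm_num) hd
  have hidx := G.card_mul_index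
  rw [hP] at hidx
  have hcases : Nat.card G = 60 ∨ Nat.card G = 120 := by
    obtain ⟨k, hk⟩ := hd
    have hk1 : k = 1 ∨ k = 2 := by
      have hk0 : k ≠ 0 := by rintro rfl; omega
      have : k ≤ 2 := by
        by_contra hc
        have : 3 ≤ k := by omega
        nlinarith
      omega
    rcases hk1 with rfl | rfl <;> omega
  rcases hcases with h | h
  · right
    apply Equiv.Perm.eq_alternatingGroup_of_index_eq_two
    rw [h] at hidx
    omega
  · left
    apply Subgroup.eq_top_of_card_eq
    rw [h, hP]

/-- Degree `8`. -/
theorem deg8 (hα : Fintype.card α = 8) (hG : IsPreprimitive G α) {c : Perm α} (hc : c.IsCycle) (hs : c.support.card = 5)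
    (hcG : c ∈ G) (hA : G ≤ alternatingGroup α) : G = alternatingGroup α :=
  le_antisymm hA (Cfsg.Agent.Lib.Perm.alternatingGroup_le_of_prime_cycle G hG Nat.prime_five (by omega) hc hs hcG)

/-- Degree `7`. -/
theorem deg7 (hα : Fintype.card α = 7) (hG : IsPreprimitive G α) {c : Perm α} (hc : c.IsCycle) (hs : c.support.card = 5)
    (hcG : c ∈ G) (hA : G ≤ alternatingGroup α) (hns : ¬ Group.IsSolvable G) : G = alternatingGroup α := by
  classical
  have htrans := mult_trans G hG hc hs hcG 1 (by omega)
  obtain ⟨s, hs3⟩ := exists_set (α := α) 3 (by omega)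
  have h1 := card_fix G 3 htrans s hs3
  rw [hα] at h1
  have h2 : Nat.choose 7 3 * Nat.factorial 3 = 210 := by decide
  rw [h2] at h1
  have hAcard : Nat.card (alternatingGroup α) = 2520 := by
    haveI : Nontrivial α := Fintype.one_lt_card_iff_nontrivial.1 (by omega)
    have := nat_card_alternatingGroup (α := α)
    rw [this, Nat.card_eq_fintype_card, hα]
    rfl
  haveI : IsSimpleGroup (alternatingGroup α) := alternatingGroup.isSimpleGroup (by rw [Nat.card_eq_fintype_card, hα]; norm_num)
  let M : Subgroup (alternatingGroup α) := G.subgroupOf (alternatingGroup α)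
  have hM : Nat.card M = Nat.card G := Nat.card_congr (Subgroup.subgroupOfEquivOfLe hA).toEquiv
  have hidx := M.card_mul_index
  rw [hM, hAcard] at hidx
  by_contra hne
  have hMtop : M ≠ ⊤ := by
    intro h
    apply hne
    apply le_antisymm hA
    exact Subgroup.subgroupOf_eq_top.1 h
  have hd := card_dvd_factorial_index M hMtop
  rw [hAcard] at hd
  set k := M.index with hk
  set d := Nat.card (fixingSubgroup G s) with hdd
  have hdk : d * k = 12 := by
    have : 210 * (d * k) = 210 * 12 := by
      rw [show 210 * (d * k) = d * 210 * k by ring, h1, hidx]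
    exact Nat.eq_of_mul_eq_mul_left (by norm_num) this
  have hk12 : k = 12 := by
    have hk_le : k ≤ 12 := by
      have : 0 < d := by
        rcases Nat.eq_zero_or_pos d with h | h
        · rw [h] at hdk; omega
        · exact h
      nlinarith
    have hk6 : 7 ≤ k := by
      by_contra hlt
      have : k ≤ 6 := by omega
      have h7 : k.factorial ≤ 720 := by
        calc k.factorial ≤ Nat.factorial 6 := Nat.factorial_le this
          _ = 720 := rfl
      have hk0 : 0 < k.factorial := Nat.factorial_pos _
      have := Nat.le_of_dvd hk0 hd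
      omega
    interval_cases k <;> omega
  have hG210 : Nat.card G = 210 := by
    rw [hk12] at hdk
    have : d = 1 := by omega
    rw [← h1, this, one_mul]
  apply hns
  haveI : IsZGroup G := IsZGroup.of_squarefree (by rw [hG210]; exact sqf210)
  infer_instance

end Cfsg.Agent.Lib.Known3.GL42
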