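import Mathlib
import Cfsg.Agent.Lib.Known3.GL42b

/-! Degree `6`; groups of order `60` and `120`. -/

set_option autoImplicit false
set_option linter.unusedSectionVars false

namespace Cfsg.Agent.Lib.Known3.GL42

open Equiv MulAction

open scoped Pointwise

/-- A nonsolvable group of order `60` is simple. -/
theorem simple_of_card60 {L : Type*} [Group L] [Finite L] (hc : Nat.card L = 60) (hns : ¬ Group.IsSolvable L) :
    IsSimpleGroup L := by
  haveI : Nontrivial L := by
    apply (Finite.one_lt_card_iff_nontrivial).1
    omega
  refine ⟨fun N hN => ?_⟩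
  by_contra hcon
  push Not at hcon
  obtain ⟨h1, h2⟩ := hcon
  have hN60 : Nat.card N ∣ 60 := by
    rw [← hc]
    exact Subgroup.card_subgroup_dvd_card N
  have hlt : Nat.card N < 60 := by
    have hle := Nat.le_of_dvd (by norm_num) hN60
    rcases lt_or_eq_of_le hle with h | h
    · exact h
    · exfalso
      apply h2
      apply Subgroup.eq_top_of_card_eq
      rw [h, hc]
  have h1' : 1 < Nat.card N := by
    have h0 : 0 < Nat.card N := Nat.card_pos
    by_contra hle
    have : Nat.card N = 1 := by omega
    exact h1 (Subgroup.card_eq_one.1 this)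
  have hS1 : Group.IsSolvable N := solv_of_card (hN60.trans (by norm_num)) hlt
  have hmul := N.card_mul_index
  rw [hc] at hmul
  have hq : Nat.card (L ⧸ N) = N.index := rfl
  have hQd : Nat.card (L ⧸ N) ∣ 120 := by
    rw [hq]
    exact (Dvd.intro_left _ hmul).trans (by norm_num)
  have hQlt : Nat.card (L ⧸ N) < 60 := by
    rw [hq]
    by_contra hle
    have : 60 ≤ N.index := by omega
    nlinarith
  have hS2 : Group.IsSolvable (L ⧸ N) := solv_of_card hQd hQlt
  apply hns
  apply Group.isSolvable_of_ker_le_range N.subtype (QuotientGroup.mk' N)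
  rw [QuotientGroup.ker_mk', Subgroup.range_subtype]

/-- Order `60`. -/
theorem iso_A5 {G : Type*} [Group G] [Finite G] (hc : Nat.card G = 60) (hns : ¬ Group.IsSolvable G) :
    Nonempty (G ≃* alternatingGroup (Fin 5)) := by
  haveI := simple_of_card60 hc hns
  exact Cfsg.Agent.S0494.result hc

lemma card_sylow_A5 : Nat.card (Sylow 2 (alternatingGroup (Fin 5))) = 5 := by
  open Cfsg.Agent.Lib.KS2.AltSyl in
  have hV : Nat.card V₀ = 2 ^ (Nat.card (alternatingGroup (Fin 5))).factorization 2 := by
    rw [V₀_card, card_A5]
    have : (60 : ℕ).factorization 2 = 2 := by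
      have : (60 : ℕ) = 2 ^ 2 * 15 := by norm_num
      rw [this, Nat.factorization_mul (by norm_num) (by norm_num), Nat.Prime.factorization_pow Nat.prime_two]
      simp
      apply Nat.factorization_eq_zero_of_not_dvd
      norm_num
    rw [this]
    norm_num
  open Cfsg.Agent.Lib.KS2.AltSyl in
  have e2 : Nat.card (Sylow 2 (alternatingGroup (Fin 5))) = (Subgroup.normalizer (V₀ : Set (alternatingGroup (Fin 5)))).index :=
    Sylow.card_eq_index_normalizer (Sylow.ofCard V₀ hV)
  open Cfsg.Agent.Lib.KS2.AltSyl in
  have e4 := Subgroup.card_mul_index (Subgroup.normalizer (V₀ : Set (alternatingGroup (Fin 5))))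
  open Cfsg.Agent.Lib.KS2.AltSyl in
  rw [N_card, card_A5] at e4
  omega

/-- Transport of the number of Sylow subgroups. -/
lemma card_sylow_congr {L L' : Type*} [Group L] [Group L'] [Finite L] [Finite L'] (e : L ≃* L') (p : ℕ) [Fact p.Prime] :
    Nat.card (Sylow p L) = Nat.card (Sylow p L') := by
  apply Nat.card_congr
  refine ⟨fun P => P.mapSurjective (f := e.toMonoidHom) e.surjective, fun P => P.mapSurjective (f := e.symm.toMonoidHom) e.symm.surjective, ?_, ?_⟩
  · intro P
    apply Sylow.ext
    show ((P : Subgroup L).map e.toMonoidHom).map e.symm.toMonoidHom = P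
    ext x
    constructor
    · rintro ⟨y, ⟨z, hz, rfl⟩, rfl⟩
      have e1 : e.symm.toMonoidHom (e.toMonoidHom z) = z := by simp
      rw [e1]
      exact hz
    · intro hx
      exact ⟨e x, ⟨x, hx, rfl⟩, by simp⟩
  · intro P
    apply Sylow.ext
    show ((P : Subgroup L').map e.symm.toMonoidHom).map e.toMonoidHom = P
    ext x
    constructor
    · rintro ⟨y, ⟨z, hz, rfl⟩, rfl⟩
      have e1 : e.toMonoidHom (e.symm.toMonoidHom z) = z := by simp
      rw [e1]
      exact hz
    · intro hx
      exact ⟨e.symm x, ⟨x, hx, rfl⟩, by simp⟩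

/-- Order `120`. -/
theorem iso_S5 {G : Type*} [Group G] [Finite G] (hNS : NS G) (hc : Nat.card G = 120) (L : Subgroup G) [hLn : L.Normal]
    (hL : Nat.card L = 60) : Nonempty (G ≃* Perm (Fin 5)) := by
  classical
  have hLns : ¬ Group.IsSolvable L := by
    intro hs
    have := hNS L hLn hs
    rw [this] at hL
    simp at hL
  haveI hsimple : IsSimpleGroup L := simple_of_card60 hL hLns
  obtain ⟨e⟩ := Cfsg.Agent.S0494.result hL
  have hY : Nat.card (Sylow 2 L) = 5 := by
    rw [card_sylow_congr e 2, card_sylow_A5]
  let θ : G →* Perm (Sylow 2 L) := (MulAction.toPermHom (MulAut L) (Sylow 2 L)).comp MulAut.conjNormal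
  have hKL : θ.ker ⊓ L = ⊥ := by
    have hn : ((θ.ker).subgroupOf L).Normal := inferInstance
    rcases hn.eq_bot_or_eq_top with h | h
    · rw [eq_bot_iff]
      rintro x ⟨hx1, hx2⟩
      have : (⟨x, hx2⟩ : L) ∈ (θ.ker).subgroupOf L := hx1
      rw [h, Subgroup.mem_bot] at this
      rw [Subgroup.mem_bot]
      exact congrArg Subtype.val this
    · exfalso
      -- every Sylow subgroup of `L` is normal
      have hall : ∀ (l : L) (P : Sylow 2 L), l • P = P := by
        intro l P
        have h1 : l ∈ (θ.ker).subgroupOf L := by rw [h]; trivial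
        have h2 : θ (l : G) = 1 := h1
        have h3 := congrArg (fun f : Perm (Sylow 2 L) => f P) h2
        have h4 : (MulAut.conjNormal (l : G) : MulAut L) • P = P := h3
        have h7 : (MulAut.conjNormal (l : G) : MulAut L) = MulAut.conj l := by
          refine MulEquiv.ext fun x => Subtype.ext ?_
          simp
        rw [h7] at h4
        exact h4
      let P : Sylow 2 L := default
      have h5 : Subgroup.normalizer ((P : Subgroup L) : Set L) = ⊤ := by
        rw [eq_top_iff]
        intro l _
        exact Sylow.smul_eq_iff_mem_normalizer.1 (hall l P)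
      have h6 : Nat.card (Sylow 2 L) = (Subgroup.normalizer ((P : Subgroup L) : Set L)).index :=
        Sylow.card_eq_index_normalizer P
      rw [h5, Subgroup.index_top, hY] at h6
      omega
  have hKsol : Group.IsSolvable θ.ker := by
    let f : θ.ker →* G ⧸ L := (QuotientGroup.mk' L).comp θ.ker.subtype
    have hf : Function.Injective f := by
      rw [injective_iff_map_eq_one]
      intro x hx
      have h1 : (x : G) ∈ L := by
        have : QuotientGroup.mk' L (x : G) = 1 := hx
        rwa [← MonoidHom.mem_ker, QuotientGroup.ker_mk'] at this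
      have h2 : (x : G) ∈ θ.ker ⊓ L := ⟨x.2, h1⟩
      rw [hKL, Subgroup.mem_bot] at h2
      exact Subtype.ext h2
    have hd := Subgroup.card_dvd_of_injective f hf
    have hq : Nat.card (G ⧸ L) = 2 := by
      have hmul := L.card_mul_index
      rw [hc, hL] at hmul
      have : L.index = 2 := by omega
      exact this
    rw [hq] at hd
    apply solv_of_card (hd.trans (by norm_num))
    have := Nat.le_of_dvd (by norm_num) hd
    omega
  have hKbot : θ.ker = ⊥ := hNS _ inferInstance hKsol
  have hinj : Function.Injective θ := (MonoidHom.ker_eq_bot_iff _).1 hKbot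
  have hbij : Function.Bijective θ := by
    apply (Function.Injective.bijective_of_nat_card_le hinj)
    rw [Nat.card_perm, hY, hc]
    decide
  let e1 : G ≃* Perm (Sylow 2 L) := MulEquiv.ofBijective θ hbij
  have hYc : Finite (Sylow 2 L) := inferInstance
  let e2 : Sylow 2 L ≃ Fin 5 := Finite.equivFinOfCardEq hY
  exact ⟨e1.trans e2.permCongrHom⟩


variable {α : Type*} [Fintype α] [DecidableEq α] (G : Subgroup (Perm α))

/-- Degree `6`. -/
theorem deg6 (hα : Fintype.card α = 6) (hG : IsPreprimitive G α) {c : Perm α} (hc : c.IsCycle) (hs : c.support.card = 5)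
    (hcG : c ∈ G) (hNS : NS G) :
    G = ⊤ ∨ G = alternatingGroup α ∨ Nonempty (G ≃* alternatingGroup (Fin 5)) ∨ Nonempty (G ≃* Perm (Fin 5)) := by
  classical
  haveI : Nontrivial α := Fintype.one_lt_card_iff_nontrivial.1 (by omega)
  haveI : Nontrivial G := by
    refine ⟨⟨c, hcG⟩, 1, fun h => ?_⟩
    have h1 : c = 1 := congrArg Subtype.val h
    rw [h1] at hs
    simp at hs
  have hns := hNS.not_solvable
  by_cases hA : alternatingGroup α ≤ G
  · have hd := Subgroup.index_dvd_of_le hA
    rw [alternatingGroup.index_eq_two] at hd
    have h12 : G.index = 1 ∨ G.index = 2 := (Nat.dvd_prime Nat.prime_two).1 hd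
    rcases h12 with h | h
    · left
      exact Subgroup.index_eq_one.1 h
    · right; left
      exact Equiv.Perm.eq_alternatingGroup_of_index_eq_two h
  · right; right
    have htrans := mult_trans G hG hc hs hcG 0 (by omega)
    obtain ⟨s', hs2⟩ := exists_set (α := α) 2 (by omega)
    have h1 := card_fix G 2 htrans s' hs2
    rw [hα] at h1
    have h2 : Nat.choose 6 2 * Nat.factorial 2 = 30 := by decide
    rw [h2] at h1
    set St := fixingSubgroup G s' with hSt
    have hP : Nat.card (Perm α) = 720 := by
      rw [Nat.card_perm, Nat.card_eq_fintype_card, hα]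
      rfl
    have hGd : Nat.card G ∣ 720 := by
      rw [← hP]
      exact Subgroup.card_subgroup_dvd_card G
    have hno3 : ¬ 3 ∣ Nat.card St := by
      intro h3
      obtain ⟨y, hy⟩ := exists_prime_orderOf_dvd_card' 3 h3
      apply hA
      let y₁ : Perm α := ((y : G) : Perm α)
      have hy₁ : orderOf y₁ = 3 := by
        rw [← hy]
        show orderOf (((y : G) : Perm α)) = orderOf y
        rw [Subgroup.orderOf_coe, Subgroup.orderOf_coe]
      have hfix : ∀ a ∈ s', y₁ a = a := by
        intro a ha
        exact (mem_fixingSubgroup_iff G).1 y.2 a ha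
      obtain ⟨n, hn⟩ := Equiv.Perm.cycleType_prime_order (σ := y₁) (by rw [hy₁]; norm_num)
      have hsum := Equiv.Perm.sum_cycleType y₁
      rw [hn, Multiset.sum_replicate, hy₁, smul_eq_mul] at hsum
      have hsupp : y₁.support.card ≤ 4 := by
        have hsub : (y₁.support : Set α) ⊆ s'ᶜ := by
          intro a ha ha'
          have : y₁ a ≠ a := by simpa using ha
          exact this (hfix a ha')
        have h3' := Set.ncard_le_ncard hsub (Set.toFinite _)
        rw [Set.ncard_coe_finset, Set.ncard_compl, hs2, Nat.card_eq_fintype_card, hα] at h3'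
        omega
      have hs3 : y₁.support.card = 3 := by omega
      exact Equiv.Perm.alternatingGroup_le_of_isPreprimitive_of_isThreeCycle_mem hG (card_support_eq_three_iff.1 hs3) (y : G).2
    -- the alternating part
    let K : Subgroup G := (alternatingGroup α).subgroupOf G
    let M : Subgroup (alternatingGroup α) := G.subgroupOf (alternatingGroup α)
    have hKM : Nat.card K = Nat.card M := by
      apply Nat.card_congr
      exact ⟨fun k => ⟨⟨k.1.1, k.2⟩, k.1.2⟩, fun m => ⟨⟨m.1.1, m.2⟩, m.1.2⟩, fun _ => rfl, fun _ => rfl⟩
    have hKi : K.index ∣ 2 := by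
      have := Subgroup.relIndex_dvd_index_of_normal (alternatingGroup α) G
      rwa [alternatingGroup.index_eq_two] at this
    have hKmul := K.card_mul_index
    have hAcard : Nat.card (alternatingGroup α) = 360 := by
      rw [nat_card_alternatingGroup, Nat.card_eq_fintype_card, hα]
      rfl
    haveI : IsSimpleGroup (alternatingGroup α) := alternatingGroup.isSimpleGroup (by rw [Nat.card_eq_fintype_card, hα]; norm_num)
    have hno : ¬ 120 ≤ Nat.card K := by
      intro hge
      have hMtop : M ≠ ⊤ := by
        intro h
        exact hA (Subgroup.subgroupOf_eq_top.1 h)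
      have hd := card_dvd_factorial_index M hMtop
      rw [hAcard] at hd
      have hMmul := M.card_mul_index
      rw [hAcard, ← hKM] at hMmul
      have hk : M.index ≤ 3 := by
        by_contra hlt
        have : 4 ≤ M.index := by omega
        nlinarith
      have h7 : M.index.factorial ≤ 6 := by
        calc M.index.factorial ≤ Nat.factorial 3 := Nat.factorial_le hk
          _ = 6 := rfl
      have := Nat.le_of_dvd (Nat.factorial_pos _) hd
      omega
    -- the stabiliser
    set d := Nat.card St with hd
    have hd24 : d ∣ 24 := by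
      have : d * 30 ∣ 24 * 30 := by
        rw [h1]
        exact hGd
      exact Nat.dvd_of_mul_dvd_mul_right (by norm_num) this
    have hdpos : 0 < d := Nat.card_pos
    have hdcases : d = 1 ∨ d = 2 ∨ d = 4 ∨ d = 8 := by
      have := Nat.le_of_dvd (by norm_num) hd24
      interval_cases d <;> omega
    have hK12 : K.index = 1 ∨ K.index = 2 := (Nat.dvd_prime Nat.prime_two).1 hKi
    rcases hdcases with h | h | h | h
    · exfalso
      rw [h] at h1
      apply hns
      haveI : IsZGroup G := IsZGroup.of_squarefree (by rw [← h1]; exact sqf30)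
      infer_instance
    · left
      exact iso_A5 (by rw [← h1, h]) hns
    · right
      have hG120 : Nat.card G = 120 := by rw [← h1, h]
      rw [hG120] at hKmul
      have hK60 : Nat.card K = 60 := by
        rcases hK12 with h' | h'
        · exfalso
          rw [h'] at hKmul
          exact hno (by omega)
        · rw [h'] at hKmul
          omega
      haveI : K.Normal := inferInstance
      exact iso_S5 hNS hG120 K hK60
    · exfalso
      have hG240 : Nat.card G = 240 := by rw [← h1, h]
      rw [hG240] at hKmul
      apply hno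
      rcases hK12 with h' | h' <;> rw [h'] at hKmul <;> omega

end Cfsg.Agent.Lib.Known3.GL42
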