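import Mathlib
import Cfsg.Agent.Lib.Known3.GL42c

/-! Subgroups of `A₈` with an element of order `5` and no solvable normal subgroup. -/

set_option autoImplicit false
set_option linter.unusedSectionVars false

namespace Cfsg.Agent.Lib.Known3.GL42

open Equiv MulAction

open scoped Pointwise

theorem classify_perm (G : Subgroup (Perm (Fin 8))) (hA : G ≤ alternatingGroup (Fin 8)) (hNS : NS G)
    (h5 : 5 ∣ Nat.card G) :
    (∃ n : ℕ, 5 ≤ n ∧ n ≤ 8 ∧ Nonempty (G ≃* alternatingGroup (Fin n))) ∨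
      Nonempty (G ≃* Perm (Fin 5)) ∨ Nonempty (G ≃* Perm (Fin 6)) := by
  classical
  haveI : Fact (Nat.Prime 5) := ⟨Nat.prime_five⟩
  obtain ⟨x, hx⟩ := exists_prime_orderOf_dvd_card' 5 h5
  let c : Perm (Fin 8) := (x : Perm (Fin 8))
  have hcord : orderOf c = 5 := by
    rw [← hx]
    exact Subgroup.orderOf_coe x
  have hc : c.IsCycle := Equiv.Perm.isCycle_of_prime_order' (by rw [hcord]; norm_num) (by rw [hcord]; simp)
  have hs : c.support.card = 5 := by rw [← hc.orderOf, hcord]
  obtain ⟨a, ha, hcyc⟩ := id hc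
  let O : Set (Fin 8) := MulAction.orbit G a
  let res : G →* Perm O := MulAction.toPermHom G O
  have hres : ∀ (y : G) (z : O), ((res y z : O) : Fin 8) = (y : Perm (Fin 8)) z := fun _ _ => rfl
  have hsub : ∀ y, y ∈ c.support → y ∈ O := by
    intro y hy
    have hy' : c y ≠ y := by simpa using hy
    obtain ⟨i, hi⟩ := hcyc hy'
    refine ⟨x ^ i, ?_⟩
    rw [← hi]
    rfl
  have hOinv : ∀ (g : G) y, y ∈ O ↔ (g : Perm (Fin 8)) y ∈ O := by
    intro g y
    constructor
    · rintro ⟨h, rfl⟩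
      exact ⟨g * h, rfl⟩
    · rintro ⟨h, e⟩
      refine ⟨g⁻¹ * h, ?_⟩
      have e' : h • a = (g : Perm (Fin 8)) y := e
      show (g⁻¹ * h) • a = y
      rw [mul_smul, e']
      show (g : Perm (Fin 8))⁻¹ ((g : Perm (Fin 8)) y) = y
      simp
  letI : Fintype O := Fintype.ofFinite _
  have hcardO : 5 ≤ Fintype.card O := by
    have := Fintype.card_le_of_injective (fun y : c.support => (⟨y.1, hsub y.1 y.2⟩ : O)) (by
      rintro ⟨y, hy⟩ ⟨z, hz⟩ e
      have h' : y = z := congrArg (fun w : O => (w : Fin 8)) e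
      exact Subtype.ext h')
    rw [Fintype.card_coe, hs] at this
    exact this
  have hcardO8 : Fintype.card O ≤ 8 := by
    have := Fintype.card_subtype_le (α := Fin 8) (· ∈ O)
    simpa using this
  have hcompl : Fintype.card {y // y ∉ O} = 8 - Fintype.card O := by
    have := Fintype.card_subtype_compl (α := Fin 8) (· ∈ O)
    simpa using this
  -- the kernel is trivial
  have hker : res.ker = ⊥ := by
    apply hNS _ inferInstance
    let R : Subgroup (Perm (Fin 8)) := (Perm.ofSubtype : Perm {y // y ∉ O} →* Perm (Fin 8)).range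
    have hR : Nat.card R = (Fintype.card {y // y ∉ O}).factorial := by
      have h1 := Nat.card_congr (MonoidHom.ofInjective (Perm.ofSubtype_injective (p := fun y => y ∉ O))).toEquiv
      rw [← Nat.card_eq_fintype_card, ← Nat.card_perm]
      exact h1.symm
    have hle : res.ker.map G.subtype ≤ R := by
      rintro _ ⟨g, hg, rfl⟩
      apply Perm.mem_range_ofSubtype_iff.2
      intro y hy hyO
      have hy' : (g : Perm (Fin 8)) y ≠ y := by simpa using hy
      apply hy'
      have h1 : res g = 1 := hg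
      have h2 := hres g ⟨y, hyO⟩
      rw [h1] at h2
      exact h2.symm
    have hd : Nat.card res.ker ∣ Nat.card R := by
      have h1 := Subgroup.card_dvd_of_le hle
      rwa [Subgroup.card_map_of_injective G.subtype_injective] at h1
    rw [hR, hcompl] at hd
    have hfac : (8 - Fintype.card O).factorial ∣ 6 := by
      have : 8 - Fintype.card O ≤ 3 := by omega
      exact (Nat.factorial_dvd_factorial this)
    have hd6 := hd.trans hfac
    apply solv_of_card (hd6.trans (by norm_num))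
    have := Nat.le_of_dvd (by norm_num) hd6
    omega
  have hinj : Function.Injective res := (MonoidHom.ker_eq_bot_iff _).1 hker
  let G₁ : Subgroup (Perm O) := res.range
  let e₁ : G ≃* G₁ := MonoidHom.ofInjective hinj
  have hNS₁ : NS G₁ := hNS.of_equiv e₁
  haveI hT : IsPretransitive G₁ O := by
    refine ⟨fun z w => ?_⟩
    obtain ⟨g, hg⟩ := MulAction.exists_smul_eq G z w
    exact ⟨⟨res g, ⟨g, rfl⟩⟩, hg⟩
  let c₁ : Perm O := res x
  have hc₁G : c₁ ∈ G₁ := ⟨x, rfl⟩
  have hc₁ord : orderOf c₁ = 5 := by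
    rw [← hx]
    exact orderOf_injective res hinj x
  have hc₁ : c₁.IsCycle := Equiv.Perm.isCycle_of_prime_order' (by rw [hc₁ord]; norm_num) (by rw [hc₁ord]; omega)
  have hs₁ : c₁.support.card = 5 := by rw [← hc₁.orderOf, hc₁ord]
  have hprim : IsPreprimitive G₁ O := prim_five G₁ hc₁ hs₁ hc₁G hcardO8
  haveI hne : Nontrivial G₁ := by
    refine ⟨⟨c₁, hc₁G⟩, 1, fun h => ?_⟩
    have h1 : c₁ = 1 := congrArg Subtype.val h
    rw [h1] at hc₁ord
    simp at hc₁ord
  have hns₁ := hNS₁.not_solvable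
  have hsign : 7 ≤ Fintype.card O → G₁ ≤ alternatingGroup O := by
    intro h7
    rintro _ ⟨g, rfl⟩
    rw [Perm.mem_alternatingGroup]
    have hg1 : Perm.sign (g : Perm (Fin 8)) = 1 := Perm.mem_alternatingGroup.1 (hA g.2)
    have e : res g = (g : Perm (Fin 8)).subtypePerm (p := (· ∈ O)) (fun y => (hOinv g y).symm) := by
      ext z
      rfl
    have hmoved : ∀ y, (g : Perm (Fin 8)) y ≠ y → y ∈ O := by
      intro y hy
      by_contra hyO
      have h2 : (g : Perm (Fin 8)) y ∉ O := fun h => hyO ((hOinv g y).2 h)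
      have h3 : 1 < Fintype.card {y // y ∉ O} :=
        Fintype.one_lt_card_iff.2 ⟨⟨y, hyO⟩, ⟨_, h2⟩, fun h => hy (congrArg Subtype.val h).symm⟩
      omega
    have h := Perm.sign_subtypePerm (g : Perm (Fin 8)) (p := (· ∈ O)) (fun y => (hOinv g y).symm) hmoved
    rw [hg1] at h
    rw [e]
    convert h
  have hn : Fintype.card O = 5 ∨ Fintype.card O = 6 ∨ Fintype.card O = 7 ∨ Fintype.card O = 8 := by omega
  rcases hn with hn | hn | hn | hn
  · rcases deg5 G₁ hn hns₁ with h | h
    · right; left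
      exact ⟨e₁.trans ((MulEquiv.subgroupCongr h).trans (Subgroup.topEquiv.trans (Fintype.equivFinOfCardEq hn).permCongrHom))⟩
    · left
      exact ⟨5, le_rfl, by norm_num, ⟨e₁.trans ((MulEquiv.subgroupCongr h).trans (Fintype.equivFinOfCardEq hn).altCongrHom)⟩⟩
  · rcases deg6 G₁ hn hprim hc₁ hs₁ hc₁G hNS₁ with h | h | ⟨⟨h⟩⟩ | ⟨⟨h⟩⟩
    · right; right
      exact ⟨e₁.trans ((MulEquiv.subgroupCongr h).trans (Subgroup.topEquiv.trans (Fintype.equivFinOfCardEq hn).permCongrHom))⟩
    · left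
      exact ⟨6, by norm_num, by norm_num, ⟨e₁.trans ((MulEquiv.subgroupCongr h).trans (Fintype.equivFinOfCardEq hn).altCongrHom)⟩⟩
    · left
      exact ⟨5, by norm_num, by norm_num, ⟨e₁.trans h⟩⟩
    · right; left
      exact ⟨e₁.trans h⟩
  · have h := deg7 G₁ hn hprim hc₁ hs₁ hc₁G (hsign (by omega)) hns₁
    left
    exact ⟨7, by norm_num, by norm_num, ⟨e₁.trans ((MulEquiv.subgroupCongr h).trans (Fintype.equivFinOfCardEq hn).altCongrHom)⟩⟩
  · have h := deg8 G₁ hn hprim hc₁ hs₁ hc₁G (hsign (by omega))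
    left
    exact ⟨8, by norm_num, by norm_num, ⟨e₁.trans ((MulEquiv.subgroupCongr h).trans (Fintype.equivFinOfCardEq hn).altCongrHom)⟩⟩

end Cfsg.Agent.Lib.Known3.GL42
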