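import Mathlib
import Cfsg.Agent.Lib.Known3.GL42e

/-! Subgroups of `GL₄(2)` with order divisible by `7` but not by `5` are reducible. -/

set_option autoImplicit false
set_option linter.unusedSectionVars false

namespace Cfsg.Agent.Lib.Known3.GL42

open Matrix MulAction

local notation "VV" => (Fin 4 → ZMod 2)

/-- The natural action. -/
def actV : MulAction (GL (Fin 4) (ZMod 2)) VV where
  smul g v := g.1 *ᵥ v
  one_smul v := by
    show (1 : GL (Fin 4) (ZMod 2)).1 *ᵥ v = v
    simp
  mul_smul a b v := by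
    show (a * b).1 *ᵥ v = a.1 *ᵥ (b.1 *ᵥ v)
    simp [Matrix.mulVec_mulVec]

attribute [local instance] actV

lemma smul_def' (g : GL (Fin 4) (ZMod 2)) (v : VV) : g • v = g.1 *ᵥ v := rfl

lemma fix_iff {H : Type*} [Group H] (x : H) {β : Type*} [MulAction H β] (b : β) :
    b ∈ fixedPoints (Subgroup.zpowers x) β ↔ x • b = b := by
  rw [mem_fixedPoints]
  constructor
  · intro h
    exact h ⟨x, Subgroup.mem_zpowers x⟩
  · rintro h ⟨z, hz⟩
    have h1 : x ∈ stabilizer H b := h
    have h2 : Subgroup.zpowers x ≤ stabilizer H b := Subgroup.zpowers_le.2 h1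
    exact h2 hz

/-- The fixed vectors of an element. -/
def fixSub (A : Matrix (Fin 4) (Fin 4) (ZMod 2)) : AddSubgroup VV where
  carrier := {v | A *ᵥ v = v}
  add_mem' := by
    intro a b ha hb
    show A *ᵥ (a + b) = a + b
    rw [Matrix.mulVec_add, show A *ᵥ a = a from ha, show A *ᵥ b = b from hb]
  zero_mem' := by
    show A *ᵥ 0 = 0
    simp
  neg_mem' := by
    intro a ha
    show A *ᵥ (-a) = -a
    rw [Matrix.mulVec_neg, show A *ᵥ a = a from ha]


/-- The kernel of a matrix. -/
def kerSub (A : Matrix (Fin 4) (Fin 4) (ZMod 2)) : AddSubgroup VV where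
  carrier := {v | A *ᵥ v = 0}
  add_mem' := by
    intro a b ha hb
    show A *ᵥ (a + b) = 0
    rw [Matrix.mulVec_add, show A *ᵥ a = 0 from ha, show A *ᵥ b = 0 from hb, add_zero]
  zero_mem' := by
    show A *ᵥ 0 = 0
    simp
  neg_mem' := by
    intro a ha
    show A *ᵥ (-a) = 0
    rw [Matrix.mulVec_neg, show A *ᵥ a = 0 from ha, neg_zero]

lemma card_VV : Nat.card VV = 16 := by
  rw [Nat.card_eq_fintype_card, Fintype.card_fun, ZMod.card, Fintype.card_fin]
  norm_num

lemma dvd16 {n : ℕ} (h : n ∣ 16) : n = 1 ∨ n = 2 ∨ n = 4 ∨ n = 8 ∨ n = 16 := by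
  have hle := Nat.le_of_dvd (by norm_num) h
  have hpos : 0 < n := Nat.pos_of_dvd_of_pos h (by norm_num)
  interval_cases n <;> omega

lemma exists_pow_eq {G : Type*} [Group G] {x : G} (hx7 : x ^ 7 = 1) (k : ℕ) (h0 : 0 < k) (h1 : k < 7) :
    ∃ m : ℕ, (x ^ k) ^ m = x := by
  have h8 : x ^ 8 = x := by rw [pow_succ, hx7, one_mul]
  have h15 : x ^ 15 = x := by
    rw [show 15 = 7 * 2 + 1 by norm_num, pow_succ, pow_mul, hx7, one_pow, one_mul]
  have h36 : x ^ 36 = x := by
    rw [show 36 = 7 * 5 + 1 by norm_num, pow_succ, pow_mul, hx7, one_pow, one_mul]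
  interval_cases k
  · exact ⟨1, by simp⟩
  · exact ⟨4, by rw [← pow_mul]; exact h8⟩
  · exact ⟨5, by rw [← pow_mul]; exact h15⟩
  · exact ⟨2, by rw [← pow_mul]; exact h8⟩
  · exact ⟨3, by rw [← pow_mul]; exact h15⟩
  · exact ⟨6, by rw [← pow_mul]; exact h36⟩

/-- The linear functional of a subgroup of index two. -/
lemma exists_covector (W : AddSubgroup VV) (hW : W.index = 2) :
    ∃ φ : VV, (∀ v ∈ W, φ ⬝ᵥ v = 0) ∧ (∀ v, v ∉ W → φ ⬝ᵥ v = 1) := by
  classical
  let χ : VV →+ ZMod 2 :=
    { toFun := fun v => if v ∈ W then 0 else 1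
      map_zero' := by simp
      map_add' := by
        intro a b
        have h := AddSubgroup.add_mem_iff_of_index_two hW (a := a) (b := b)
        by_cases ha : a ∈ W <;> by_cases hb : b ∈ W <;> simp [ha, hb] at h ⊢ <;> simp [h]
        decide }
  have hχ : ∀ v, χ v = if v ∈ W then 0 else 1 := fun v => rfl
  have key : ∀ v, (fun i => χ (Pi.single i 1)) ⬝ᵥ v = χ v := by
    intro v
    have h1 : v = ∑ i, Pi.single i (v i) := (Finset.univ_sum_single v).symm
    conv_rhs => rw [h1, map_sum]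
    simp only [dotProduct]
    refine Finset.sum_congr rfl fun i _ => ?_
    have h2 : ∀ a : ZMod 2, χ (Pi.single i a) = χ (Pi.single i 1) * a := by
      intro a
      have ha : a = 0 ∨ a = 1 := by
        revert a
        decide
      rcases ha with rfl | rfl
      · simp
      · simp
    exact (h2 _).symm
  refine ⟨fun i => χ (Pi.single i 1), fun v hv => ?_, fun v hv => ?_⟩
  · rw [key, hχ, if_pos hv]
  · rw [key, hχ, if_neg hv]

end Cfsg.Agent.Lib.Known3.GL42
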