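import Mathlib
import Cfsg.Agent.Lib.Known3.GL42f

/-! Subgroups of `GL₄(2)` with order divisible by `7` but not by `5` are reducible. -/

set_option autoImplicit false
set_option linter.unusedSectionVars false

namespace Cfsg.Agent.Lib.Known3.GL42

open Matrix MulAction

local notation "VV" => (Fin 4 → ZMod 2)

section generic
variable {G α : Type*} [Group G] [MulAction G α]

theorem orb_smul_iff (v₀ : α) (h : G) (v : α) : h • v ∈ orbit G v₀ ↔ v ∈ orbit G v₀ := by
  constructor
  · intro hv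
    have h2 : h⁻¹ • (h • v) ∈ orbit G v₀ := mapsTo_smul_orbit h⁻¹ v₀ hv
    rwa [inv_smul_smul] at h2
  · intro hv
    exact mapsTo_smul_orbit h v₀ hv

theorem orb_dvd [Finite G] (v₀ : α) : Nat.card (orbit G v₀) ∣ Nat.card G := by
  rw [Nat.card_coe_set_eq, ← index_stabilizer]
  exact Subgroup.index_dvd_card _

theorem orb_mod [Finite α] (x : G) (hx : orderOf x = 7) (v₀ : α) (hv : x • v₀ = v₀)
    (huniq : ∀ w ∈ orbit G v₀, x • w = w → w = v₀) : Nat.card (orbit G v₀) ≡ 1 [MOD 7] := by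
  haveI : Fact (Nat.Prime 7) := ⟨by norm_num⟩
  have hZ : IsPGroup 7 (Subgroup.zpowers x) := by
    apply IsPGroup.of_card (n := 1)
    rw [Nat.card_zpowers, hx, pow_one]
  have h1 := hZ.card_modEq_card_fixedPoints (orbit G v₀)
  have hval : ∀ b : orbit G v₀, b ∈ fixedPoints (Subgroup.zpowers x) (orbit G v₀) → (b : α) = v₀ := by
    intro b hb
    have h2 : x • b = b := (fix_iff x b).1 hb
    have h3 : x • (b : α) = b := congrArg Subtype.val h2
    exact huniq _ b.2 h3
  have h2 : Nat.card (fixedPoints (Subgroup.zpowers x) (orbit G v₀)) = 1 := by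
    rw [Nat.card_eq_one_iff_unique]
    constructor
    · constructor
      rintro ⟨a, ha⟩ ⟨b, hb⟩
      apply Subtype.ext
      apply Subtype.ext
      rw [hval a ha, hval b hb]
    · refine ⟨⟨⟨v₀, mem_orbit_self v₀⟩, ?_⟩⟩
      apply (fix_iff x _).2
      apply Subtype.ext
      exact hv
  rwa [h2] at h1

theorem pow_smul_cancel (x : G) (c : α) (i j : ℕ) (hij : i < j) (e : (x ^ i) • c = (x ^ j) • c) :
    (x ^ (j - i)) • c = c := by
  have h2 : x ^ j = x ^ i * x ^ (j - i) := by
    rw [← pow_add]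
    congr 1
    omega
  rw [h2, ← smul_smul] at e
  exact (smul_left_cancel _ e).symm

end generic

attribute [local instance] actV

theorem cofix_of_invariant (H : Subgroup (GL (Fin 4) (ZMod 2))) (W : AddSubgroup VV) (φ : VV)
    (hφ0 : ∀ v ∈ W, φ ⬝ᵥ v = 0) (hφ1 : ∀ v, v ∉ W → φ ⬝ᵥ v = 1)
    (hWinv : ∀ (h : H) (v : VV), v ∈ W → h • v ∈ W) : ∀ h ∈ H, φ ᵥ* h.1 = φ := by
  intro h hh
  let h' : H := ⟨h, hh⟩
  have hval : ∀ v : VV, φ ⬝ᵥ (h' • v) = φ ⬝ᵥ v := by
    intro v
    by_cases hv : v ∈ W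
    · rw [hφ0 _ hv, hφ0 _ (hWinv h' v hv)]
    · have h1 : h' • v ∉ W := by
        intro h2
        apply hv
        have h3 := hWinv h'⁻¹ _ h2
        have h4 : h'⁻¹ • (h' • v) = v := inv_smul_smul h' v
        rwa [h4] at h3
      rw [hφ1 _ hv, hφ1 _ h1]
  ext j
  have h1 := hval (Pi.single j 1)
  have h2 : h' • (Pi.single j 1 : VV) = h.1 *ᵥ (Pi.single j 1 : VV) := rfl
  rw [h2, Matrix.dotProduct_mulVec] at h1
  simpa using h1

set_option maxHeartbeats 1000000 in
theorem orbit_arg (H : Subgroup (GL (Fin 4) (ZMod 2))) (h7 : 7 ∣ Nat.card H) (h5 : ¬ 5 ∣ Nat.card H) :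
    (∃ v : VV, v ≠ 0 ∧ ∀ h ∈ H, h.1 *ᵥ v = v) ∨ (∃ φ : VV, φ ≠ 0 ∧ ∀ h ∈ H, φ ᵥ* h.1 = φ) := by
  classical
  haveI : Fact (Nat.Prime 7) := ⟨by norm_num⟩
  obtain ⟨x, hx⟩ := exists_prime_orderOf_dvd_card' 7 h7
  set A : Matrix (Fin 4) (Fin 4) (ZMod 2) := (x : GL (Fin 4) (ZMod 2)).1 with hA
  have hxsmul : ∀ v : VV, x • v = A *ᵥ v := fun v => rfl
  have hZ : IsPGroup 7 (Subgroup.zpowers x) := by
    apply IsPGroup.of_card (n := 1)
    rw [Nat.card_zpowers, hx, pow_one]
  -- the fixed space has two elements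
  have hfixeq : Nat.card (fixedPoints (Subgroup.zpowers x) VV) = Nat.card (fixSub A) := by
    apply Nat.card_congr
    apply Equiv.subtypeEquivRight
    intro v
    rw [fix_iff]
    exact Iff.rfl
  have hcount := hZ.card_modEq_card_fixedPoints VV
  rw [card_VV, hfixeq] at hcount
  have hU16 : Nat.card (fixSub A) ∣ 16 := by
    rw [← card_VV]
    exact AddSubgroup.card_addSubgroup_dvd_card _
  have hUne : Nat.card (fixSub A) ≠ 16 := by
    intro h
    have htop : fixSub A = ⊤ := by
      apply AddSubgroup.eq_top_of_card_eq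
      rw [h, card_VV]
    have hA1 : A = 1 := by
      ext i j
      have h1 : (Pi.single j 1 : VV) ∈ fixSub A := by rw [htop]; trivial
      have h2 : A *ᵥ (Pi.single j 1 : VV) = Pi.single j 1 := h1
      have h3 := congrFun h2 i
      rw [Matrix.mulVec_single_one] at h3
      simpa [Matrix.one_apply, Pi.single_apply, eq_comm] using h3
    have hx1 : x = 1 := by
      apply Subtype.ext
      apply Units.ext
      exact hA1
    rw [hx1, orderOf_one] at hx
    omega
  have hU2 : Nat.card (fixSub A) = 2 := by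
    unfold Nat.ModEq at hcount
    rcases dvd16 hU16 with h | h | h | h | h <;> rw [h] at hcount ⊢ <;> omega
  obtain ⟨y, hy, hyuniq⟩ := (Nat.card_eq_two_iff' (0 : fixSub A)).1 hU2
  set v₀ : VV := (y : VV) with hv₀def
  have hv₀U : A *ᵥ v₀ = v₀ := y.2
  have hv₀ne : v₀ ≠ 0 := fun h => hy (Subtype.ext h)
  have huniq : ∀ w : VV, A *ᵥ w = w → w = 0 ∨ w = v₀ := by
    intro w hw
    by_cases h0 : w = 0
    · exact Or.inl h0
    · right
      have := hyuniq ⟨w, hw⟩ (fun h => h0 (congrArg Subtype.val h))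
      exact congrArg Subtype.val this
  -- the group action facts
  have hcoe : ∀ (h : H) (v : VV), h • v = (h : GL (Fin 4) (ZMod 2)).1 *ᵥ v := fun _ _ => rfl
  have hne0 : ∀ (h : H) (v : VV), v ≠ 0 → h • v ≠ 0 := by
    intro h v hv e
    apply hv
    have h1 : h⁻¹ • (h • v) = v := inv_smul_smul h v
    rw [e, hcoe] at h1
    rw [← h1, Matrix.mulVec_zero]
  have hO7 : Nat.card (orbit H v₀) ≡ 1 [MOD 7] := by
    refine orb_mod x hx v₀ hv₀U ?_
    intro w hw h3
    rcases huniq _ h3 with h4 | h4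
    · exfalso
      obtain ⟨h, e⟩ := hw
      exact hne0 h v₀ hv₀ne (e.trans h4)
    · exact h4
  set O₀ : Set VV := orbit H v₀ with hO₀
  have hv₀O : v₀ ∈ O₀ := mem_orbit_self v₀
  have h0O : (0 : VV) ∉ O₀ := by
    rintro ⟨h, e⟩
    exact hne0 h v₀ hv₀ne e
  have hOinv : ∀ (h : H) (v : VV), h • v ∈ O₀ ↔ v ∈ O₀ := fun h v => orb_smul_iff v₀ h v
  have hdvd : Nat.card O₀ ∣ Nat.card H := orb_dvd v₀
  set T : Finset VV := O₀.toFinset with hT
  have hTmem : ∀ v, v ∈ T ↔ v ∈ O₀ := fun v => Set.mem_toFinset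
  have hTcard : T.card = Nat.card O₀ := by
    rw [hT, Set.toFinset_card, Nat.card_eq_fintype_card]
  set C : Finset VV := Finset.univ \ insert 0 T with hC
  have hCmem : ∀ v, v ∈ C ↔ v ≠ 0 ∧ v ∉ O₀ := by
    intro v
    simp [hC, hTmem]
  have h0T : (0 : VV) ∉ T := fun h => h0O ((hTmem 0).1 h)
  have hins : (insert (0 : VV) T).card = Nat.card O₀ + 1 := by
    rw [Finset.card_insert_of_notMem h0T, hTcard]
  have hfcard : (Finset.univ : Finset VV).card = 16 := by
    rw [Finset.card_univ, ← Nat.card_eq_fintype_card, card_VV]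
  have hCcard : C.card = 16 - (Nat.card O₀ + 1) := by
    rw [hC, Finset.card_sdiff_of_subset (Finset.subset_univ _), hfcard, hins]
  have hn15 : Nat.card O₀ + 1 ≤ 16 := by
    rw [← hins, ← hfcard]
    exact Finset.card_le_univ _
  have hn : Nat.card O₀ = 1 ∨ Nat.card O₀ = 8 := by
    have h15 : Nat.card O₀ ≠ 15 := by
      intro h
      apply h5
      rw [h] at hdvd
      exact (by norm_num : (5 : ℕ) ∣ 15).trans hdvd
    have hpos : 0 < Nat.card O₀ := Nat.card_pos_iff.2 ⟨⟨v₀, hv₀O⟩, inferInstance⟩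
    unfold Nat.ModEq at hO7
    omega
  rcases hn with hn | hn
  · left
    refine ⟨v₀, hv₀ne, fun h hh => ?_⟩
    have hsub : Subsingleton O₀ := (Nat.card_eq_one_iff_unique.1 hn).1
    have h1 : (⟨(⟨h, hh⟩ : H) • v₀, (hOinv ⟨h, hh⟩ v₀).2 hv₀O⟩ : O₀) = ⟨v₀, hv₀O⟩ := Subsingleton.elim _ _
    exact congrArg Subtype.val h1
  rw [hn] at hCcard
  have hC7 : C.card = 7 := by omega
  have hCinv : ∀ (h : H) (c : VV), c ∈ C → h • c ∈ C := by
    intro h c hc
    obtain ⟨h1, h2⟩ := (hCmem c).1 hc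
    exact (hCmem _).2 ⟨hne0 h c h1, fun h3 => h2 ((hOinv h c).1 h3)⟩
  set s : VV := ∑ c ∈ C, c with hs
  have hsfix : ∀ h : H, h • s = s := by
    intro h
    rw [hcoe, hs, Matrix.mulVec_sum]
    refine Finset.sum_nbij' (fun c => h • c) (fun c => h⁻¹ • c) (fun c hc => hCinv h c hc) (fun c hc => hCinv h⁻¹ c hc)
      (fun c _ => inv_smul_smul h c) (fun c _ => smul_inv_smul h c) (fun c _ => rfl)
  rcases huniq s (hsfix x) with hs0 | hsv
  swap
  · left
    refine ⟨v₀, hv₀ne, fun h hh => ?_⟩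
    rw [← hsv]
    exact hsfix ⟨h, hh⟩
  right
  have hx7 : x ^ 7 = 1 := by
    rw [← hx]
    exact pow_orderOf_eq_one x
  have hApow : ∀ (i : ℕ) (c : VV), (A ^ i) *ᵥ c = (x ^ i) • c := by
    intro i c
    rw [hcoe]
    have h1 : ((x ^ i : H) : GL (Fin 4) (ZMod 2)).1 = A ^ i := by simp [hA]
    rw [h1]
  set P : Matrix (Fin 4) (Fin 4) (ZMod 2) := ∑ i ∈ Finset.range 7, A ^ i with hP
  have hPc : ∀ c ∈ C, P *ᵥ c = 0 := by
    intro c hc
    obtain ⟨hc0, hcO⟩ := (hCmem c).1 hc
    have hcx : x • c ≠ c := by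
      intro h
      rcases huniq c h with h1 | h1
      · exact hc0 h1
      · exact hcO (h1 ▸ hv₀O)
    have hinj : Set.InjOn (fun i : ℕ => (x ^ i) • c) (Finset.range 7 : Set ℕ) := by
      have key : ∀ i j : ℕ, i < j → j < 7 → (x ^ i) • c ≠ (x ^ j) • c := by
        intro i j hij hj e
        have h1 : (x ^ (j - i)) • c = c := pow_smul_cancel x c i j hij e
        obtain ⟨m, hm⟩ := exists_pow_eq hx7 (j - i) (by omega) (by omega)
        apply hcx
        rw [← hm]
        have h3 : x ^ (j - i) ∈ stabilizer H c := h1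
        exact (stabilizer H c).pow_mem h3 m
      intro i hi j hj e
      have hi' : i < 7 := by simpa using hi
      have hj' : j < 7 := by simpa using hj
      rcases lt_trichotomy i j with h | h | h
      · exact absurd e (key i j h hj')
      · exact h
      · exact absurd e.symm (key j i h hi')
    have himg : (Finset.range 7).image (fun i : ℕ => (x ^ i) • c) = C := by
      apply Finset.eq_of_subset_of_card_le
      · intro d hd
        obtain ⟨i, -, rfl⟩ := Finset.mem_image.1 hd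
        exact hCinv _ c hc
      · rw [Finset.card_image_of_injOn hinj, hC7, Finset.card_range]
    rw [hP, Matrix.sum_mulVec]
    simp only [hApow]
    rw [← Finset.sum_image (f := fun d => d) hinj, himg, ← hs, hs0]
  set W := kerSub P with hW
  have hAv₀ : ∀ i : ℕ, (A ^ i) *ᵥ v₀ = v₀ := by
    intro i
    rw [hApow]
    have h3 : x ∈ stabilizer H v₀ := hv₀U
    exact (stabilizer H v₀).pow_mem h3 i
  have hv₀W : v₀ ∉ W := by
    intro h
    have h1 : P *ᵥ v₀ = 0 := h
    rw [hP, Matrix.sum_mulVec] at h1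
    simp only [hAv₀, Finset.sum_const, Finset.card_range] at h1
    apply hv₀ne
    ext k
    have h2 := congrFun h1 k
    have h3 : ∀ a : ZMod 2, (7 • a) = a := by decide
    simpa [h3] using h2
  have hWcard : Nat.card W = ((Finset.univ : Finset VV).filter (fun v => P *ᵥ v = 0)).card := by
    show Nat.card {v // P *ᵥ v = 0} = _
    rw [Nat.card_eq_fintype_card, Fintype.card_subtype]
  have h0C : (0 : VV) ∉ C := fun h => ((hCmem 0).1 h).1 rfl
  have hsubT : insert (0 : VV) C ⊆ (Finset.univ : Finset VV).filter (fun v => P *ᵥ v = 0) := by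
    intro v hv
    rcases Finset.mem_insert.1 hv with rfl | hv
    · simp
    · simp [hPc v hv]
  have hge8 : 8 ≤ Nat.card W := by
    rw [hWcard]
    have := Finset.card_le_card hsubT
    rwa [Finset.card_insert_of_notMem h0C, hC7] at this
  have hW8 : Nat.card W = 8 := by
    have hd : Nat.card W ∣ 16 := by
      rw [← card_VV]
      exact AddSubgroup.card_addSubgroup_dvd_card _
    have hne : Nat.card W ≠ 16 := by
      intro h
      have htop : W = ⊤ := by
        apply AddSubgroup.eq_top_of_card_eq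
        rw [h, card_VV]
      apply hv₀W
      rw [htop]
      trivial
    rcases dvd16 hd with h | h | h | h | h <;> omega
  have hTeq : insert (0 : VV) C = (Finset.univ : Finset VV).filter (fun v => P *ᵥ v = 0) := by
    apply Finset.eq_of_subset_of_card_le hsubT
    rw [← hWcard, hW8, Finset.card_insert_of_notMem h0C, hC7]
  have hWC : ∀ w : VV, w ∈ W → w = 0 ∨ w ∈ C := by
    intro w hw
    have h1 : w ∈ (Finset.univ : Finset VV).filter (fun v => P *ᵥ v = 0) := by
      simp only [Finset.mem_filter, Finset.mem_univ, true_and]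
      exact hw
    rw [← hTeq] at h1
    exact Finset.mem_insert.1 h1
  have hidx : W.index = 2 := by
    have := W.card_mul_index
    rw [hW8, card_VV] at this
    omega
  obtain ⟨φ, hφ0, hφ1⟩ := exists_covector W hidx
  have hWinv : ∀ (h : H) (v : VV), v ∈ W → h • v ∈ W := by
    intro h v hv
    rcases hWC v hv with rfl | hc
    · rw [hcoe, Matrix.mulVec_zero]
      exact W.zero_mem
    · exact hPc _ (hCinv h v hc)
  refine ⟨φ, ?_, ?_⟩
  · rintro rfl
    have := hφ1 v₀ hv₀W
    simp at this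
  · exact cofix_of_invariant H W φ hφ0 hφ1 hWinv

end Cfsg.Agent.Lib.Known3.GL42
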