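import Mathlib
import Cfsg.Agent.Lib.Known3.GL42g
import Cfsg.Agent.S0256

/-! `GL₄(2) ≅ A₈`, and the subgroups of order divisible by `7` but not by `5`. -/

set_option autoImplicit false
set_option linter.unusedSectionVars false

namespace Cfsg.Agent.Lib.Known3.GL42

open Matrix

theorem linear_case (H : Subgroup (GL (Fin 4) (ZMod 2))) (hNS : NS H) (h7 : 7 ∣ Nat.card H)
    (h5 : ¬ 5 ∣ Nat.card H) : Nonempty (H ≃* GL (Fin 3) (ZMod 2)) := by
  rcases orbit_arg H h7 h5 with ⟨v, hv, hfix⟩ | ⟨φ, hφ, hfix⟩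
  · obtain ⟨ψ, hψ⟩ := embed_of_fix H hNS v hv hfix
    exact iso_of_embed hNS h7 ψ hψ
  · obtain ⟨ψ, hψ⟩ := embed_of_cofix H hNS φ hφ hfix
    exact iso_of_embed hNS h7 ψ hψ

lemma toGL_mk {n R : Type*} [DecidableEq n] [Fintype n] [CommRing R] (g : GL n R) (h : g.1.det = 1) :
    Matrix.SpecialLinearGroup.toGL (⟨g.1, h⟩ : Matrix.SpecialLinearGroup n R) = g :=
  Units.ext rfl

theorem GL4_iso_A8 : Nonempty (GL (Fin 4) (ZMod 2) ≃* alternatingGroup (Fin 8)) := by
  obtain ⟨e⟩ := Cfsg.Agent.S0256.result (F := ZMod 2) (by simp [ZMod.card])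
  have h1 : Function.Bijective (Matrix.SpecialLinearGroup.toGL (n := Fin 4) (R := ZMod 2)) := by
    constructor
    · intro a b hab
      apply Subtype.ext
      have := congrArg (fun g : GL (Fin 4) (ZMod 2) => g.1) hab
      exact this
    · intro g
      have hdet : g.1.det = 1 := by
        have h : IsUnit g.1.det := (Matrix.isUnit_iff_isUnit_det _).1 g.isUnit
        have h2 : ∀ a : ZMod 2, IsUnit a → a = 1 := by decide
        exact h2 _ h
      exact ⟨⟨g.1, hdet⟩, toGL_mk g hdet⟩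
  let e1 : Matrix.SpecialLinearGroup (Fin 4) (ZMod 2) ≃* GL (Fin 4) (ZMod 2) :=
    MulEquiv.ofBijective _ h1
  have h2 : Function.Bijective (QuotientGroup.mk' (Subgroup.center (Matrix.SpecialLinearGroup (Fin 4) (ZMod 2)))) := by
    constructor
    · rw [injective_iff_map_eq_one]
      intro a ha
      have h3 : a ∈ Subgroup.center (Matrix.SpecialLinearGroup (Fin 4) (ZMod 2)) := by
        rw [← QuotientGroup.ker_mk' (Subgroup.center (Matrix.SpecialLinearGroup (Fin 4) (ZMod 2)))]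
        exact ha
      exact Cfsg.Agent.S0256.hcen1 a h3
    · exact QuotientGroup.mk'_surjective _
  let e2 : Matrix.SpecialLinearGroup (Fin 4) (ZMod 2) ≃* Matrix.ProjectiveSpecialLinearGroup (Fin 4) (ZMod 2) :=
    MulEquiv.ofBijective _ h2
  exact ⟨(e1.symm.trans e2).trans e⟩

end Cfsg.Agent.Lib.Known3.GL42
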