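import Mathlib

/-! Abstract combinatorics: spectra of direct products `L × L × L × M`, `L × L × M` with `M` of
exponent a prime `r`, when every element of `L` either commutes with an element of order `r`, or has
order dividing `A * p ^ B`. -/

namespace Cfsg.Agent.Lib.Known3.OrderSpec

section

variable {L : Type*} [Group L] [Finite L]

theorem orderOf_mul_commute {x w : L} {r : ℕ} (hr : r.Prime) (hw : orderOf w = r) (hc : Commute x w)
    (hx : ¬ r ∣ orderOf x) : orderOf (x * w) = Nat.lcm (orderOf x) r := by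
  have hcop : Nat.Coprime (orderOf x) r := ((Nat.Prime.coprime_iff_not_dvd hr).2 hx).symm
  rw [hc.orderOf_mul_eq_mul_orderOf_of_coprime (by rwa [hw]), hw, hcop.lcm_eq_mul]

/-- decomposition of a number dividing `A * p ^ B`. -/
theorem exists_decomp {p A o B : ℕ} (hp : p.Prime) (hA : ¬ p ∣ A) (ho : o ≠ 0) (h : o ∣ A * p ^ B) :
    ∃ b t, b ≤ B ∧ t ∣ A ∧ Nat.Coprime t p ∧ o = p ^ b * t := by
  obtain ⟨b, t, ht, rfl⟩ := Nat.exists_eq_pow_mul_and_not_dvd ho p hp.ne_one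
  have hcop : Nat.Coprime t p := ((Nat.Prime.coprime_iff_not_dvd hp).2 ht).symm
  refine ⟨b, t, ?_, ?_, hcop, rfl⟩
  · have h1 : p ^ b ∣ A * p ^ B := (dvd_mul_right _ _).trans h
    have h2 : Nat.Coprime (p ^ b) A := Nat.Coprime.pow_left _ ((Nat.Prime.coprime_iff_not_dvd hp).2 hA)
    have h3 := h2.dvd_of_dvd_mul_left h1
    exact (Nat.pow_dvd_pow_iff_le_right hp.one_lt).1 h3
  · have h1 : t ∣ A * p ^ B := (dvd_mul_left _ _).trans h
    exact (Nat.Coprime.pow_right _ hcop).dvd_of_dvd_mul_right h1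

variable {M : Type*} [Group M] {r p A : ℕ} {C : ℕ → Prop}

theorem orderOf_M_dvd {r : ℕ} (hM : ∀ z : M, z ^ r = 1) (z : M) : orderOf z ∣ r :=
  orderOf_dvd_of_pow_eq_one (hM z)

/-- The three-fold spectrum. -/
theorem range_three (hr : r.Prime) (hp : p.Prime) (hrp : r ≠ p) (hA : ¬ p ∣ A)
    (hC : ∀ b B, b ≤ B → C B → C b)
    (H1 : ∀ x : L, (∃ w, Commute x w ∧ orderOf w = r) ∨ ∃ B, C B ∧ orderOf x ∣ A * p ^ B)
    (H2 : ∀ t, t ∣ A → ∃ y : L, orderOf y = t)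
    (H3 : ∀ b, C b → ∃ u : L, orderOf u = p ^ b)
    (H4 : ∃ z : L, orderOf z = r) (hM : ∀ z : M, z ^ r = 1) :
    Set.range (orderOf : L × L × L × M → ℕ) = Set.range (orderOf : L × L × L → ℕ) := by
  apply Set.Subset.antisymm
  · rintro _ ⟨⟨x₁, x₂, x₃, z⟩, rfl⟩
    simp only [Prod.orderOf]
    have hz := orderOf_M_dvd hM z
    set o₁ := orderOf x₁
    set o₂ := orderOf x₂
    set o₃ := orderOf x₃
    rcases (Nat.dvd_prime hr).1 hz with hz1 | hzr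
    · refine ⟨(x₁, x₂, x₃), ?_⟩
      simp only [Prod.orderOf, hz1, Nat.lcm_one_right]
      rfl
    rw [hzr]
    by_cases hrd : r ∣ Nat.lcm o₁ (Nat.lcm o₂ o₃)
    · refine ⟨(x₁, x₂, x₃), ?_⟩
      simp only [Prod.orderOf]
      change Nat.lcm o₁ (Nat.lcm o₂ o₃) = _
      rw [← Nat.lcm_assoc o₂ o₃ r, ← Nat.lcm_assoc o₁ _ r]
      exact (Nat.lcm_eq_left hrd).symm
    have hr1 : ¬ r ∣ o₁ := fun h => hrd (h.trans (Nat.dvd_lcm_left _ _))
    have hr2 : ¬ r ∣ o₂ := fun h =>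
      hrd (h.trans ((Nat.dvd_lcm_left _ _).trans (Nat.dvd_lcm_right _ _)))
    have hr3 : ¬ r ∣ o₃ := fun h =>
      hrd (h.trans ((Nat.dvd_lcm_right _ _).trans (Nat.dvd_lcm_right _ _)))
    rcases H1 x₁ with ⟨w, hc, hw⟩ | ⟨B₁, hB₁, h₁⟩
    · refine ⟨(x₁ * w, x₂, x₃), ?_⟩
      simp only [Prod.orderOf]
      rw [orderOf_mul_commute hr hw hc hr1]
      change Nat.lcm (Nat.lcm o₁ r) (Nat.lcm o₂ o₃) = _
      rw [Nat.lcm_assoc, Nat.lcm_comm r, ← Nat.lcm_assoc o₂ o₃ r]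
    rcases H1 x₂ with ⟨w, hc, hw⟩ | ⟨B₂, hB₂, h₂⟩
    · refine ⟨(x₁, x₂ * w, x₃), ?_⟩
      simp only [Prod.orderOf]
      rw [orderOf_mul_commute hr hw hc hr2]
      change Nat.lcm o₁ (Nat.lcm (Nat.lcm o₂ r) o₃) = _
      rw [Nat.lcm_assoc o₂ r o₃, Nat.lcm_comm r o₃]
    rcases H1 x₃ with ⟨w, hc, hw⟩ | ⟨B₃, hB₃, h₃⟩
    · refine ⟨(x₁, x₂, x₃ * w), ?_⟩
      simp only [Prod.orderOf]
      rw [orderOf_mul_commute hr hw hc hr3]
    -- all three in the special case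
    set B := max B₁ (max B₂ B₃) with hB
    have hCB : C B := by
      rcases le_total B₂ B₃ with h23 | h23
      · rcases le_total B₁ B₃ with h13 | h13
        · rwa [hB, max_eq_right h23, max_eq_right h13]
        · rwa [hB, max_eq_right h23, max_eq_left h13]
      · rcases le_total B₁ B₂ with h12 | h12
        · rwa [hB, max_eq_left h23, max_eq_right h12]
        · rwa [hB, max_eq_left h23, max_eq_left h12]
    have hdvdB : ∀ B', B' ≤ B → A * p ^ B' ∣ A * p ^ B := fun B' h =>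
      Nat.mul_dvd_mul_left _ (pow_dvd_pow _ h)
    have ho : Nat.lcm o₁ (Nat.lcm o₂ o₃) ∣ A * p ^ B := by
      apply Nat.lcm_dvd (h₁.trans (hdvdB _ (le_max_left _ _)))
      apply Nat.lcm_dvd
      · exact h₂.trans (hdvdB _ ((le_max_left _ _).trans (le_max_right _ _)))
      · exact h₃.trans (hdvdB _ ((le_max_right _ _).trans (le_max_right _ _)))
    have ho0 : Nat.lcm o₁ (Nat.lcm o₂ o₃) ≠ 0 := by
      apply Nat.lcm_ne_zero (orderOf_pos x₁).ne'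
      exact Nat.lcm_ne_zero (orderOf_pos x₂).ne' (orderOf_pos x₃).ne'
    obtain ⟨b, t, hbB, htA, hcop, hdec⟩ := exists_decomp hp hA ho0 ho
    obtain ⟨y₁, hy₁⟩ := H2 t htA
    obtain ⟨y₂, hy₂⟩ := H3 b (hC b B hbB hCB)
    obtain ⟨y₃, hy₃⟩ := H4
    refine ⟨(y₁, y₂, y₃), ?_⟩
    simp only [Prod.orderOf, hy₁, hy₂, hy₃]
    rw [← Nat.lcm_assoc o₂ o₃ r, ← Nat.lcm_assoc o₁ _ r, hdec]
    have h5 : Nat.Coprime (p ^ b) t := (Nat.Coprime.pow_right b hcop).symm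
    rw [← h5.lcm_eq_mul, Nat.lcm_comm (p ^ b) t, Nat.lcm_assoc]
  · rintro _ ⟨⟨x₁, x₂, x₃⟩, rfl⟩
    refine ⟨(x₁, x₂, x₃, 1), ?_⟩
    simp [Prod.orderOf]

/-- The two-fold spectrum. -/
theorem range_two (hr : r.Prime) (hp : p.Prime) (hrp : r ≠ p) (hA : ¬ p ∣ A)
    (hC : ∀ b B, b ≤ B → C B → C b)
    (H1 : ∀ x : L, (∃ w, Commute x w ∧ orderOf w = r) ∨ ∃ B, C B ∧ orderOf x ∣ A * p ^ B)
    (H2 : ∀ t, t ∣ A → ∃ y : L, orderOf y = t)
    (H3 : ∀ b, C b → ∃ u : L, orderOf u = r * p ^ b)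
    (hM : ∀ z : M, z ^ r = 1) :
    Set.range (orderOf : L × L × M → ℕ) = Set.range (orderOf : L × L → ℕ) := by
  apply Set.Subset.antisymm
  · rintro _ ⟨⟨x₁, x₂, z⟩, rfl⟩
    simp only [Prod.orderOf]
    have hz := orderOf_M_dvd hM z
    set o₁ := orderOf x₁
    set o₂ := orderOf x₂
    rcases (Nat.dvd_prime hr).1 hz with hz1 | hzr
    · refine ⟨(x₁, x₂), ?_⟩
      simp only [Prod.orderOf, hz1, Nat.lcm_one_right]
      rfl
    rw [hzr]
    by_cases hrd : r ∣ Nat.lcm o₁ o₂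
    · refine ⟨(x₁, x₂), ?_⟩
      simp only [Prod.orderOf]
      change Nat.lcm o₁ o₂ = _
      rw [← Nat.lcm_assoc o₁ o₂ r]
      exact (Nat.lcm_eq_left hrd).symm
    have hr1 : ¬ r ∣ o₁ := fun h => hrd (h.trans (Nat.dvd_lcm_left _ _))
    have hr2 : ¬ r ∣ o₂ := fun h => hrd (h.trans (Nat.dvd_lcm_right _ _))
    rcases H1 x₁ with ⟨w, hc, hw⟩ | ⟨B₁, hB₁, h₁⟩
    · refine ⟨(x₁ * w, x₂), ?_⟩
      simp only [Prod.orderOf]
      rw [orderOf_mul_commute hr hw hc hr1]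
      change Nat.lcm (Nat.lcm o₁ r) o₂ = _
      rw [Nat.lcm_assoc, Nat.lcm_comm r o₂]
    rcases H1 x₂ with ⟨w, hc, hw⟩ | ⟨B₂, hB₂, h₂⟩
    · refine ⟨(x₁, x₂ * w), ?_⟩
      simp only [Prod.orderOf]
      rw [orderOf_mul_commute hr hw hc hr2]
    set B := max B₁ B₂ with hB
    have hCB : C B := by
      rcases le_total B₁ B₂ with h12 | h12
      · rwa [hB, max_eq_right h12]
      · rwa [hB, max_eq_left h12]
    have hdvdB : ∀ B', B' ≤ B → A * p ^ B' ∣ A * p ^ B := fun B' h =>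
      Nat.mul_dvd_mul_left _ (pow_dvd_pow _ h)
    have ho : Nat.lcm o₁ o₂ ∣ A * p ^ B :=
      Nat.lcm_dvd (h₁.trans (hdvdB _ (le_max_left _ _))) (h₂.trans (hdvdB _ (le_max_right _ _)))
    have ho0 : Nat.lcm o₁ o₂ ≠ 0 := Nat.lcm_ne_zero (orderOf_pos x₁).ne' (orderOf_pos x₂).ne'
    obtain ⟨b, t, hbB, htA, hcop, hdec⟩ := exists_decomp hp hA ho0 ho
    obtain ⟨y₁, hy₁⟩ := H2 t htA
    obtain ⟨y₂, hy₂⟩ := H3 b (hC b B hbB hCB)
    refine ⟨(y₁, y₂), ?_⟩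
    simp only [Prod.orderOf, hy₁, hy₂]
    rw [← Nat.lcm_assoc o₁ o₂ r, hdec]
    have h5 : Nat.Coprime (p ^ b) t := (Nat.Coprime.pow_right b hcop).symm
    have h6 : Nat.Coprime r (p ^ b) :=
      Nat.Coprime.pow_right b ((Nat.coprime_primes hr hp).2 hrp)
    rw [← h5.lcm_eq_mul, ← h6.lcm_eq_mul, Nat.lcm_comm (p ^ b) t, Nat.lcm_comm r (p ^ b),
      Nat.lcm_assoc]
  · rintro _ ⟨⟨x₁, x₂⟩, rfl⟩
    refine ⟨(x₁, x₂, 1), ?_⟩
    simp [Prod.orderOf]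

end

end Cfsg.Agent.Lib.Known3.OrderSpec
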