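import Mathlib

/-! A group with a nontrivial normal `3`-subgroup and the spectrum of a Ree group: the action of `SL₂(q)` on `V₂ ⊗ V₂^{(3)}`. -/

set_option autoImplicit false

namespace Cfsg.Agent.Lib.Known3.Spec4

open Matrix

section Semi

variable {N K : Type*} [CommGroup N] [Group K] {φ : K →* MulAut N}

lemma sd_right_pow (h : N ⋊[φ] K) (n : ℕ) : (h ^ n).right = h.right ^ n :=
  map_pow (SemidirectProduct.rightHom (φ := φ)) h n

lemma sd_left_pow (h : N ⋊[φ] K) (n : ℕ) :
    (h ^ n).left = ∏ i ∈ Finset.range n, φ (h.right ^ i) h.left := by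
  induction n with
  | zero => simp
  | succ n ih =>
    rw [pow_succ, SemidirectProduct.mul_left, ih, sd_right_pow, Finset.prod_range_succ]

lemma sd_pow_eq_one_of_fpf (h : N ⋊[φ] K) (n : ℕ) (hk : h.right ^ n = 1)
    (hf : ∀ w : N, φ h.right w = w → w = 1) : h ^ n = 1 := by
  have h1 : (h ^ n).left = 1 := by
    apply hf
    rw [sd_left_pow, map_prod]
    have e1 := Finset.prod_range_succ (fun i => φ (h.right ^ i) h.left) n
    have e2 := Finset.prod_range_succ' (fun i => φ (h.right ^ i) h.left) n
    rw [e1] at e2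
    simp only [hk, pow_zero] at e2
    have e3 := mul_right_cancel e2
    rw [e3]
    refine Finset.prod_congr rfl fun i _ => ?_
    rw [pow_succ', map_mul, MulAut.mul_apply]
  apply SemidirectProduct.ext
  · simpa using h1
  · simpa [sd_right_pow] using hk

lemma sd_pow_of_exp (h : N ⋊[φ] K) (n e : ℕ) (hk : h.right ^ n = 1) (hN : ∀ w : N, w ^ e = 1) :
    h ^ (n * e) = 1 := by
  have h1 : (h ^ n).right = 1 := by rw [sd_right_pow, hk]
  rw [pow_mul]
  have key : ∀ (y : N ⋊[φ] K) (hy : y.right = 1) (j : ℕ), (y ^ j).left = y.left ^ j := by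
    intro y hy j
    rw [sd_left_pow, hy]
    simp
  apply SemidirectProduct.ext
  · rw [key _ h1 e, hN]
    simp
  · rw [sd_right_pow, h1]
    simp

end Semi

variable {F : Type*} [Field F] [CharP F 3]

local notation "M2" => Matrix (Fin 2) (Fin 2) F

omit [CharP F 3] in
lemma placeholder : True := trivial

lemma three_eq : (3 : F) = 0 := by
  exact_mod_cast CharP.cast_eq_zero F 3

/-- The entrywise Frobenius. -/
noncomputable def sg : M2 →+* M2 := (frobenius F 3).mapMatrix

lemma sg_apply (X : M2) (i j : Fin 2) : sg X i j = (X i j) ^ 3 := by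
  simp [sg, frobenius_def]

/-- The action on `V₂ ⊗ V₂^{(3)}`. -/
noncomputable def act (g : SpecialLinearGroup (Fin 2) F) (X : M2) : M2 := g.1 * X * (sg g.1)ᵀ

lemma act_one (X : M2) : act (1 : SpecialLinearGroup (Fin 2) F) X = X := by
  simp [act, map_one]

lemma act_mul (g h : SpecialLinearGroup (Fin 2) F) (X : M2) : act (g * h) X = act g (act h X) := by
  simp only [act, Matrix.SpecialLinearGroup.coe_mul, map_mul, Matrix.transpose_mul, Matrix.mul_assoc]

lemma act_add (g : SpecialLinearGroup (Fin 2) F) (X Y : M2) : act g (X + Y) = act g X + act g Y := by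
  simp only [act, Matrix.mul_add, Matrix.add_mul]

/-- The automorphism attached to `g`. -/
noncomputable def actE (g : SpecialLinearGroup (Fin 2) F) : MulAut (Multiplicative M2) where
  toFun X := Multiplicative.ofAdd (act g (Multiplicative.toAdd X))
  invFun X := Multiplicative.ofAdd (act g⁻¹ (Multiplicative.toAdd X))
  left_inv X := by
    simp only [toAdd_ofAdd, ← act_mul, inv_mul_cancel, act_one, ofAdd_toAdd]
  right_inv X := by
    simp only [toAdd_ofAdd, ← act_mul, mul_inv_cancel, act_one, ofAdd_toAdd]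
  map_mul' X Y := by
    simp only [toAdd_mul, act_add, ofAdd_add]

lemma actE_apply (g : SpecialLinearGroup (Fin 2) F) (X : Multiplicative M2) :
    actE g X = Multiplicative.ofAdd (act g (Multiplicative.toAdd X)) := rfl

/-- The homomorphism from `SL₂`. -/
noncomputable def rho0 : SpecialLinearGroup (Fin 2) F →* MulAut (Multiplicative M2) where
  toFun := actE
  map_one' := by
    refine MulEquiv.ext fun X => ?_
    simp [actE_apply, act_one]
  map_mul' g h := by
    refine MulEquiv.ext fun X => ?_
    simp [actE_apply, act_mul, MulAut.mul_apply]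

lemma rho0_center (g : SpecialLinearGroup (Fin 2) F)
    (hg : g ∈ Subgroup.center (SpecialLinearGroup (Fin 2) F)) : rho0 g = 1 := by
  obtain ⟨r, hr, e⟩ := (Matrix.SpecialLinearGroup.mem_center_iff).1 hg
  have hr2 : r ^ 2 = 1 := by simpa using hr
  have hg1 : g.1 = r • (1 : M2) := by
    rw [← e, scalar_apply, smul_one_eq_diagonal]
  have hs : sg g.1 = r • (1 : M2) := by
    rw [hg1]
    ext i j
    rw [sg_apply]
    by_cases hij : i = j
    · subst hij
      simp only [Matrix.smul_apply, one_apply_eq, smul_eq_mul, mul_one]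
      rw [pow_succ, hr2, one_mul]
    · simp [one_apply_ne hij]
  refine MulEquiv.ext fun X => ?_
  show Multiplicative.ofAdd (act g (Multiplicative.toAdd X)) = _
  apply Multiplicative.toAdd.injective
  simp only [toAdd_ofAdd, MulAut.one_apply]
  rw [act, hs, hg1]
  simp only [transpose_smul, transpose_one, Matrix.smul_mul, Matrix.mul_smul,
    one_mul, mul_one, smul_smul, ← pow_two, hr2, one_smul]

/-- The action of `PSL₂`. -/
noncomputable def rho1 : Matrix.ProjectiveSpecialLinearGroup (Fin 2) F →* MulAut (Multiplicative M2) :=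
  QuotientGroup.lift _ rho0 (fun g hg => rho0_center g hg)

lemma rho1_mk (g : SpecialLinearGroup (Fin 2) F) :
    rho1 (QuotientGroup.mk g : Matrix.ProjectiveSpecialLinearGroup (Fin 2) F) = actE g := rfl

/-- The sign. -/
def sgnE {N : Type*} [CommGroup N] (ε : ℤˣ) : MulAut N where
  toFun X := X ^ (ε : ℤ)
  invFun X := X ^ (ε : ℤ)
  left_inv X := by
    simp only [← _root_.zpow_mul, Int.units_coe_mul_self, zpow_one]
  right_inv X := by
    simp only [← _root_.zpow_mul, Int.units_coe_mul_self, zpow_one]
  map_mul' X Y := mul_zpow X Y _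

/-- The sign homomorphism. -/
def sgnH {N : Type*} [CommGroup N] : ℤˣ →* MulAut N where
  toFun := sgnE
  map_one' := by
    refine MulEquiv.ext fun X => ?_
    show X ^ (((1 : ℤˣ) : ℤ)) = X
    simp
  map_mul' a b := by
    refine MulEquiv.ext fun X => ?_
    show X ^ (((a * b : ℤˣ)) : ℤ) = (X ^ (b : ℤ)) ^ (a : ℤ)
    rw [← _root_.zpow_mul]
    simp [mul_comm]

lemma sgnH_apply {N : Type*} [CommGroup N] (ε : ℤˣ) (X : N) : sgnH ε X = X ^ (ε : ℤ) := rfl

/-- The group acting: signs times `PSL₂`. -/
abbrev KK (F : Type*) [Field F] := ℤˣ × Matrix.ProjectiveSpecialLinearGroup (Fin 2) F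

/-- The action of the group `KK`. -/
noncomputable def phi : KK F →* MulAut (Multiplicative M2) :=
  MonoidHom.noncommCoprod sgnH rho1 (fun ε x => by
    refine MulEquiv.ext fun X => ?_
    show (rho1 x X) ^ (ε : ℤ) = rho1 x (X ^ (ε : ℤ))
    rw [map_zpow])

lemma phi_apply (ε : ℤˣ) (g : SpecialLinearGroup (Fin 2) F) (X : Multiplicative M2) :
    phi (ε, (QuotientGroup.mk g : Matrix.ProjectiveSpecialLinearGroup (Fin 2) F)) X
      = (actE g X) ^ (ε : ℤ) := rfl

/-- The group `H`. -/
abbrev HH (F : Type*) [Field F] [CharP F 3] := Multiplicative (Matrix (Fin 2) (Fin 2) F) ⋊[(phi : KK F →* MulAut _)] KK F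

/-- The exponent of the module. -/
lemma exp_three (X : Multiplicative M2) : X ^ 3 = 1 := by
  apply Multiplicative.toAdd.injective
  simp only [toAdd_pow, toAdd_one]
  ext i j
  simp [three_eq]

/-! Fixed points. -/

section Fix

variable (g : SpecialLinearGroup (Fin 2) F)

omit [CharP F 3] in
lemma det_eq : g.1 0 0 * g.1 1 1 - g.1 0 1 * g.1 1 0 = 1 := by
  have := g.2
  rwa [Matrix.det_fin_two] at this

omit [CharP F 3] in
/-- Cayley-Hamilton. -/
lemma sq_eq : g.1 * g.1 = (g.1 0 0 + g.1 1 1) • g.1 - 1 := by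
  have h := det_eq g
  ext i j
  fin_cases i <;> fin_cases j <;> simp [Matrix.mul_apply, Fin.sum_univ_two]
  · linear_combination -h
  · ring
  · ring
  · linear_combination -h

end Fix

end Cfsg.Agent.Lib.Known3.Spec4
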