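import Mathlib
import Cfsg.Agent.Lib.Known3.Spec4a

/-! Fixed points of the action on `V₂ ⊗ V₂^{(3)}`, and powers in `SL₂(q)`, `q = 3^α`. -/

set_option autoImplicit false

namespace Cfsg.Agent.Lib.Known3.Spec4

open Matrix

variable {F : Type*} [Field F] [CharP F 3]

local notation "M2" => Matrix (Fin 2) (Fin 2) F

omit [CharP F 3] in
lemma rank_one_aux (X : M2) (hd : X.det = 0) (i j i₀ j₀ : Fin 2) :
    X i j * X i₀ j₀ = X i j₀ * X i₀ j := by
  rw [Matrix.det_fin_two] at hd
  fin_cases i <;> fin_cases j <;> fin_cases i₀ <;> fin_cases j₀ <;> simp <;>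
    first
      | ring1
      | linear_combination hd
      | linear_combination -hd

omit [CharP F 3] in
lemma rank_one (X : M2) (hX : X ≠ 0) (hd : X.det = 0) :
    ∃ v w : Fin 2 → F, v ≠ 0 ∧ w ≠ 0 ∧ ∀ i j, X i j = v i * w j := by
  obtain ⟨i₀, j₀, h0⟩ : ∃ i j, X i j ≠ 0 := by
    by_contra hc
    push Not at hc
    exact hX (by ext i j; simpa using hc i j)
  refine ⟨fun i => X i j₀, fun j => X i₀ j / X i₀ j₀, ?_, ?_, ?_⟩
  · intro h
    exact h0 (congrFun h i₀)
  · intro h
    have := congrFun h j₀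
    simp [h0] at this
  · intro i j
    field_simp
    exact rank_one_aux X hd i j i₀ j₀

omit [CharP F 3] in
lemma eig_char (a b c d μ v0 v1 : F) (hdet : a * d - b * c = 1) (h0 : a * v0 + b * v1 = μ * v0)
    (h1 : c * v0 + d * v1 = μ * v1) (hv : v0 ≠ 0 ∨ v1 ≠ 0) : μ ^ 2 - (a + d) * μ + 1 = 0 := by
  rcases hv with hv | hv
  · apply mul_right_cancel₀ hv
    linear_combination (d - μ) * h0 - b * h1 - v0 * hdet
  · apply mul_right_cancel₀ hv
    linear_combination (a - μ) * h1 - c * h0 - v1 * hdet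

lemma cube_add (a d : F) : (a + d) ^ 3 = a ^ 3 + d ^ 3 := by
  have h3 := three_eq (F := F)
  linear_combination (a ^ 2 * d + a * d ^ 2) * h3

lemma cube_sub (a d : F) : (a - d) ^ 3 = a ^ 3 - d ^ 3 := by
  have h3 := three_eq (F := F)
  linear_combination (-a ^ 2 * d + a * d ^ 2) * h3

/-- The conclusion on the eigenvalue. -/
lemma eig_final (hneg : ¬ IsSquare (-1 : F)) (μ ν τ e : F) (he : e = 1 ∨ e = -1)
    (h1 : μ ^ 2 - τ * μ + 1 = 0) (h2 : ν ^ 2 - τ ^ 3 * ν + 1 = 0) (h3' : μ * ν = e) :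
    e = 1 ∧ τ ^ 2 = 1 := by
  have h3 := three_eq (F := F)
  have he2 : e ^ 2 = 1 := by
    rcases he with rfl | rfl <;> ring
  have hμτ : μ * τ = μ ^ 2 + 1 := by linear_combination -h1
  have hcube : μ ^ 3 * τ ^ 3 = μ ^ 6 + 1 := by
    have : (μ * τ) ^ 3 = (μ ^ 2 + 1) ^ 3 := by rw [hμτ]
    have e2 := cube_add (μ ^ 2) 1
    rw [e2] at this
    linear_combination this
  have hkey : (μ ^ 2 * e - 1) * (ν - μ ^ 3) = 0 := by
    have e1 : μ ^ 3 * ν = μ ^ 2 * e := by rw [← h3']; ring
    rw [← e1]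
    linear_combination μ ^ 3 * h2 + ν * hcube
  have hμ2 : μ ^ 2 = e ∨ μ ^ 4 = e := by
    rcases mul_eq_zero.1 hkey with h | h
    · left
      linear_combination e * h - μ ^ 2 * he2
    · right
      rw [← h3', sub_eq_zero.1 h]
      ring
  have hne : ∀ t : F, t ^ 2 ≠ -1 := fun t ht => hneg ⟨t, by rw [← ht]; ring⟩
  have he1 : e = 1 := by
    rcases he with he | he
    · exact he
    · exfalso
      rcases hμ2 with h | h
      · exact hne μ (by rw [h, he])
      · exact hne (μ ^ 2) (by rw [← pow_mul, h, he])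
  refine ⟨he1, ?_⟩
  have hμ1 : μ ^ 2 = 1 := by
    rcases hμ2 with h | h
    · rw [h, he1]
    · have : (μ ^ 2 - 1) * (μ ^ 2 + 1) = 0 := by rw [he1] at h; linear_combination h
      rcases mul_eq_zero.1 this with h' | h'
      · linear_combination h'
      · exact absurd (by linear_combination h') (hne μ)
  have : τ ^ 2 * μ ^ 2 = 1 := by
    have : (μ * τ) ^ 2 = (μ ^ 2 + 1) ^ 2 := by rw [hμτ]
    rw [hμ1] at this
    linear_combination this + h3
  rw [hμ1, mul_one] at this
  exact this

/-- Fixed points of the action. -/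
theorem fix_analysis (hneg : ¬ IsSquare (-1 : F)) (g : SpecialLinearGroup (Fin 2) F) (e : F)
    (he : e = 1 ∨ e = -1) (X : M2) (hX : X ≠ 0) (hfix : act g X = e • X) :
    g.1 0 0 + g.1 1 1 = 0 ∨ (e = 1 ∧ (g.1 0 0 + g.1 1 1) ^ 2 = 1) := by
  have h3 := three_eq (F := F)
  have hdetg := det_eq g
  have hS : ∀ i j, (sg g.1)ᵀ i j = (g.1 j i) ^ 3 := fun i j => by
    rw [transpose_apply, sg_apply]
  set a := g.1 0 0 with ha
  set b := g.1 0 1 with hb
  set c := g.1 1 0 with hc
  set d := g.1 1 1 with hd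
  have hE : ∀ i j, act g X i j = (e • X) i j := fun i j => by rw [hfix]
  have he0 : e ≠ 0 := by
    rcases he with rfl | rfl
    · exact one_ne_zero
    · exact neg_ne_zero.2 one_ne_zero
  by_cases hD : X.det = 0
  · obtain ⟨v, w, hv, hw, hvw⟩ := rank_one X hX hD
    have hact : ∀ i j, act g X i j = (g.1 i 0 * v 0 + g.1 i 1 * v 1) * (sg g.1 j 0 * w 0 + sg g.1 j 1 * w 1) := by
      intro i j
      simp only [act, Matrix.mul_apply, Fin.sum_univ_two, hvw, transpose_apply]
      ring
    obtain ⟨i₁, hi₁⟩ := Function.ne_iff.1 hv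
    obtain ⟨j₁, hj₁⟩ := Function.ne_iff.1 hw
    simp only [Pi.zero_apply] at hi₁ hj₁
    set v' : Fin 2 → F := fun i => g.1 i 0 * v 0 + g.1 i 1 * v 1 with hv'
    set w' : Fin 2 → F := fun j => sg g.1 j 0 * w 0 + sg g.1 j 1 * w 1 with hw'
    have hmain : ∀ i j, v' i * w' j = e * (v i * w j) := by
      intro i j
      have := hE i j
      rw [hact, Matrix.smul_apply, hvw, smul_eq_mul] at this
      exact this
    have hne : v' i₁ * w' j₁ ≠ 0 := by
      rw [hmain]
      exact mul_ne_zero he0 (mul_ne_zero hi₁ hj₁)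
    have hvn : v' i₁ ≠ 0 := left_ne_zero_of_mul hne
    have hwn : w' j₁ ≠ 0 := right_ne_zero_of_mul hne
    set μ := e * w j₁ / w' j₁ with hμ
    set ν := e * v i₁ / v' i₁ with hν
    have hμv : ∀ i, v' i = μ * v i := by
      intro i
      have := hmain i j₁
      rw [hμ]
      field_simp
      linear_combination this
    have hνw : ∀ j, w' j = ν * w j := by
      intro j
      have := hmain i₁ j
      rw [hν]
      field_simp
      linear_combination this
    have hμν : μ * ν = e := by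
      have := hmain i₁ j₁
      rw [hμv, hνw] at this
      have h2 : v i₁ * w j₁ ≠ 0 := mul_ne_zero hi₁ hj₁
      apply mul_right_cancel₀ h2
      linear_combination this
    have hv01 : v 0 ≠ 0 ∨ v 1 ≠ 0 := by
      by_contra hc'
      push Not at hc'
      apply hv
      ext i
      fin_cases i
      · exact hc'.1
      · exact hc'.2
    have hw01 : w 0 ≠ 0 ∨ w 1 ≠ 0 := by
      by_contra hc'
      push Not at hc'
      apply hw
      ext i
      fin_cases i
      · exact hc'.1
      · exact hc'.2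
    have e1 : μ ^ 2 - (a + d) * μ + 1 = 0 :=
      eig_char a b c d μ (v 0) (v 1) hdetg (hμv 0) (hμv 1) hv01
    have hdet3 : a ^ 3 * d ^ 3 - b ^ 3 * c ^ 3 = 1 := by
      have : (a * d - b * c) ^ 3 = 1 := by rw [hdetg]; ring
      rw [cube_sub] at this
      linear_combination this
    have e2 : ν ^ 2 - (a ^ 3 + d ^ 3) * ν + 1 = 0 := by
      refine eig_char (a ^ 3) (b ^ 3) (c ^ 3) (d ^ 3) ν (w 0) (w 1) hdet3 ?_ ?_ hw01
      · have := hνw 0
        simpa [hw', sg_apply] using this
      · have := hνw 1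
        simpa [hw', sg_apply] using this
    rw [← cube_add] at e2
    exact Or.inr (eig_final hneg μ ν (a + d) e he e1 e2 hμν)
  · have hE00 := hE 0 0
    have hE01 := hE 0 1
    have hE10 := hE 1 0
    have hE11 := hE 1 1
    simp only [act, Matrix.mul_apply, Fin.sum_univ_two, hS, Matrix.smul_apply, smul_eq_mul] at hE00 hE01 hE10 hE11
    rw [Matrix.det_fin_two] at hD
    set x := X 0 0
    set y := X 0 1
    set z := X 1 0
    set u := X 1 1
    have key : (x * u - y * z) * (a ^ 3 + d ^ 3 - e * (a + d)) = 0 := by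
      linear_combination (u * d + y * c) * hE00 + (-u * b - y * a) * hE10 + (-z * d - x * c) * hE01
        + (z * b + x * a) * hE11 - (x * u - y * z) * (a ^ 3 + d ^ 3) * hdetg
    have h1 : a ^ 3 + d ^ 3 - e * (a + d) = 0 := (mul_eq_zero.1 key).resolve_left hD
    rw [← cube_add] at h1
    have h2 : (a + d) * ((a + d) ^ 2 - e) = 0 := by linear_combination h1
    rcases mul_eq_zero.1 h2 with h | h
    · exact Or.inl h
    · right
      have h4 : (a + d) ^ 2 = e := by linear_combination h
      have he1 : e = 1 := by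
        rcases he with he | he
        · exact he
        · exfalso
          exact hneg ⟨a + d, by rw [← he, ← h4]; ring⟩
      exact ⟨he1, by rw [h4, he1]⟩

end Cfsg.Agent.Lib.Known3.Spec4
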