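import Mathlib
import Cfsg.Agent.Lib.Known3.Spec4b

/-! Powers in `SL₂(q)`, `q = 3^α`. -/

set_option autoImplicit false

namespace Cfsg.Agent.Lib.Known3.Spec4

open Matrix

variable {F : Type*} [Field F] [CharP F 3]

local notation "M2" => Matrix (Fin 2) (Fin 2) F

omit [CharP F 3] in
lemma sq_one {x : F} (h : x ^ 2 = 1) : x = 1 ∨ x = -1 := by
  have : (x - 1) * (x + 1) = 0 := by linear_combination h
  rcases mul_eq_zero.1 this with h' | h'
  · left; linear_combination h'
  · right; linear_combination h'

omit [CharP F 3] in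
/-- An element with image `±1`. -/
lemma mk_eq_one_of (h : SpecialLinearGroup (Fin 2) F) (hh : h.1 = 1 ∨ h.1 = -1) :
    (QuotientGroup.mk h : Matrix.ProjectiveSpecialLinearGroup (Fin 2) F) = 1 := by
  rw [QuotientGroup.eq_one_iff, Matrix.SpecialLinearGroup.mem_center_iff]
  rcases hh with hh | hh
  · refine ⟨1, by simp, ?_⟩
    rw [hh]
    simp
  · refine ⟨-1, by simp, ?_⟩
    rw [hh, map_neg, map_one]

/-- Cube of an element of trace `±1`. -/
lemma cube_of_trace (g : SpecialLinearGroup (Fin 2) F) (h : (g.1 0 0 + g.1 1 1) ^ 2 = 1) :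
    (QuotientGroup.mk (g ^ 3) : Matrix.ProjectiveSpecialLinearGroup (Fin 2) F) = 1 := by
  apply mk_eq_one_of
  set τ := g.1 0 0 + g.1 1 1 with hτ
  have hs : g.1 * g.1 = τ • g.1 - 1 := sq_eq g
  have e1 : (g ^ 3).1 = (-τ) • (1 : M2) := by
    rw [Matrix.SpecialLinearGroup.coe_pow, pow_succ, pow_two, hs, Matrix.sub_mul, Matrix.smul_mul, hs, smul_sub, smul_smul,
      ← pow_two, h, one_smul, one_mul, neg_smul]
    abel
  rw [e1]
  have : τ = 1 ∨ τ = -1 := sq_one h
  rcases this with h' | h'
  · right
    rw [h']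
    simp
  · left
    rw [h']
    simp

lemma mk_sq_of_trace_zero (g : SpecialLinearGroup (Fin 2) F) (h : g.1 0 0 + g.1 1 1 = 0) :
    (QuotientGroup.mk (g ^ 2) : Matrix.ProjectiveSpecialLinearGroup (Fin 2) F) = 1 := by
  apply mk_eq_one_of
  right
  rw [Matrix.SpecialLinearGroup.coe_pow, pow_two, sq_eq, h]
  simp

variable [Fintype F]

/-- The Frobenius power of `g`. -/
lemma pow_card_eq (g : SpecialLinearGroup (Fin 2) F) {α : ℕ} (hq : Fintype.card F = 3 ^ α)
    (hodd : Odd (Fintype.card F)) :
    g.1 ^ Fintype.card F = (((g.1 0 0 + g.1 1 1) ^ 2 - 1) ^ (Fintype.card F / 2)) • (g.1 + (g.1 0 0 + g.1 1 1) • (1 : M2))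
      - (g.1 0 0 + g.1 1 1) • (1 : M2) := by
  have h3 := three_eq (F := F)
  set τ := g.1 0 0 + g.1 1 1 with hτ
  set D := τ ^ 2 - 1 with hD
  set G : M2 := g.1 with hG
  have hs : G * G = τ • G - 1 := sq_eq g
  have hcomm : Commute G (τ • (1 : M2)) := by
    show G * (τ • (1 : M2)) = (τ • (1 : M2)) * G
    simp
  set δ : M2 := G + τ • (1 : M2) with hδ
  have hδ2 : δ * δ = D • (1 : M2) := by
    rw [hδ, Matrix.add_mul, Matrix.mul_add, Matrix.mul_add, hs]
    ext i j
    fin_cases i <;> fin_cases j <;>
      simp [Matrix.mul_apply, Fin.sum_univ_two, hD, Matrix.one_apply, Matrix.smul_apply, Matrix.add_apply, Matrix.sub_apply]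
    · linear_combination (τ * G 0 0) * h3
    · linear_combination (τ * G 0 1) * h3
    · linear_combination (τ * G 1 0) * h3
    · linear_combination (τ * G 1 1) * h3
  haveI : CharP M2 3 := Matrix.charP 3
  have e1 : δ ^ Fintype.card F = G ^ Fintype.card F + τ • (1 : M2) := by
    rw [hq, hδ, add_pow_char_pow_of_commute 3 α hcomm, ← hq, smul_pow, one_pow, FiniteField.pow_card]
  have e2 : δ ^ Fintype.card F = (D ^ (Fintype.card F / 2)) • δ := by
    obtain ⟨s, hs'⟩ := hodd
    have hs2 : Fintype.card F / 2 = s := by omega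
    rw [hs2, hs', pow_succ, pow_mul, pow_two, hδ2, smul_pow, one_pow, Matrix.smul_mul, one_mul]
  have e3 : G ^ Fintype.card F = δ ^ Fintype.card F - τ • (1 : M2) := by
    rw [e1]
    simp
  rw [e3, e2]

omit [Fintype F] [CharP F 3] in
/-- Every power of `g` is a linear combination of `1` and `g`. -/
lemma pow_span (g : SpecialLinearGroup (Fin 2) F) (n : ℕ) :
    ∃ a b : F, g.1 ^ n = a • (1 : M2) + b • g.1 := by
  induction n with
  | zero => exact ⟨1, 0, by simp⟩
  | succ n ih =>
    obtain ⟨a, b, h⟩ := ih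
    refine ⟨-b, a + b * (g.1 0 0 + g.1 1 1), ?_⟩
    rw [pow_succ, h, Matrix.add_mul, Matrix.smul_mul, Matrix.smul_mul, one_mul, sq_eq]
    ext i j
    simp [Matrix.add_apply, Matrix.sub_apply, Matrix.smul_apply]
    ring

/-- Case of a nonsquare discriminant. -/
lemma half_pow (g : SpecialLinearGroup (Fin 2) F) (hodd : Odd (Fintype.card F))
    (hc : ((g.1 0 0 + g.1 1 1) ^ 2 - 1) ^ (Fintype.card F / 2) = -1)
    (y : M2) (hy : y * y = 1) (a b : F) (hyab : y = a • (1 : M2) + b • g.1) : y = 1 ∨ y = -1 := by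
  have h3 := three_eq (F := F)
  set τ := g.1 0 0 + g.1 1 1 with hτ
  set G : M2 := g.1 with hG
  have hs : G * G = τ • G - 1 := sq_eq g
  by_cases hb : b = 0
  · rw [hb, zero_smul, add_zero] at hyab
    have : a ^ 2 = 1 := by
      have := congrFun (congrFun hy 0) 0
      rw [hyab] at this
      simpa [Matrix.mul_apply, Fin.sum_univ_two, Matrix.smul_apply, Matrix.one_apply, pow_two] using this
    rcases sq_one this with h | h
    · left
      rw [hyab, h, one_smul]
    · right
      rw [hyab, h]
      simp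
  · right
    set A := a - 1 with hA
    set N := A ^ 2 + A * b * τ + b ^ 2 with hN
    have hN0 : N ≠ 0 := by
      intro h0
      have h1 : (2 * A + b * τ) ^ 2 = b ^ 2 * (τ ^ 2 - 1) := by
        linear_combination 4 * h0 + (-b ^ 2) * h3
      set w := (2 * A + b * τ) / b with hw
      have h2 : τ ^ 2 - 1 = w ^ 2 := by
        rw [hw, div_pow, h1]
        field_simp
      rw [h2] at hc
      have hw0 : w ≠ 0 := by
        intro h0'
        rw [h0'] at hc
        have : Fintype.card F / 2 ≠ 0 := by
          have : 2 < Fintype.card F := by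
            have := Fintype.one_lt_card (α := F)
            obtain ⟨s, hs'⟩ := hodd
            omega
          omega
        rw [zero_pow (by norm_num), zero_pow this] at hc
        exact one_ne_zero (neg_eq_zero.1 hc.symm)
      obtain ⟨s, hs'⟩ := hodd
      have hs2 : Fintype.card F / 2 = s := by omega
      rw [hs2, ← pow_mul] at hc
      have := FiniteField.pow_card_sub_one_eq_one w hw0
      rw [hs', Nat.add_sub_cancel, hc] at this
      have h2' : (2 : F) = 0 := by linear_combination -this
      have : (1 : F) = 0 := by linear_combination h3 - h2'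
      exact one_ne_zero this
    have hy1 : y - 1 = A • (1 : M2) + b • G := by
      rw [hyab, hA, sub_smul, one_smul]
      abel
    have hz : (y - 1) * ((A + b * τ) • (1 : M2) - b • G) = N • (1 : M2) := by
      rw [hy1, Matrix.add_mul, Matrix.mul_sub, Matrix.mul_sub]
      simp only [Matrix.smul_mul, Matrix.mul_smul, one_mul, mul_one, hs, smul_sub, smul_smul]
      ext i j
      simp only [Matrix.add_apply, Matrix.sub_apply, Matrix.smul_apply, smul_eq_mul, hN]
      ring
    have hprod : (y + 1) * (y - 1) = 0 := by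
      rw [Matrix.add_mul, Matrix.mul_sub, hy]
      simp
    have : (y + 1) * (N • (1 : M2)) = 0 := by
      rw [← hz, ← Matrix.mul_assoc, hprod, Matrix.zero_mul]
    rw [Matrix.mul_smul, mul_one] at this
    have h5 := (smul_eq_zero.1 this).resolve_left hN0
    exact eq_neg_of_add_eq_zero_left h5

/-- The trichotomy for powers. -/
theorem power_tri (g : SpecialLinearGroup (Fin 2) F) {α : ℕ} (hq : Fintype.card F = 3 ^ α)
    (hodd : Odd (Fintype.card F)) (hq1 : Odd (Fintype.card F)) :
    (QuotientGroup.mk (g ^ 3) : Matrix.ProjectiveSpecialLinearGroup (Fin 2) F) = 1 ∨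
    g ^ (Fintype.card F - 1) = 1 ∨
    (QuotientGroup.mk (g ^ ((Fintype.card F + 1) / 2)) : Matrix.ProjectiveSpecialLinearGroup (Fin 2) F) = 1 := by
  have h3 := three_eq (F := F)
  have hrc : ringChar F ≠ 2 := by
    rw [ringChar.eq F 3]
    norm_num
  have hqpos : 1 ≤ Fintype.card F := Fintype.card_pos
  set τ := g.1 0 0 + g.1 1 1 with hτ
  by_cases hD : τ ^ 2 - 1 = 0
  · left
    exact cube_of_trace g (by linear_combination hD)
  · right
    have hF := pow_card_eq g hq hodd
    rcases FiniteField.pow_dichotomy hrc hD with hc | hc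
    · left
      rw [← hτ, hc, one_smul, add_sub_cancel_right] at hF
      have e1 : g ^ Fintype.card F = g := by
        apply Subtype.ext
        rw [Matrix.SpecialLinearGroup.coe_pow, hF]
      have e2 : g ^ (Fintype.card F - 1) * g = 1 * g := by
        rw [← pow_succ, Nat.sub_add_cancel hqpos, e1, one_mul]
      exact mul_right_cancel e2
    · right
      rw [← hτ, hc] at hF
      set G : M2 := g.1 with hG
      have hs : G * G = τ • G - 1 := sq_eq g
      have hG1 : G ^ Fintype.card F = τ • (1 : M2) - G := by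
        rw [hF]
        ext i j
        simp only [Matrix.add_apply, Matrix.sub_apply, Matrix.smul_apply, smul_eq_mul]
        linear_combination (-(τ * (1 : M2) i j)) * h3
      have hG2 : G ^ (Fintype.card F + 1) = 1 := by
        rw [pow_succ, hG1, Matrix.sub_mul, hs, Matrix.smul_mul, one_mul]
        simp
      obtain ⟨s, hs'⟩ := hodd
      have hs2 : (Fintype.card F + 1) / 2 = s + 1 := by omega
      obtain ⟨a, b, hab⟩ := pow_span g ((Fintype.card F + 1) / 2)
      apply mk_eq_one_of
      rw [Matrix.SpecialLinearGroup.coe_pow]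
      apply half_pow g hq1 (by rw [← hτ]; exact hc) _ _ a b hab
      rw [← pow_add]
      have : (Fintype.card F + 1) / 2 + (Fintype.card F + 1) / 2 = Fintype.card F + 1 := by omega
      rw [this]
      exact hG2

end Cfsg.Agent.Lib.Known3.Spec4
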