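import Mathlib
import Cfsg.Agent.Lib.Known3.Spec4c
import Cfsg.Agent.Lib.Known3.PSLElements

/-! The group `V ⋊ (± × PSL₂(q))` and its spectrum. -/

set_option autoImplicit false

namespace Cfsg.Agent.Lib.Known3.Spec4

open Matrix

variable {F : Type*} [Field F] [CharP F 3]

local notation "M2" => Matrix (Fin 2) (Fin 2) F

omit [CharP F 3] in
lemma k_pow (ε : ℤˣ) (g : SpecialLinearGroup (Fin 2) F) (n : ℕ) :
    ((ε, (QuotientGroup.mk g : Matrix.ProjectiveSpecialLinearGroup (Fin 2) F)) : KK F) ^ n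
      = (ε ^ n, (QuotientGroup.mk (g ^ n) : Matrix.ProjectiveSpecialLinearGroup (Fin 2) F)) := by
  rw [Prod.pow_mk, QuotientGroup.mk_pow]

lemma eps_even (ε : ℤˣ) {n : ℕ} (hn : Even n) : ε ^ n = 1 := by
  obtain ⟨k, rfl⟩ := hn
  rw [← two_mul, pow_mul, Int.units_sq, one_pow]

variable [Fintype F]

/-- Every element of `H` has order dividing one of the four numbers. -/
theorem H_exp {α : ℕ} (hq : Fintype.card F = 3 ^ α) (h8 : Fintype.card F % 8 = 3) (h : HH F) :
    h ^ 6 = 1 ∨ h ^ 9 = 1 ∨ h ^ (Fintype.card F - 1) = 1 ∨ h ^ ((Fintype.card F + 1) / 2) = 1 := by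
  have h3 := three_eq (F := F)
  have hodd : Odd (Fintype.card F) := Nat.odd_iff.2 (by omega)
  have hneg : ¬ IsSquare (-1 : F) := by
    rw [FiniteField.isSquare_neg_one_iff]
    omega
  have hq1 : Even (Fintype.card F - 1) := by
    obtain ⟨s, hs⟩ := hodd
    exact ⟨s, by omega⟩
  have hq2 : Even ((Fintype.card F + 1) / 2) := by
    rw [Nat.even_iff]
    omega
  obtain ⟨v, ⟨ε, x⟩⟩ := h
  obtain ⟨g, rfl⟩ := QuotientGroup.mk_surjective x
  set k : KK F := (ε, (QuotientGroup.mk g : Matrix.ProjectiveSpecialLinearGroup (Fin 2) F)) with hk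
  by_cases hf : ∀ w : Multiplicative M2, phi k w = w → w = 1
  · rcases power_tri g hq hodd hodd with h1 | h1 | h1
    · left
      apply sd_pow_eq_one_of_fpf _ _ _ hf
      show k ^ 6 = 1
      rw [hk, k_pow, eps_even ε (by decide)]
      have : g ^ 6 = (g ^ 3) ^ 2 := by rw [← pow_mul]
      rw [this, QuotientGroup.mk_pow, h1, one_pow]
      rfl
    · right; right; left
      apply sd_pow_eq_one_of_fpf _ _ _ hf
      show k ^ (Fintype.card F - 1) = 1
      rw [hk, k_pow, eps_even ε hq1, h1]
      rfl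
    · right; right; right
      apply sd_pow_eq_one_of_fpf _ _ _ hf
      show k ^ ((Fintype.card F + 1) / 2) = 1
      rw [hk, k_pow, eps_even ε hq2, h1]
      rfl
  · push Not at hf
    obtain ⟨w, hw, hw1⟩ := hf
    have hX : Multiplicative.toAdd w ≠ 0 := fun h0 => hw1 (Multiplicative.toAdd.injective h0)
    have hwε : ∃ e : F, (e = 1 ∨ e = -1) ∧ (e = 1 → ε = 1) ∧ act g (Multiplicative.toAdd w) = e • Multiplicative.toAdd w := by
      rw [hk, phi_apply] at hw
      rcases Int.units_eq_one_or ε with rfl | rfl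
      · refine ⟨1, Or.inl rfl, fun _ => rfl, ?_⟩
        have : actE g w = w := by simpa using hw
        have h2 := congrArg Multiplicative.toAdd this
        rw [one_smul]
        exact h2
      · refine ⟨-1, Or.inr rfl, fun h' => ?_, ?_⟩
        · exfalso
          have : (1 : F) = 0 := by linear_combination h3 + h'
          exact one_ne_zero this
        · have : actE g w = w⁻¹ := by
            have h2 : (actE g w) ^ (-1 : ℤ) = w := by simpa using hw
            rw [_root_.zpow_neg_one] at h2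
            exact inv_eq_iff_eq_inv.1 h2
          have h2 := congrArg Multiplicative.toAdd this
          rw [neg_smul, one_smul]
          exact h2
    obtain ⟨e, he, heε, hact⟩ := hwε
    rcases fix_analysis hneg g e he _ hX hact with h1 | ⟨h1, h2⟩
    · left
      have := sd_pow_of_exp (φ := phi) ⟨v, k⟩ 2 3 (by
        show k ^ 2 = 1
        rw [hk, k_pow, eps_even ε (by decide), mk_sq_of_trace_zero g h1]
        rfl) exp_three
      exact this
    · right; left
      have := sd_pow_of_exp (φ := phi) ⟨v, k⟩ 3 3 (by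
        show k ^ 3 = 1
        rw [hk, k_pow, heε h1, one_pow, cube_of_trace g h2]
        rfl) exp_three
      exact this

/-- The unipotent element. -/
def uu : SpecialLinearGroup (Fin 2) F := ⟨!![1, 1; 0, 1], by simp [Matrix.det_fin_two]⟩

omit [CharP F 3] [Fintype F] in
lemma uu_val : (uu : SpecialLinearGroup (Fin 2) F).1 = !![1, 1; 0, 1] := rfl

omit [Fintype F] in
lemma mk_uu_order : orderOf (QuotientGroup.mk uu : Matrix.ProjectiveSpecialLinearGroup (Fin 2) F) = 3 := by
  have h3 := three_eq (F := F)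
  apply orderOf_eq_prime
  · rw [← QuotientGroup.mk_pow]
    apply cube_of_trace
    simp [uu_val]
    linear_combination h3
  · intro h
    rw [QuotientGroup.eq_one_iff, Matrix.SpecialLinearGroup.mem_center_iff] at h
    obtain ⟨r, hr, e⟩ := h
    have := congrFun (congrFun e 0) 1
    simp [uu_val, scalar_apply] at this

lemma orderOf_neg_units : orderOf (-1 : ℤˣ) = 2 :=
  orderOf_eq_prime (by decide) (by decide)

omit [CharP F 3] in
/-- The element of order `(q - 1)/2`. -/
lemma exists_order_split (h8 : Fintype.card F % 8 = 3) :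
    ∃ x : Matrix.ProjectiveSpecialLinearGroup (Fin 2) F, orderOf x = (Fintype.card F - 1) / 2 := by
  classical
  obtain ⟨l, hl⟩ := IsCyclic.exists_ofOrder_eq_natCard (α := Fˣ)
  rw [Nat.card_eq_fintype_card, Fintype.card_units] at hl
  set a := (Fintype.card F - 1) / 2 with ha
  have hqa : Fintype.card F - 1 = 2 * a := by omega
  let t : SpecialLinearGroup (Fin 2) F := ⟨diagonal (fun i => if i = 0 then (l : F) else ((l⁻¹ : Fˣ) : F)), by
    simp [Matrix.det_diagonal, Fin.prod_univ_two]⟩
  have ht : ∀ n : ℕ, (t ^ n).1 = diagonal (fun i => if i = 0 then ((l ^ n : Fˣ) : F) else ((l⁻¹ ^ n : Fˣ) : F)) := by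
    intro n
    rw [Matrix.SpecialLinearGroup.coe_pow]
    show (diagonal _) ^ n = _
    rw [Matrix.diagonal_pow]
    congr 1
    ext i
    by_cases hi : i = 0 <;> simp [hi]
  refine ⟨QuotientGroup.mk t, ?_⟩
  apply Nat.dvd_antisymm
  · apply orderOf_dvd_of_pow_eq_one
    rw [← QuotientGroup.mk_pow]
    apply mk_eq_one_of
    have h1 : (l ^ a) ^ 2 = 1 := by
      rw [← pow_mul, mul_comm, ← hqa, ← hl, pow_orderOf_eq_one]
    have h1' : ((l ^ a : Fˣ) : F) ^ 2 = 1 := by
      have := congrArg (fun u : Fˣ => (u : F)) h1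
      simpa using this
    have h2 : ((l⁻¹ ^ a : Fˣ) : F) = ((l ^ a : Fˣ) : F) := by
      have h3 : (l ^ a)⁻¹ = l ^ a := by
        rw [inv_eq_iff_mul_eq_one, ← pow_two, h1]
      rw [inv_pow, h3]
    rw [ht, h2]
    rcases sq_one h1' with h | h
    · left
      rw [h]
      ext i j
      simp [Matrix.diagonal_apply, Matrix.one_apply]
    · right
      rw [h]
      ext i j
      by_cases hij : i = j
      · subst hij
        simp
      · simp [Matrix.diagonal_apply, hij]
  · have h1 := pow_orderOf_eq_one (QuotientGroup.mk t : Matrix.ProjectiveSpecialLinearGroup (Fin 2) F)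
    set n := orderOf (QuotientGroup.mk t : Matrix.ProjectiveSpecialLinearGroup (Fin 2) F) with hn
    rw [← QuotientGroup.mk_pow, QuotientGroup.eq_one_iff, Matrix.SpecialLinearGroup.mem_center_iff] at h1
    obtain ⟨r, hr, e⟩ := h1
    rw [ht] at e
    have e0 := congrFun (congrFun e 0) 0
    have e1 := congrFun (congrFun e 1) 1
    simp only [scalar_apply, diagonal_apply_eq, if_true] at e0
    simp only [scalar_apply, diagonal_apply_eq, Fin.isValue, one_ne_zero, if_false] at e1
    have h2 : l ^ n = l⁻¹ ^ n := by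
      apply Units.ext
      rw [← e0, ← e1]
    have h3 : l ^ (2 * n) = 1 := by
      rw [two_mul, pow_add]
      nth_rw 1 [h2]
      rw [inv_pow, inv_mul_cancel]
    have h4 := orderOf_dvd_of_pow_eq_one h3
    rw [hl, hqa] at h4
    exact Nat.dvd_of_mul_dvd_mul_left (by norm_num) h4


omit [CharP F 3] in
/-- The element of order `(q + 1)/2`. -/
lemma exists_order_nonsplit (h8 : Fintype.card F % 8 = 3) :
    ∃ x : Matrix.ProjectiveSpecialLinearGroup (Fin 2) F, orderOf x = (Fintype.card F + 1) / 2 := by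
  apply Cfsg.Agent.Lib.Known3.PSLElements.exists_orderOf_of_dvd_cA (by norm_num)
  have h1 : Cfsg.Agent.Lib.Known3.PSLCyclic.cA (Fintype.card F) 2 = (Fintype.card F + 1) / 2 := by
    have h2 : Cfsg.Agent.Lib.Known3.PSLCyclic.cC (Fintype.card F) 2 = Fintype.card F + 1 := by
      rw [Cfsg.Agent.Lib.Known3.PSLCyclic.cC_eq_sum (by omega)]
      simp [Finset.sum_range_succ]
      ring
    rw [Cfsg.Agent.Lib.Known3.PSLCyclic.cA, h2]
    have h3 : Nat.gcd (Fintype.card F + 1) (Fintype.card F - 1) = 2 := by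
      obtain ⟨s, hs⟩ : ∃ s, Fintype.card F = 2 * s + 1 := ⟨Fintype.card F / 2, by omega⟩
      rw [hs]
      have e1 : 2 * s + 1 + 1 = 2 * (s + 1) := by ring
      have e2 : 2 * s + 1 - 1 = 2 * s := by omega
      rw [e1, e2, Nat.gcd_mul_left]
      have : Nat.gcd (s + 1) s = 1 := by simp
      rw [this]
    rw [h3]
  rw [h1]

/-- The module element. -/
def X0 : M2 := !![0, 0; 0, 1]

omit [Fintype F] in
lemma act_X0 (g : SpecialLinearGroup (Fin 2) F) : act g X0 0 0 = (g.1 0 1) ^ 4 := by
  simp only [act, X0, Matrix.mul_apply, Fin.sum_univ_two, transpose_apply, sg_apply]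
  simp
  ring

omit [Fintype F] in
/-- `H` has an element of order 9. -/
lemma exists_order_nine : ∃ h : HH F, orderOf h = 9 := by
  have h3 := three_eq (F := F)
  let k : KK F := (1, QuotientGroup.mk uu)
  have hk : ∀ n : ℕ, k ^ n = (1, (QuotientGroup.mk (uu ^ n) : Matrix.ProjectiveSpecialLinearGroup (Fin 2) F)) := by
    intro n
    have := k_pow (1 : ℤˣ) (uu : SpecialLinearGroup (Fin 2) F) n
    rwa [one_pow] at this
  have hk3 : k ^ 3 = 1 := by
    rw [hk, QuotientGroup.mk_pow, ← mk_uu_order (F := F), pow_orderOf_eq_one]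
    rfl
  let h : HH F := ⟨Multiplicative.ofAdd X0, k⟩
  refine ⟨h, ?_⟩
  have e1 : h ^ (3 * 3) = 1 := sd_pow_of_exp h 3 3 hk3 exp_three
  have e2 : ¬ h ^ 3 = 1 := by
    intro e
    have e3 : (h ^ 3).left = 1 := by rw [e]; rfl
    rw [sd_left_pow] at e3
    have e4 : Multiplicative.toAdd (∏ i ∈ Finset.range 3, phi (h.right ^ i) h.left) 0 0 = 0 := by
      rw [e3]
      rfl
    have e5 : ∀ i, phi (h.right ^ i) h.left = Multiplicative.ofAdd (act (uu ^ i) X0) := by
      intro i
      show phi (k ^ i) _ = _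
      rw [hk, phi_apply]
      simp [actE_apply]
      rfl
    simp only [e5] at e4
    simp only [Finset.prod_range_succ, Finset.prod_range_zero, one_mul, toAdd_mul, toAdd_ofAdd, Matrix.add_apply,
      act_X0] at e4
    simp [pow_two, uu_val, Matrix.mul_apply, Fin.sum_univ_two] at e4
    have : (1 : F) = 0 := by linear_combination -e4 + 6 * h3
    exact one_ne_zero this
  have := orderOf_eq_prime_pow (p := 3) (n := 1) (x := h) (by simpa using e2) (by simpa using e1)
  simpa using this


/-- The arithmetic of the four numbers. -/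
lemma antichain (t s : ℕ) (ht : t + 2 = 2 * s) (hs : 14 ≤ s) (h3t : ¬ 3 ∣ t) (h3s : ¬ 3 ∣ s) :
    ∀ a ∈ ({6, 9, t, s} : Set ℕ), ∀ b ∈ ({6, 9, t, s} : Set ℕ), a ∣ b → a = b := by
  have h63 : (3 : ℕ) ∣ 6 := by norm_num
  have h93 : (3 : ℕ) ∣ 9 := by norm_num
  have hst : ¬ s ∣ t := by
    intro h
    have h2 : s ∣ t + 2 := by rw [ht]; exact Dvd.intro_left 2 rfl
    have h3 : s ∣ 2 := (Nat.dvd_add_right h).1 h2
    have := Nat.le_of_dvd (by norm_num) h3
    omega
  intro a ha b hb hab
  simp only [Set.mem_insert_iff, Set.mem_singleton_iff] at ha hb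
  rcases ha with ha | ha | ha | ha <;> rcases hb with hb | hb | hb | hb <;> rw [ha, hb] at hab ⊢
  · omega
  · exact absurd (h63.trans hab) h3t
  · exact absurd (h63.trans hab) h3s
  · omega
  · exact absurd (h93.trans hab) h3t
  · exact absurd (h93.trans hab) h3s
  · have := Nat.le_of_dvd (by norm_num) hab
    omega
  · have := Nat.le_of_dvd (by norm_num) hab
    omega
  · have := Nat.le_of_dvd (by omega) hab
    omega
  · have := Nat.le_of_dvd (by norm_num) hab
    omega
  · have := Nat.le_of_dvd (by norm_num) hab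
    omega
  · exact absurd hab hst

omit [CharP F 3] [Fintype F] in
lemma maximal_set {H : Type*} [Group H] (S : Set ℕ)
    (hA : ∀ h : H, ∃ m ∈ S, orderOf h ∣ m) (hB : ∀ m ∈ S, m ∈ Set.range (orderOf : H → ℕ))
    (hC : ∀ a ∈ S, ∀ b ∈ S, a ∣ b → a = b) :
    {n : ℕ | n ∈ Set.range (orderOf : H → ℕ) ∧ ∀ m ∈ Set.range (orderOf : H → ℕ), n ∣ m → m = n} = S := by
  ext n
  constructor
  · rintro ⟨⟨h, rfl⟩, hmax⟩
    obtain ⟨m, hm, hd⟩ := hA h
    rw [← hmax m (hB m hm) hd]
    exact hm
  · intro hn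
    refine ⟨hB n hn, ?_⟩
    rintro _ ⟨h, rfl⟩ hd
    obtain ⟨m, hm, hd'⟩ := hA h
    have := hC n hn m hm (hd.trans hd')
    subst this
    exact Nat.dvd_antisymm hd' hd

/-- The main result over `F`. -/
theorem main_F {α : ℕ} (hq : Fintype.card F = 3 ^ α) (hα : 3 ≤ α) (hodd : Odd α) :
    (∃ P : Subgroup (HH F), P.Normal ∧ P ≠ ⊥ ∧ IsPGroup 3 ↥P) ∧
    {n : ℕ | n ∈ Set.range (orderOf : HH F → ℕ) ∧ ∀ m ∈ Set.range (orderOf : HH F → ℕ), n ∣ m → m = n}
      = ({6, 9, 3 ^ α - 1, (3 ^ α + 1) / 2} : Set ℕ) := by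
  have h8 : Fintype.card F % 8 = 3 := by
    obtain ⟨k, rfl⟩ := hodd
    rw [hq, pow_succ, pow_mul, Nat.mul_mod, Nat.pow_mod]
    norm_num
  have h27 : 27 ≤ Fintype.card F := by
    rw [hq]
    calc 27 = 3 ^ 3 := by norm_num
      _ ≤ 3 ^ α := Nat.pow_le_pow_right (by norm_num) hα
  have h30 : Fintype.card F % 3 = 0 := by
    rw [hq]
    obtain ⟨k, rfl⟩ : ∃ k, α = k + 1 := ⟨α - 1, by omega⟩
    rw [pow_succ]
    omega
  rw [← hq]
  constructor
  · refine ⟨(SemidirectProduct.inl : Multiplicative M2 →* HH F).range, ?_, ?_, ?_⟩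
    · rw [SemidirectProduct.range_inl_eq_ker_rightHom]
      infer_instance
    · intro h
      have h1 : (SemidirectProduct.inl : Multiplicative M2 →* HH F) (Multiplicative.ofAdd 1)
          ∈ (SemidirectProduct.inl : Multiplicative M2 →* HH F).range := ⟨_, rfl⟩
      rw [h, Subgroup.mem_bot] at h1
      have h2 := congrArg SemidirectProduct.left h1
      have h3 : (Multiplicative.ofAdd (1 : M2)) = 1 := h2
      have h4 : (1 : M2) = 0 := Multiplicative.ofAdd.injective h3
      exact one_ne_zero h4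
    · rintro ⟨x, ⟨n, rfl⟩⟩
      refine ⟨1, ?_⟩
      apply Subtype.ext
      simp only [pow_one, Subgroup.coe_pow, Subgroup.coe_one]
      rw [← map_pow, exp_three, map_one]
  · apply maximal_set
    · intro h
      rcases H_exp hq h8 h with h1 | h1 | h1 | h1
      · exact ⟨6, by simp, orderOf_dvd_of_pow_eq_one h1⟩
      · exact ⟨9, by simp, orderOf_dvd_of_pow_eq_one h1⟩
      · exact ⟨_, by simp, orderOf_dvd_of_pow_eq_one h1⟩
      · exact ⟨_, by simp, orderOf_dvd_of_pow_eq_one h1⟩
    · have hinr : ∀ k : KK F, orderOf (SemidirectProduct.inr k : HH F) = orderOf k := fun k =>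
        orderOf_injective _ SemidirectProduct.inr_injective k
      rintro m (rfl | rfl | rfl | rfl : m = 6 ∨ m = 9 ∨ m = _ ∨ m = _)
      · refine ⟨SemidirectProduct.inr (-1, QuotientGroup.mk uu), ?_⟩
        rw [hinr, Prod.orderOf]
        show (orderOf (-1 : ℤˣ)).lcm (orderOf (QuotientGroup.mk uu : Matrix.ProjectiveSpecialLinearGroup (Fin 2) F)) = 6
        rw [orderOf_neg_units, mk_uu_order]
        norm_num
      · exact exists_order_nine
      · obtain ⟨x, hx⟩ := exists_order_split (F := F) h8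
        refine ⟨SemidirectProduct.inr (-1, x), ?_⟩
        rw [hinr, Prod.orderOf]
        show (orderOf (-1 : ℤˣ)).lcm (orderOf x) = _
        rw [orderOf_neg_units, hx]
        have hc : Nat.Coprime 2 ((Fintype.card F - 1) / 2) := by
          rw [Nat.coprime_two_left, Nat.odd_iff]
          omega
        rw [hc.lcm_eq_mul]
        omega
      · obtain ⟨x, hx⟩ := exists_order_nonsplit (F := F) h8
        refine ⟨SemidirectProduct.inr (-1, x), ?_⟩
        rw [hinr, Prod.orderOf]
        show (orderOf (-1 : ℤˣ)).lcm (orderOf x) = _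
        rw [orderOf_neg_units, hx]
        apply Nat.lcm_eq_right
        rw [Nat.dvd_iff_mod_eq_zero]
        omega
    · apply antichain
      · omega
      · omega
      · omega
      · omega

end Cfsg.Agent.Lib.Known3.Spec4
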